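import Cfsg.Agent.H225.Gen.NS
import Cfsg.Agent.Nodes.SimplyLaced

/-!
# `g² = -1` on the roots of `E8` and subsystems of type `D4` (S2187 X3, helper230)

* `exists_base` : if `g` preserves the roots of `E8` and `g² = -1` then there is a base `w β` (`β` the nodes `3; 1, 2, 4`) of a
  subsystem of type `D4` on which `g` acts as an explicit element `v` of the Weyl group of `D4`.
-/

set_option autoImplicit false
set_option linter.unusedSectionVars false
set_option linter.unusedVariables false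

namespace Cfsg.Agent.H230.X3.Comb

open CoxeterSystem Cfsg Cfsg.Lie Cfsg.Lie.ChevalleyDatum
open Cfsg.Agent.ChevalleyStructure Cfsg.Agent.ChevalleyStructure.Elts Cfsg.Agent.ChevalleyStructure.CoxeterGeom
  Cfsg.Agent.ChevalleyStructure.CoxeterGeomTypes Cfsg.Agent.ChevalleyStructure.NPerm
open Cfsg.Agent.Tits.Roots Cfsg.Agent.Tits.Core Cfsg.Agent.Nodes Cfsg.Agent.Nodes.Reps Cfsg.Agent.Nodes.BNOf
  Cfsg.Agent.Nodes.RGDChev Cfsg.Agent.Nodes.SubComb Cfsg.Agent.Nodes.Coroot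
open Cfsg.Agent.H225.Gen
open Cfsg.Agent.H123.ExcComb (cpr_sub)

/-! ### dominant vectors -/

section Dom

variable {I W : Type*} [Fintype I] [DecidableEq I] [Group W] {M : CoxeterMatrix I} (cs : CoxeterSystem M W)
  {A : I → I → ℤ} (h : IsCartan M A)

theorem exists_dom [Finite W] (S : Set I) (y : I → ℤ) : ∃ w ∈ Subgroup.closure (cs.simple '' S), ∀ i ∈ S,
    0 ≤ pairing A i (rep cs h w y) := by
  obtain ⟨w, hw⟩ := Finite.exists_max (α := ↥(Subgroup.closure (cs.simple '' S)))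
    (fun w => ∑ j, rep cs h w.1 y j)
  refine ⟨w.1, w.2, fun i hi => ?_⟩
  by_contra hc
  push Not at hc
  have h1 := hw ⟨cs.simple i * w.1, mul_mem (Subgroup.subset_closure ⟨i, hi, rfl⟩) w.2⟩
  have h2 : ∑ j, rep cs h (cs.simple i * w.1) y j = ∑ j, rep cs h w.1 y j - pairing A i (rep cs h w.1 y) := by
    rw [rep_mul_apply, rep_simple_eq]
    simp only [Pi.sub_apply, Pi.smul_apply, smul_eq_mul, Finset.sum_sub_distrib]
    rw [← Finset.mul_sum]
    congr 1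
    have : ∑ j, (sr i : I → ℤ) j = 1 := by
      rw [Finset.sum_eq_single i (fun j _ hj => sr_ne hj) (fun h => absurd (Finset.mem_univ i) h), sr_self]
    rw [this, mul_one]
  have h3 : ∑ j, rep cs h (cs.simple i * w.1) y j ≤ ∑ j, rep cs h w.1 y j := h1
  omega

theorem rep_fix {S : Set I} {z : I → ℤ} (hz : ∀ i ∈ S, pairing A i z = 0) {w : W}
    (hw : w ∈ Subgroup.closure (cs.simple '' S)) : rep cs h w z = z := by
  refine Subgroup.closure_induction (p := fun w _ => rep cs h w z = z) ?_ ?_ ?_ ?_ hw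
  · rintro _ ⟨i, hi, rfl⟩
    rw [rep_simple_eq, hz i hi, zero_smul, sub_zero]
  · rw [map_one, Module.End.one_apply]
  · rintro a b - - ha hb
    rw [rep_mul_apply, hb, ha]
  · rintro a - ha
    conv_lhs => rw [← ha]
    rw [rep_inv_apply]

end Dom

/-! ### the canonical tuple -/

theorem chk1 : ∀ r < 240, (∀ i < 8, 0 ≤ chevE8.cartan i r) → r = 239 := by decide +kernel

theorem chk2 : ∀ r < 240, vec chevE8 8 r 7 = -1 → (∀ i < 7, 0 ≤ chevE8.cartan i r) → r = 119 := by decide +kernel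

theorem chk3 : ∀ r < 240, vec chevE8 8 r 7 = -1 → vec chevE8 8 r 6 - 2 * vec chevE8 8 r 7 = 0 →
    (∀ i < 6, 0 ≤ chevE8.cartan i r) → r = 78 := by decide +kernel

theorem chk4' : ∀ r < 240, (vec chevE8 8 r 7 = -1 ∧ vec chevE8 8 r 6 - 2 * vec chevE8 8 r 7 = 0 ∧
    vec chevE8 8 r 0 - vec chevE8 8 r 6 = 0 ∧ ∀ i < 5, 0 ≤ chevE8.cartan (i + 1) r) → r = 11 := by decide +kernel

theorem chk4 (r : ℕ) (hr : r < 240) (h1 : vec chevE8 8 r 7 = -1) (h2 : vec chevE8 8 r 6 - 2 * vec chevE8 8 r 7 = 0)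
    (h3 : vec chevE8 8 r 0 - vec chevE8 8 r 6 = 0) (h4 : ∀ i < 6, 1 ≤ i → 0 ≤ chevE8.cartan i r) : r = 11 :=
  chk4' r hr ⟨h1, h2, h3, fun i hi => h4 (i + 1) (by omega) (by omega)⟩

theorem cart_le : ∀ i j : Fin 8, i ≠ j → cartanOf chevE8 8 i j = 0 ∨ cartanOf chevE8 8 i j = -1 := by decide +kernel

theorem no46 (i j : Fin 8) : CoxeterMatrix.E₈ i j ≠ 4 ∧ CoxeterMatrix.E₈ i j ≠ 6 := by
  have hp : IsType chevE8 8 CoxeterMatrix.E₈ := by simp [IsType, typeList]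
  by_cases hij : i = j
  · subst hij; rw [CoxeterMatrix.diagonal]; decide
  have h3 := hp.isCartan.rel i j hij
  have h4 := cart_le i j hij
  have h5 := cart_le j i (Ne.symm hij)
  omega
theorem no4 (i j : Fin 8) : CoxeterMatrix.E₈ i j ≠ 4 := (no46 i j).1
theorem no6 (i j : Fin 8) : CoxeterMatrix.E₈ i j ≠ 6 := (no46 i j).2

section Tup

variable (hp : IsType chevE8 8 CoxeterMatrix.E₈) {W : Type*} [Group W] (cs : CoxeterSystem CoxeterMatrix.E₈ W)

theorem cpr_vec_sum (x : Fin 8 → ℤ) {r : ℕ} (hr : r < 240) :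
    cpr cs hp.isCartan x (vec chevE8 8 r) = ∑ k : Fin 8, x k * chevE8.cartan k r := by
  have := finite_W hp cs
  rw [SimplyLaced.cpr_eq_sum cs hp.isCartan no4 no6 x (isRoot_vec hp cs hr)]
  refine Finset.sum_congr rfl fun k _ => ?_
  rw [pairing_vec hp k hr]

theorem cpr1 (x : Fin 8 → ℤ) : cpr cs hp.isCartan x (vec chevE8 8 239) = x 7 := by
  rw [cpr_vec_sum hp cs x (by norm_num)]
  have h1 : ∀ k : Fin 8, chevE8.cartan k 239 = if k = 7 then 1 else 0 := by decide +kernel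
  simp only [h1, mul_ite, mul_one, mul_zero, Finset.sum_ite_eq', Finset.mem_univ, if_true]

theorem cpr2 (x : Fin 8 → ℤ) : cpr cs hp.isCartan x (vec chevE8 8 119) = x 6 - 2 * x 7 := by
  rw [cpr_vec_sum hp cs x (by norm_num)]
  have h1 : ∀ k : Fin 8, chevE8.cartan k 119 = (if k = 6 then 1 else 0) + (if k = 7 then -2 else 0) := by
    decide +kernel
  simp only [h1, mul_add, mul_ite, mul_one, mul_zero, Finset.sum_add_distrib, Finset.sum_ite_eq', Finset.mem_univ,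
    if_true]
  ring

theorem cpr3 (x : Fin 8 → ℤ) : cpr cs hp.isCartan x (vec chevE8 8 78) = x 0 - x 6 := by
  rw [cpr_vec_sum hp cs x (by norm_num)]
  have h1 : ∀ k : Fin 8, chevE8.cartan k 78 = (if k = 0 then 1 else 0) + (if k = 6 then -1 else 0) := by
    decide +kernel
  simp only [h1, mul_add, mul_ite, mul_one, mul_zero, Finset.sum_add_distrib, Finset.sum_ite_eq', Finset.mem_univ,
    if_true]
  ring

/-- **all tuples of type `D4` are conjugate to the canonical one** -/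
theorem exists_canon {y : Fin 4 → Fin 8 → ℤ} (hy : ∀ i, IsRoot cs hp.isCartan (y i))
    (h10 : cpr cs hp.isCartan (y 1) (y 0) = -1) (h20 : cpr cs hp.isCartan (y 2) (y 0) = -1)
    (h30 : cpr cs hp.isCartan (y 3) (y 0) = -1) (h21 : cpr cs hp.isCartan (y 2) (y 1) = 0)
    (h31 : cpr cs hp.isCartan (y 3) (y 1) = 0) (h32 : cpr cs hp.isCartan (y 3) (y 2) = 0) :
    ∃ w : W, rep cs hp.isCartan w (y 0) = vec chevE8 8 239 ∧ rep cs hp.isCartan w (y 1) = vec chevE8 8 119 ∧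
      rep cs hp.isCartan w (y 2) = vec chevE8 8 78 ∧ rep cs hp.isCartan w (y 3) = vec chevE8 8 11 := by
  have := finite_W hp cs
  have hv : ∀ {x : Fin 8 → ℤ}, IsRoot cs hp.isCartan x → ∃ r < 240, x = vec chevE8 8 r := fun {x} hx => by
    obtain ⟨r, hr, rfl⟩ := (isRoot_iff hp cs x).1 hx
    exact ⟨r, hr, rfl⟩
  have hpv : ∀ {i : ℕ} (hi : i < 8) {r : ℕ} (hr : r < 240), 0 ≤ pairing (cartanOf chevE8 8) ⟨i, hi⟩ (vec chevE8 8 r) →
      0 ≤ chevE8.cartan i r := fun {i} hi {r} hr h => by rwa [pairing_vec hp ⟨i, hi⟩ hr] at h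
  -- step 0
  obtain ⟨w0, -, hw0⟩ := exists_dom cs hp.isCartan Set.univ (y 0)
  have e0 : rep cs hp.isCartan w0 (y 0) = vec chevE8 8 239 := by
    obtain ⟨r, hr, e⟩ := hv ((hy 0).act w0)
    rw [e] at hw0 ⊢
    rw [chk1 r hr fun i hi => hpv hi hr (hw0 _ (Set.mem_univ _))]
  -- step 1
  obtain ⟨w1, hw1', hw1⟩ := exists_dom cs hp.isCartan {i : Fin 8 | i.val < 7} (rep cs hp.isCartan w0 (y 1))
  have f0 : rep cs hp.isCartan w1 (vec chevE8 8 239) = vec chevE8 8 239 := by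
    refine rep_fix cs hp.isCartan (fun i hi => ?_) hw1'
    rw [pairing_vec hp i (show 239 < chevE8.nroots by decide)]
    revert i
    decide +kernel
  have e0' : rep cs hp.isCartan (w1 * w0) (y 0) = vec chevE8 8 239 := by rw [rep_mul_apply, e0, f0]
  have e1 : rep cs hp.isCartan (w1 * w0) (y 1) = vec chevE8 8 119 := by
    have h1 := cpr_rep cs hp.isCartan (w1 * w0) (y 1) (hy 0)
    rw [e0', h10, cpr1 hp cs] at h1
    rw [← rep_mul_apply] at hw1
    obtain ⟨r, hr, e⟩ := hv ((hy 1).act (w1 * w0))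
    rw [e] at hw1 h1 ⊢
    rw [chk2 r hr h1 fun i hi => hpv (by omega) hr (hw1 _ hi)]
  -- step 2
  obtain ⟨w2, hw2', hw2⟩ := exists_dom cs hp.isCartan {i : Fin 8 | i.val < 6} (rep cs hp.isCartan (w1 * w0) (y 2))
  have f0 : rep cs hp.isCartan w2 (vec chevE8 8 239) = vec chevE8 8 239 := by
    refine rep_fix cs hp.isCartan (fun i hi => ?_) hw2'
    rw [pairing_vec hp i (show 239 < chevE8.nroots by decide)]
    revert i
    decide +kernel
  have f1 : rep cs hp.isCartan w2 (vec chevE8 8 119) = vec chevE8 8 119 := by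
    refine rep_fix cs hp.isCartan (fun i hi => ?_) hw2'
    rw [pairing_vec hp i (show 119 < chevE8.nroots by decide)]
    revert i
    decide +kernel
  have e0'' : rep cs hp.isCartan (w2 * (w1 * w0)) (y 0) = vec chevE8 8 239 := by rw [rep_mul_apply, e0', f0]
  have e1' : rep cs hp.isCartan (w2 * (w1 * w0)) (y 1) = vec chevE8 8 119 := by rw [rep_mul_apply, e1, f1]
  have e2 : rep cs hp.isCartan (w2 * (w1 * w0)) (y 2) = vec chevE8 8 78 := by
    have h1 := cpr_rep cs hp.isCartan (w2 * (w1 * w0)) (y 2) (hy 0)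
    have h2 := cpr_rep cs hp.isCartan (w2 * (w1 * w0)) (y 2) (hy 1)
    rw [e0'', h20, cpr1 hp cs] at h1
    rw [e1', h21, cpr2 hp cs] at h2
    rw [← rep_mul_apply] at hw2
    obtain ⟨r, hr, e⟩ := hv ((hy 2).act (w2 * (w1 * w0)))
    rw [e] at hw2 h1 h2 ⊢
    rw [chk3 r hr h1 h2 fun i hi => hpv (by omega) hr (hw2 _ hi)]
  -- step 3
  obtain ⟨w3, hw3', hw3⟩ := exists_dom cs hp.isCartan {i : Fin 8 | i.val < 6 ∧ 1 ≤ i.val}
    (rep cs hp.isCartan (w2 * (w1 * w0)) (y 3))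
  have f0 : rep cs hp.isCartan w3 (vec chevE8 8 239) = vec chevE8 8 239 := by
    refine rep_fix cs hp.isCartan (fun i hi => ?_) hw3'
    rw [pairing_vec hp i (show 239 < chevE8.nroots by decide)]
    revert i
    decide +kernel
  have f1 : rep cs hp.isCartan w3 (vec chevE8 8 119) = vec chevE8 8 119 := by
    refine rep_fix cs hp.isCartan (fun i hi => ?_) hw3'
    rw [pairing_vec hp i (show 119 < chevE8.nroots by decide)]
    revert i
    decide +kernel
  have f2 : rep cs hp.isCartan w3 (vec chevE8 8 78) = vec chevE8 8 78 := by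
    refine rep_fix cs hp.isCartan (fun i hi => ?_) hw3'
    rw [pairing_vec hp i (show 78 < chevE8.nroots by decide)]
    revert i
    decide +kernel
  refine ⟨w3 * (w2 * (w1 * w0)), by rw [rep_mul_apply, e0'', f0], by rw [rep_mul_apply, e1', f1],
    by rw [rep_mul_apply, e2, f2], ?_⟩
  have h1 := cpr_rep cs hp.isCartan (w3 * (w2 * (w1 * w0))) (y 3) (hy 0)
  have h2 := cpr_rep cs hp.isCartan (w3 * (w2 * (w1 * w0))) (y 3) (hy 1)
  have h3 := cpr_rep cs hp.isCartan (w3 * (w2 * (w1 * w0))) (y 3) (hy 2)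
  rw [rep_mul_apply cs hp.isCartan w3 _ (y 0), e0'', f0, h30, cpr1 hp cs] at h1
  rw [rep_mul_apply cs hp.isCartan w3 _ (y 1), e1', f1, h31, cpr2 hp cs] at h2
  rw [rep_mul_apply cs hp.isCartan w3 _ (y 2), e2, f2, h32, cpr3 hp cs] at h3
  rw [← rep_mul_apply] at hw3
  obtain ⟨r, hr, e⟩ := hv ((hy 3).act (w3 * (w2 * (w1 * w0))))
  rw [e] at hw3 h1 h2 h3 ⊢
  rw [chk4 r hr h1 h2 h3 fun i hi hi1 => hpv (by omega) hr (hw3 _ ⟨hi, hi1⟩)]

theorem root_mem_LL {x : Fin 8 → ℤ} (hx : IsRoot cs hp.isCartan x) : x ∈ LL cs hp := by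
  have := finite_W hp cs
  obtain ⟨w0, -, hw0⟩ := exists_dom cs hp.isCartan Set.univ x
  obtain ⟨r, hr, e⟩ := (isRoot_iff hp cs _).1 (hx.act w0)
  have hr' : r < 240 := hr
  have e0 : rep cs hp.isCartan w0 x = vec chevE8 8 239 := by
    rw [← e] at hw0 ⊢
    rw [chk1 r hr' fun i hi => by
      have := hw0 ⟨i, hi⟩ (Set.mem_univ _)
      rwa [pairing_vec hp ⟨i, hi⟩ hr] at this]
  refine ⟨w0⁻¹, ?_⟩
  show _ = rep cs hp.isCartan w0⁻¹ (vec chevE8 8 239)
  rw [← e0, rep_inv_apply]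

theorem exists_neg {x y : Fin 8 → ℤ} (hx : IsRoot cs hp.isCartan x) (hy : IsRoot cs hp.isCartan y)
    (h1 : cpr cs hp.isCartan x y = 1 ∨ cpr cs hp.isCartan x y = -1) :
    ∃ x', IsRoot cs hp.isCartan x' ∧ cpr cs hp.isCartan x' y = -1 ∧
      ∀ z, IsRoot cs hp.isCartan z → cpr cs hp.isCartan y z = 0 → cpr cs hp.isCartan x' z = cpr cs hp.isCartan x z := by
  have := finite_W hp cs
  rcases h1 with h1 | h1
  · refine ⟨x - cpr cs hp.isCartan x y • y, isRoot_refl cs hp.isCartan hx hy, ?_, fun z hz h2 => ?_⟩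
    · rw [cpr_sub hy, cpr_smul cs _ _ _ hy, cpr_self cs _ hy, h1]; norm_num
    · rw [cpr_sub hz, cpr_smul cs _ _ _ hz, h2, mul_zero, sub_zero]
  · exact ⟨x, hx, h1, fun _ _ _ => rfl⟩

/-- **A base of a subsystem of type `D4` adapted to `g`.** -/
theorem exists_base {g : (Fin 8 → ℤ) ≃+ (Fin 8 → ℤ)} (hg : ∀ a, IsRoot cs hp.isCartan (g a) ↔ IsRoot cs hp.isCartan a)
    (hsq : ∀ x, g (g x) = -x) : ∃ w : W,
      g (rep cs hp.isCartan w (sr 3)) = rep cs hp.isCartan w (sr 3 + sr 1 + sr 4) ∧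
      g (rep cs hp.isCartan w (sr 1)) = rep cs hp.isCartan w (sr 2) ∧
      g (rep cs hp.isCartan w (sr 2)) = rep cs hp.isCartan w (-sr 1) ∧
      g (rep cs hp.isCartan w (sr 4)) = rep cs hp.isCartan w (-(sr 3 + sr 3 + sr 1 + sr 2 + sr 4)) := by
  have := finite_W hp cs
  have h := hi_E8
  have symm : ∀ {x y}, IsRoot cs hp.isCartan x → IsRoot cs hp.isCartan y →
      cpr cs hp.isCartan x y = cpr cs hp.isCartan y x := fun {x y} hx hy => SimplyLaced.cpr_symm cs _ no4 no6 hx hy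
  have inv : ∀ {x y}, IsRoot cs hp.isCartan x → IsRoot cs hp.isCartan y →
      cpr cs hp.isCartan (g x) (g y) = cpr cs hp.isCartan x y := fun {x y} hx hy => H123.ExcComb.cpr_g hg hx hy
  have orth : ∀ {x}, IsRoot cs hp.isCartan x → cpr cs hp.isCartan x (g x) = 0 := fun {x} hx => by
    have h1 := inv hx ((hg x).2 hx)
    rw [hsq, cpr_neg_right cs _ _ hx, symm ((hg x).2 hx) hx] at h1
    omega
  -- the roots `a1, a2`
  obtain ⟨a1, ha1⟩ : ∃ a1, IsRoot cs hp.isCartan a1 := ⟨_, isRoot_sr cs hp.isCartan 0⟩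
  have ha2 := (hg a1).2 ha1
  obtain ⟨c, hc, hc1, hc2⟩ := LL_conn h hp cs (root_mem_LL hp cs ha1) (root_mem_LL hp cs ha2)
  have hcr := LL_root h hp cs hc
  have hne : ∀ {x}, (x = c ∨ x = -c) → x = a1 ∨ x = g a1 → False := by
    rintro x (rfl | rfl) (h1 | h1)
    · rw [h1] at hc2; exact hc2 (orth ha1)
    · rw [h1] at hc1; exact hc1 (orth ha1)
    · have h2 : c = -a1 := by rw [← h1, neg_neg]
      rw [h2, cpr_neg cs _ _ ha2, orth ha1, neg_zero] at hc2
      exact hc2 rfl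
    · have h2 : c = -g a1 := by rw [← h1, neg_neg]
      rw [h2, cpr_neg_right cs _ _ ha2, orth ha1, neg_zero] at hc1
      exact hc1 rfl
  have hv1 : cpr cs hp.isCartan c a1 = 1 ∨ cpr cs hp.isCartan c a1 = -1 := by
    have h1 := SimplyLaced.abs_cpr_le_one cs hp.isCartan no4 no6 hcr ha1 (fun e => hne (Or.inl rfl) (Or.inl e))
      (fun e => hne (Or.inr rfl) (Or.inl (by rw [e, neg_neg])))
    rw [symm ha1 hcr] at hc1
    rw [abs_le] at h1
    omega
  have hv2 : cpr cs hp.isCartan c (g a1) = 1 ∨ cpr cs hp.isCartan c (g a1) = -1 := by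
    have h1 := SimplyLaced.abs_cpr_le_one cs hp.isCartan no4 no6 hcr ha2 (fun e => hne (Or.inl rfl) (Or.inr e))
      (fun e => hne (Or.inr rfl) (Or.inr (by rw [e, neg_neg])))
    rw [abs_le] at h1
    omega
  obtain ⟨c', hc', hc'1, hc'2⟩ := exists_neg hp cs hcr ha1 hv1
  obtain ⟨a0, ha0, h02, h0z⟩ := exists_neg hp cs hc' ha2 (by rw [hc'2 _ ha2 (orth ha1)]; exact hv2)
  have h01 : cpr cs hp.isCartan a0 a1 = -1 := by
    rw [h0z _ ha1 (by rw [symm ha2 ha1]; exact orth ha1), hc'1]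
  -- the root `a3`
  have hga0 := (hg a0).2 ha0
  have k1 : cpr cs hp.isCartan (g a0) a1 = 1 := by
    have h1 := inv ha0 ha2
    rw [hsq, cpr_neg_right cs _ _ ha1, h02] at h1
    omega
  have k2 : cpr cs hp.isCartan (g a0) (g a1) = -1 := by rw [inv ha0 ha1, h01]
  have k0 : cpr cs hp.isCartan (g a0) a0 = 0 := by rw [symm hga0 ha0]; exact orth ha0
  obtain ⟨u, hu⟩ : ∃ u, u = g a0 - a1 := ⟨_, rfl⟩
  have hur : IsRoot cs hp.isCartan u := by
    have := isRoot_refl cs hp.isCartan hga0 ha1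
    rwa [k1, one_smul, ← hu] at this
  have u0 : cpr cs hp.isCartan u a0 = 1 := by
    rw [hu, cpr_sub ha0, k0, symm ha1 ha0, h01]; norm_num
  have u1 : cpr cs hp.isCartan u a1 = -1 := by rw [hu, cpr_sub ha1, k1, cpr_self cs _ ha1]; norm_num
  have u2 : cpr cs hp.isCartan u (g a1) = -1 := by rw [hu, cpr_sub ha2, k2, orth ha1, sub_zero]
  obtain ⟨a3, ha3⟩ : ∃ a3, a3 = u - a0 := ⟨_, rfl⟩
  have ha3r : IsRoot cs hp.isCartan a3 := by
    have := isRoot_refl cs hp.isCartan hur ha0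
    rwa [u0, one_smul, ← ha3] at this
  have h30 : cpr cs hp.isCartan a3 a0 = -1 := by rw [ha3, cpr_sub ha0, u0, cpr_self cs _ ha0]; norm_num
  have h31 : cpr cs hp.isCartan a3 a1 = 0 := by rw [ha3, cpr_sub ha1, u1, h01]; norm_num
  have h32 : cpr cs hp.isCartan a3 (g a1) = 0 := by rw [ha3, cpr_sub ha2, u2, h02]; norm_num
  obtain ⟨wa, e0, e1, e2, e3⟩ := exists_canon hp cs (y := ![a0, a1, g a1, a3]) (fun i => by
      fin_cases i
      · exact ha0
      · exact ha1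
      · exact ha2
      · exact ha3r)
    (by show cpr cs hp.isCartan a1 a0 = -1; rw [symm ha1 ha0, h01])
    (by show cpr cs hp.isCartan (g a1) a0 = -1; rw [symm ha2 ha0, h02]) h30
    (by show cpr cs hp.isCartan (g a1) a1 = 0; rw [symm ha2 ha1, orth ha1]) h31 h32
  have hs : ∀ i j : Fin 8, cpr cs hp.isCartan (sr i) (sr j) = cartanOf chevE8 8 j i := fun i j => by
    rw [cpr_sr, pairing_sr']
  obtain ⟨wb, f0, f1, f2, f3⟩ := exists_canon hp cs (y := ![sr 3, sr 1, sr 2, sr 4]) (fun i => by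
      fin_cases i <;> exact isRoot_sr cs hp.isCartan _)
    ((hs 1 3).trans (by decide +kernel)) ((hs 2 3).trans (by decide +kernel)) ((hs 4 3).trans (by decide +kernel))
    ((hs 2 1).trans (by decide +kernel)) ((hs 4 1).trans (by decide +kernel)) ((hs 4 2).trans (by decide +kernel))
  have key : ∀ x y z : Fin 8 → ℤ, rep cs hp.isCartan wa x = z → rep cs hp.isCartan wb y = z →
      rep cs hp.isCartan (wa⁻¹ * wb) y = x := by
    intro x y z hx hy
    rw [rep_mul_apply, hy, ← hx, rep_inv_apply]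
  have g0 : rep cs hp.isCartan (wa⁻¹ * wb) (sr 3) = a0 := key _ _ _ e0 f0
  have g1 : rep cs hp.isCartan (wa⁻¹ * wb) (sr 1) = a1 := key _ _ _ e1 f1
  have g2 : rep cs hp.isCartan (wa⁻¹ * wb) (sr 2) = g a1 := key _ _ _ e2 f2
  have g3 : rep cs hp.isCartan (wa⁻¹ * wb) (sr 4) = a3 := key _ _ _ e3 f3
  have hga0' : g a0 = a0 + a1 + a3 := by rw [ha3, hu]; abel
  refine ⟨wa⁻¹ * wb, ?_, ?_, ?_, ?_⟩
  · rw [map_add, map_add, g0, g1, g3, hga0']
  · rw [g1, g2]
  · rw [g2, map_neg, g1, hsq]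
  · rw [map_neg, map_add, map_add, map_add, map_add, g0, g1, g2, g3, ha3, hu, map_sub, map_sub, hsq, hga0', ha3, hu]
    abel

/-- the element of the Weyl group of `D4` -/
def vW : W := cs.simple 3 * cs.simple 2 * cs.simple 1 * cs.simple 3 * cs.simple 4 * cs.simple 2

def rf (i : Fin 8) (x : Fin 8 → ℤ) : Fin 8 → ℤ := x - pairing (cartanOf chevE8 8) i x • sr i

theorem rep_vW (x : Fin 8 → ℤ) : rep cs hp.isCartan (vW cs) x = rf 3 (rf 2 (rf 1 (rf 3 (rf 4 (rf 2 x))))) := by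
  unfold vW
  rw [rep_mul_apply, rep_mul_apply, rep_mul_apply, rep_mul_apply, rep_mul_apply, rep_simple_eq, rep_simple_eq,
    rep_simple_eq, rep_simple_eq, rep_simple_eq, rep_simple_eq]
  rfl

theorem rf0 : rf 3 (rf 2 (rf 1 (rf 3 (rf 4 (rf 2 (sr 3)))))) = (sr 3 + sr 1 + sr 4 : Fin 8 → ℤ) := by decide +kernel
theorem rf1 : rf 3 (rf 2 (rf 1 (rf 3 (rf 4 (rf 2 (sr 1)))))) = (sr 2 : Fin 8 → ℤ) := by decide +kernel
theorem rf2 : rf 3 (rf 2 (rf 1 (rf 3 (rf 4 (rf 2 (sr 2)))))) = (-sr 1 : Fin 8 → ℤ) := by decide +kernel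
theorem rf3 : rf 3 (rf 2 (rf 1 (rf 3 (rf 4 (rf 2 (sr 4)))))) = (-(sr 3 + sr 3 + sr 1 + sr 2 + sr 4) : Fin 8 → ℤ) := by
  decide +kernel

/-- **the same, with the element `vW`** -/
theorem exists_base' {g : (Fin 8 → ℤ) ≃+ (Fin 8 → ℤ)} (hg : ∀ a, IsRoot cs hp.isCartan (g a) ↔ IsRoot cs hp.isCartan a)
    (hsq : ∀ x, g (g x) = -x) : ∃ w : W, ∀ j : Fin 8, j = 1 ∨ j = 2 ∨ j = 3 ∨ j = 4 →
      g (rep cs hp.isCartan w (sr j)) = rep cs hp.isCartan w (rep cs hp.isCartan (vW cs) (sr j)) := by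
  obtain ⟨w, h0, h1, h2, h3⟩ := exists_base hp cs hg hsq
  refine ⟨w, ?_⟩
  rintro j (rfl | rfl | rfl | rfl)
  · rw [rep_vW hp cs, rf1, h1]
  · rw [rep_vW hp cs, rf2, h2]
  · rw [rep_vW hp cs, rf0, h0]
  · rw [rep_vW hp cs, rf3, h3]

end Tup

end Cfsg.Agent.H230.X3.Comb
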