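import Cfsg.Agent.H225.Gen.Row
import Cfsg.Agent.H496.Gen.T2Model

/-!
# From one long root subgroup to the whole group (S2187 X3, helper230)

`m : MData hp r q K₀`, `E` toral of exponent `p`, `M₀ ≤ K₀` contains the centralisers of the hyperplanes of `E`.

* `top_of_long` : if `M₀` contains the conjugates by a fixed point `y` of the fixed points of `X_{θ}, X_{-θ}` then `M₀ = K₀`;
* `gamY_of_long` : the same with the hypothesis of `H496.Gen.T2.toral_untw`.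
-/

set_option autoImplicit false
set_option linter.unusedSectionVars false
set_option linter.unusedVariables false

namespace Cfsg.Agent.H230.X3.Top

open CoxeterSystem Cfsg Cfsg.Lie Cfsg.Lie.ChevalleyDatum
open Cfsg.Agent.ChevalleyStructure Cfsg.Agent.ChevalleyStructure.Elts Cfsg.Agent.ChevalleyStructure.CoxeterGeom
  Cfsg.Agent.ChevalleyStructure.CoxeterGeomTypes Cfsg.Agent.ChevalleyStructure.NPerm
  Cfsg.Agent.ChevalleyStructure.XColumns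
open Cfsg.Agent.Tits.Roots Cfsg.Agent.Tits.Core Cfsg.Agent.Nodes Cfsg.Agent.Nodes.Reps Cfsg.Agent.Nodes.BNOf
  Cfsg.Agent.Nodes.RGDChev Cfsg.Agent.Nodes.Bruhat Cfsg.Agent.Nodes.NormalForm Cfsg.Agent.Nodes.StabComb
  Cfsg.Agent.Nodes.Coroot Cfsg.Agent.Nodes.SubComb
open Cfsg.Agent.KFacts.RgdField Cfsg.Agent.KFacts.RgdChevCoord
open Cfsg.Agent.BpExc Cfsg.Agent.BpExc.TorCent Cfsg.Agent.BpExc.TorChev Cfsg.Agent.BpExc.Tow
  Cfsg.Agent.BpExc.TowChev Cfsg.Agent.BpExc.Fr Cfsg.Agent.BpExc.Pair Cfsg.Agent.BpExc.LangFr Cfsg.Agent.GpExc.Field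
  Cfsg.Agent.BpExc.NInst Cfsg.Agent.BpExc.NChev Cfsg.Agent.BpExc.Asm Cfsg.Agent.BpExc.CommZ
open Cfsg.Agent.H818.StrP.UTab Cfsg.Agent.H818.StrP.UAct Cfsg.Agent.H123.ExcComb Cfsg.Agent.H696.GmnToral
open Cfsg.Agent.H469.Exc Cfsg.Agent.H469.Exc.SigFr Cfsg.Agent.H316.U3 Cfsg.Agent.H316.U6 Cfsg.Agent.H225.Gen
  Cfsg.Agent.H818.Gen
open scoped commutatorElement Matrix

universe u v

variable {D : ChevalleyDatum} {l : ℕ} {M : CoxeterMatrix (Fin l)} (h : HiList D) {hp : IsType D l M}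
  {r q : ℕ} [hr : Fact r.Prime] {K₀ : Type v} [Group K₀]

include h in
/-- **From one long root subgroup to the whole group.** -/
theorem top_of_long (m : MData hp r q K₀) [Finite K₀] [IsSimpleGroup K₀] (hq : 3 ≤ q) (hG2 : D = chevG2 → 4 ≤ q)
    {p : ℕ} (hpp : p.Prime) {E : Subgroup ↥(D.group (KK r))} [Finite ↥E] (hEp : ∀ a ∈ E, a ^ p = 1)
    (hyp : ∃ F ≤ E, (F.subgroupOf E).index = p) (hEσ : ∀ a ∈ E, m.σ a = a)
    {z : ↥(D.group (KK r))} (hz : ∀ a ∈ E, z * a * z⁻¹ ∈ TT D (KK r))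
    {M₀ : Subgroup K₀} (hM : ∀ F ≤ E, (F.subgroupOf E).index = p → ∀ a : K₀, (∀ x ∈ F, m.ι a * x = x * m.ι a) →
      a ∈ M₀) {y : ↥(D.group (KK r))} (hy : m.σ y = y)
    (hlong : ∀ u, m.σ u = u → (u ∈ XX D l (KK r) (th D l) ∨ u ∈ XX D l (KK r) (-th D l)) →
      y * u * y⁻¹ ∈ M₀.map m.ι) : M₀ = ⊤ :=
  gen_of_long h m hq hG2 hpp hEp hyp hEσ hz (fun F hF hi a _ ha => hM F hF hi a ha) hy hlong

include h in
/-- the same for `GamY` -/
theorem gamY_of_long (m : MData hp r q K₀) [IsSimpleGroup K₀] (hq : 3 ≤ q) (hG2 : D = chevG2 → 4 ≤ q)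
    {p : ℕ} [hpp : Fact p.Prime] {E : Subgroup ↥(D.group (KK r))} (hE : IsElementaryAbelian p E)
    (hEσ : ∀ y ∈ E, m.σ y = y) (hE2 : p ≤ Nat.card ↥E)
    {z : ↥(D.group (KK r))} (hz : ∀ a ∈ E, z * a * z⁻¹ ∈ TT D (KK r)) {y : ↥(D.group (KK r))} (hy : m.σ y = y)
    (hlong : ∀ u, m.σ u = u → (u ∈ XX D l (KK r) (th D l) ∨ u ∈ XX D l (KK r) (-th D l)) →
      y * u * y⁻¹ ∈ (GamY m.ι p E).map m.ι) : GamY m.ι p E = ⊤ := by
  have := m.finite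
  have := finite_of_fix m hEσ
  obtain ⟨F, hF, hFi⟩ := exists_hyperplane hE hE2
  exact top_of_long h m hq hG2 hpp.out (fun a ha => hE.2 a ha) ⟨F, hF, hFi⟩ hEσ hz
    (fun F hF hFi a ha => mem_GamY hF hFi fun y hy => (ha y hy).symm) hy hlong

include h in
/-- the same with the hypothesis of `toral_untw` -/
theorem gamY_of_sl (m : MData hp r q K₀) [IsSimpleGroup K₀] (hq : 3 ≤ q) (hG2 : D = chevG2 → 4 ≤ q)
    {p : ℕ} [hpp : Fact p.Prime] {E : Subgroup ↥(D.group (KK r))} (hE : IsElementaryAbelian p E)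
    (hEσ : ∀ y ∈ E, m.σ y = y) (hE2 : p ≤ Nat.card ↥E)
    {z : ↥(D.group (KK r))} (hz : ∀ a ∈ E, z * a * z⁻¹ ∈ TT D (KK r))
    (hlong : ∃ v, m.σ v = v ∧ ∀ a : K₀, v * m.ι a * v⁻¹ ∈ XX D l (KK r) (vec D l (D.nroots - 1)) ⊔
      XX D l (KK r) (-vec D l (D.nroots - 1)) → a ∈ GamY m.ι p E) : GamY m.ι p E = ⊤ := by
  obtain ⟨v, hv, hv'⟩ := hlong
  have hvi : m.σ v⁻¹ = v⁻¹ := by rw [map_inv, hv]
  refine gamY_of_long h m hq hG2 hE hEσ hE2 hz hvi fun u hu hux => ?_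
  have hθ : IsRoot M.toCoxeterSystem hp.isCartan (th D l) := th_root h hp M.toCoxeterSystem
  obtain ⟨j, hj⟩ : ∃ j, u ^ r ^ j = 1 := by
    rcases hux with h1 | h1
    · exact pow_of_rootD hp M.toCoxeterSystem (locFin r) r hθ h1
    · exact pow_of_rootD hp M.toCoxeterSystem (locFin r) r hθ.neg h1
  obtain ⟨a, ha⟩ := m.exists_eq (u := v⁻¹ * u * v⁻¹⁻¹) (by rw [map_mul, map_mul, hu, map_inv m.σ v⁻¹, hvi])
    ⟨j, by rw [conj_pow, hj, mul_one, mul_inv_cancel]⟩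
  refine ⟨a, hv' a ?_, ha⟩
  have e : v * m.ι a * v⁻¹ = u := by rw [ha]; group
  rw [e]
  rcases hux with h1 | h1
  · exact Subgroup.mem_sup_left h1
  · exact Subgroup.mem_sup_right h1

end Cfsg.Agent.H230.X3.Top
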