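import Cfsg.Agent.H230.X3.LeviD
import Cfsg.Agent.H230.X3.Comb
import Cfsg.Agent.H696.GmnTor
import Cfsg.Agent.H230.X3.Top

/-!
# The frame adapted to the subsystem of type `D4` (S2187 X3, helper230)
-/

set_option autoImplicit false
set_option linter.unusedSectionVars false
set_option linter.unusedVariables false

namespace Cfsg.Agent.H230.X3

open CoxeterSystem Cfsg Cfsg.Lie Cfsg.Lie.ChevalleyDatum
open Cfsg.Agent.ChevalleyStructure Cfsg.Agent.ChevalleyStructure.Elts Cfsg.Agent.ChevalleyStructure.CoxeterGeom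
  Cfsg.Agent.ChevalleyStructure.CoxeterGeomTypes Cfsg.Agent.ChevalleyStructure.NPerm
open Cfsg.Agent.Tits.Roots Cfsg.Agent.Tits.Core Cfsg.Agent.Nodes Cfsg.Agent.Nodes.Reps Cfsg.Agent.Nodes.BNOf
  Cfsg.Agent.Nodes.RGDChev Cfsg.Agent.Nodes.Bruhat Cfsg.Agent.Nodes.StabComb Cfsg.Agent.Nodes.SubComb
  Cfsg.Agent.Nodes.Sub Cfsg.Agent.Nodes.LeviStd Cfsg.Agent.Nodes.ClsSub
open Cfsg.Agent.KFacts.RgdField Cfsg.Agent.KFacts.RgdChevCoord
open Cfsg.Agent.BpExc Cfsg.Agent.BpExc.TorCent Cfsg.Agent.BpExc.TorChev Cfsg.Agent.BpExc.Tow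
open Cfsg.Agent.BpExc.TowChev Cfsg.Agent.BpExc.Fr Cfsg.Agent.BpExc.LangFr Cfsg.Agent.GpExc.Field
open Cfsg.Agent.BpExc.NChev Cfsg.Agent.BpExc.NInst Cfsg.Agent.BpExc.Pair
open Cfsg.Agent.H696.GmnToral
open Cfsg.Agent.BpExc.HX Cfsg.Agent.Nodes.Coroot

universe u v

section Gen

variable {D : ChevalleyDatum} {l : ℕ} {M : CoxeterMatrix (Fin l)} (hp : IsType D l M) {k : Type u} [Field k]
  [IsAlgClosed k] {W : Type v} [Group W] (cs : CoxeterSystem M W) (hk : LocFin k) (r : ℕ) [Fact r.Prime] [CharP k r]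

include hk in
/-- frame automorphisms map representatives to representatives -/
theorem rp_sigma {σ : MulAut ↥(D.group k)} {g : (Fin l → ℤ) ≃+ (Fin l → ℤ)}
    (F : Fr cs hp.isCartan (TT D k) (XX D l k) σ g) {w : W}
    (hw : ∀ a, IsRoot cs hp.isCartan a → rep cs hp.isCartan w (g a) = g (rep cs hp.isCartan w a))
    {n : ↥(D.group k)} (hn : Rp cs (tow hp cs hk r (k := k)).nsys w n) :
    Rp cs (tow hp cs hk r (k := k)).nsys w (σ n) := by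
  have := finite_W hp cs
  have hTL := TL_eq hp hk
  have hXL := XL_eq hp hk
  have H := tow hp cs hk r (k := k)
  have F' : Fr cs hp.isCartan (TL (Tj hp (k := k))) (XL (Xj hp (k := k))) σ g := by rw [hTL, hXL]; exact F
  obtain ⟨w', hw'⟩ := rp_fr H (GG_eq_top hp cs hk) (fun a ha => by rw [hTL, hXL]; exact sep hp cs hk r ha) F' hn
  have F1 := Fr.conj H hn
  have F2 := Fr.conj H hw'
  rw [hTL, hXL] at F1 F2
  have e1 : w' = w := by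
    refine rep_faithful hp cs fun b hb => ?_
    obtain ⟨a, rfl⟩ := g.surjective b
    have ha := (F.root a).1 hb
    obtain ⟨u, hu, hu1⟩ := XX_ne hp cs (k := k) ha
    have h1 := (F.map _ (ha.act w) _).2 ((F1.map _ ha u).2 hu)
    have h2 := (F2.map _ hb _).2 ((F.map _ ha u).2 hu)
    have e2 : MulAut.conj (σ n) (σ u) = σ (MulAut.conj n u) := by
      rw [MulAut.conj_apply, MulAut.conj_apply, map_mul, map_mul, map_inv]
    rw [e2] at h2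
    rw [hw a ha]
    refine XX_injective hp cs hk r (hb.act w') ((F.root _).2 (ha.act w)) (u := σ (MulAut.conj n u)) ?_ h2 h1
    intro h3
    apply hu1
    apply (MulAut.conj n).injective
    apply σ.injective
    rw [h3, map_one, map_one]
  rw [← e1]
  exact hw'

/-- conjugation by the representatives of the simple reflections -/
theorem nact' {i : Fin l} {x : Fin l → ℤ} (hx : IsRoot cs hp.isCartan x) : ∃ η : ℤ, (η = 1 ∨ η = -1) ∧ ∀ a : k,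
    nc hp k i * xc hp x a * (nc hp k i)⁻¹ = xc hp (rep cs hp.isCartan (cs.simple i) x) ((η : k) * a) := by
  obtain ⟨s, hs, rfl⟩ := (isRoot_iff hp cs x).1 hx
  obtain ⟨η, hη, h⟩ := Cfsg.Agent.S1031.result (F := k) D hp.inList i s (lt_rank hp i) hs
  refine ⟨η, ?_, fun a => Subtype.ext ?_⟩
  · rcases hη with rfl | rfl <;> simp
  · rw [rep_vec hp cs i hs, Subgroup.coe_mul, Subgroup.coe_mul, Subgroup.coe_inv, coe_xc hp hs,
      coe_xc hp (reflectRoot_lt hp.inList (lt_rank hp i) hs)]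
    show nG hp.inList (D.simple i) 1 * _ * (nG hp.inList (D.simple i) 1)⁻¹ = _
    rw [mul_inv_eq_iff_eq_mul]
    apply Units.ext
    rw [Units.val_mul, Units.val_mul, coe_nG, coe_xG, coe_xG]
    exact h a

theorem xc_add' {x : Fin l → ℤ} (hx : IsRoot cs hp.isCartan x) (a b : k) : xc hp x a * xc hp x b = xc hp x (a + b) := by
  obtain ⟨s, hs, rfl⟩ := (isRoot_iff hp cs x).1 hx
  apply Subtype.ext
  rw [Subgroup.coe_mul, coe_xc hp hs, coe_xc hp hs, coe_xc hp hs, xG_add]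

theorem xc_zero' {x : Fin l → ℤ} (hx : IsRoot cs hp.isCartan x) : xc hp x (0 : k) = 1 := by
  obtain ⟨s, hs, rfl⟩ := (isRoot_iff hp cs x).1 hx
  exact xc_z hp hs

theorem xc_inj' {x : Fin l → ℤ} (hx : IsRoot cs hp.isCartan x) : Function.Injective (xc (K := k) hp x) := by
  obtain ⟨s, hs, rfl⟩ := (isRoot_iff hp cs x).1 hx
  exact xc_inj hp hs

theorem xc_pow' {x : Fin l → ℤ} (hx : IsRoot cs hp.isCartan x) (a : k) : (xc hp x a : ↥(D.group k)) ^ r = 1 := by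
  have h1 : ∀ n : ℕ, (xc hp x a : ↥(D.group k)) ^ n = xc hp x ((n : k) * a) := by
    intro n
    induction n with
    | zero => rw [pow_zero, Nat.cast_zero, zero_mul, xc_zero' hp cs hx]
    | succ n ih =>
      rw [pow_succ, ih, xc_add' hp cs hx]
      congr 1
      push_cast
      ring
  rw [h1, CharP.cast_eq_zero, zero_mul, xc_zero' hp cs hx]

theorem nc_eq' (i : Fin l) : nc hp k i = xc hp (sr i) 1 * xc hp (-sr i) (-1) * xc hp (sr i) 1 := by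
  have h1 := simple_lt hp.inList (lt_rank hp i)
  rw [nc_eq hp, vec_simple hp i, vec_neg hp h1, vec_simple hp i]

include hk r in
/-- the representatives of the simple reflections are fixed -/
theorem tau_nc {τ : MulAut ↥(D.group k)} {g : (Fin l → ℤ) ≃+ (Fin l → ℤ)} {e : ℕ} (hτ : IsFrob r e τ)
    (F : Fr cs hp.isCartan (TT D k) (XX D l k) τ g) {i : Fin l} (hgi : g (sr i) = sr i)
    (hx : ∀ t, τ (xc hp (sr i) t) = xc hp (sr i) (t ^ r ^ e)) : τ (nc hp k i) = nc hp k i ∧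
      ∀ t, τ (xc hp (-sr i) t) = xc hp (-sr i) (t ^ r ^ e) := by
  have := finite_W hp cs
  have hi := isRoot_sr cs hp.isCartan i
  obtain ⟨c, hc, h⟩ := fr_xc hp cs hτ F hi.neg
  rw [map_neg, hgi] at h
  have h1 : ((-1 : k)) ^ r ^ e = -1 := by
    have h2 := map_neg (iterateFrobenius k r e) 1
    rwa [map_one, iterateFrobenius_def] at h2
  have h2 : τ (nc hp k i) * (nc hp k i)⁻¹ = xc hp (sr i) 1 * xc hp (-sr i) (1 - c) * (xc hp (sr i) 1)⁻¹ := by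
    have h3 : xc hp (-sr i) (1 - c) = xc hp (-sr i) (c * (-1) ^ r ^ e) * (xc hp (-sr i) (-1 : k))⁻¹ := by
      rw [eq_mul_inv_iff_mul_eq, xc_add' hp cs hi.neg, h1]
      congr 1
      ring
    rw [nc_eq' hp, map_mul, map_mul, hx, h, one_pow, h3]
    group
  have h3 : Rp cs (tow hp cs hk r (k := k)).nsys (cs.simple i) (τ (nc hp k i)) := by
    refine rp_sigma hp cs hk r F (fun a ha => ?_) (rp_simple cs (tow hp cs hk r (k := k)).nsys i)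
    rw [rep_simple_eq, rep_simple_eq, ← cpr_sr cs hp.isCartan, ← cpr_sr cs hp.isCartan, map_sub, map_zsmul, hgi]
    congr 2
    conv_lhs => rw [← hgi]
    exact H123.ExcComb.cpr_g (fun a => F.root a) ha hi
  have h4 : τ (nc hp k i) * (nc hp k i)⁻¹ ∈ TT D k := by
    have h5 := h3.mul (rp_simple cs (tow hp cs hk r (k := k)).nsys i).inv
    rw [mul_inv_cancel] at h5
    have h6 := h5.mem_of_one
    rwa [TL_eq hp hk] at h6
  have h5 : (τ (nc hp k i) * (nc hp k i)⁻¹) ^ r ^ 1 = 1 := by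
    rw [h2, pow_one, conj_pow, xc_pow' hp cs r hi.neg, mul_one, mul_inv_cancel]
  have h6 : τ (nc hp k i) * (nc hp k i)⁻¹ = 1 := by
    apply Subtype.ext
    refine RowsN.eq_one_of_pow hp.inList (r := r) (Subgroup.mem_subgroupOf.1 h4) (j := 1) ?_
    exact congrArg (fun g : ↥(D.group k) => (g : GL D.Idx k)) h5
  refine ⟨mul_inv_eq_one.1 h6, fun t => ?_⟩
  have h7 : c = 1 := by
    rw [h2] at h6
    have h8 : xc hp (-sr i) (1 - c) = 1 := by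
      have := conj_eq_one_iff.1 h6
      exact this
    have h9 := xc_inj' hp cs hi.neg (h8.trans (xc_zero' hp cs hi.neg).symm)
    exact (sub_eq_zero.1 h9).symm
  rw [h, h7, one_mul]

include hk r in
/-- the root groups of a parabolic subsystem -/
theorem tau_RJ {τ : MulAut ↥(D.group k)} {g : (Fin l → ℤ) ≃+ (Fin l → ℤ)} {e : ℕ} (hτ : IsFrob r e τ)
    (F : Fr cs hp.isCartan (TT D k) (XX D l k) τ g) {J : Set (Fin l)} (hgi : ∀ i ∈ J, g (sr i) = sr i)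
    (hx : ∀ i ∈ J, ∀ t, τ (xc hp (sr i) t) = xc hp (sr i) (t ^ r ^ e)) {a : Fin l → ℤ}
    (ha : a ∈ RootsJ cs hp.isCartan J) (t : k) : τ (xc hp a t) = xc hp a (t ^ r ^ e) := by
  have := finite_W hp cs
  obtain ⟨w, hw, j, hj, rfl⟩ := exists_of_mem_RootsJ ha
  have key : ∃ n : ↥(D.group k), τ n = n ∧ ∀ x, IsRoot cs hp.isCartan x → ∃ η : ℤ, (η = 1 ∨ η = -1) ∧ ∀ a : k,
      n * xc hp x a * n⁻¹ = xc hp (rep cs hp.isCartan w x) ((η : k) * a) := by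
    clear ha
    refine Subgroup.closure_induction (p := fun w _ => ∃ n : ↥(D.group k), τ n = n ∧ ∀ x, IsRoot cs hp.isCartan x →
      ∃ η : ℤ, (η = 1 ∨ η = -1) ∧ ∀ a : k,
      n * xc hp x a * n⁻¹ = xc hp (rep cs hp.isCartan w x) ((η : k) * a)) ?_ ?_ ?_ ?_ hw
    · rintro _ ⟨i, hi, rfl⟩
      exact ⟨nc hp k i, (tau_nc hp cs hk r hτ F (hgi i hi) (hx i hi)).1, fun x hx => nact' hp cs hx⟩
    · refine ⟨1, map_one τ, fun x hx => ⟨1, Or.inl rfl, fun a => ?_⟩⟩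
      rw [map_one, Module.End.one_apply, one_mul, inv_one, mul_one, Int.cast_one, one_mul]
    · rintro v w - - ⟨m, hm, hm'⟩ ⟨n, hn, hn'⟩
      refine ⟨m * n, by rw [map_mul, hm, hn], fun x hx => ?_⟩
      obtain ⟨η, hη, h1⟩ := hn' x hx
      obtain ⟨η', hη', h2⟩ := hm' _ (hx.act w)
      refine ⟨η' * η, ?_, fun a => ?_⟩
      · rcases hη with rfl | rfl <;> rcases hη' with rfl | rfl <;> simp
      · rw [rep_mul_apply, Int.cast_mul, mul_assoc (η' : k), ← h2, ← h1]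
        group
    · rintro w - ⟨n, hn, hn'⟩
      refine ⟨n⁻¹, by rw [map_inv, hn], fun x hx => ?_⟩
      obtain ⟨η, hη, h1⟩ := hn' _ (hx.act w⁻¹)
      have hηη : (η : k) * η = 1 := by rcases hη with rfl | rfl <;> simp
      refine ⟨η, hη, fun a => ?_⟩
      have h2 := h1 ((η : k) * a)
      rw [rep_apply_inv, ← mul_assoc, hηη, one_mul] at h2
      rw [← h2]
      group
  obtain ⟨n, hn, h1⟩ := key
  obtain ⟨η, hη, h2⟩ := h1 _ (isRoot_sr cs hp.isCartan j)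
  have hηη : (η : k) * η = 1 := by rcases hη with rfl | rfl <;> simp
  have h3 : xc hp (rep cs hp.isCartan w (sr j)) t = n * xc hp (sr j) ((η : k) * t) * n⁻¹ := by
    rw [h2, ← mul_assoc, hηη, one_mul]
  have h4 : ((η : k)) ^ r ^ e = η := by
    have := map_intCast (iterateFrobenius k r e) η
    rwa [iterateFrobenius_def] at this
  rw [h3, map_mul, map_mul, map_inv, hn, hx j hj, h2, mul_pow, h4, ← mul_assoc, hηη, one_mul]

end Gen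

/-! ### the frame -/

section E8

variable {k : Type u} [Field k] [IsAlgClosed k] (hk : LocFin k) (r : ℕ) [Fact r.Prime] [CharP k r]

theorem mem_range_fj : ∀ i : Fin 8, i ∈ Set.range fj ↔ (i = 1 ∨ i = 2 ∨ i = 3 ∨ i = 4) := by
  intro i
  constructor
  · rintro ⟨j, rfl⟩
    rw [fj_apply]
    revert j
    decide
  · rintro (rfl | rfl | rfl | rfl)
    · exact ⟨0, rfl⟩
    · exact ⟨2, rfl⟩
    · exact ⟨1, rfl⟩
    · exact ⟨3, rfl⟩

theorem sr_mem_DL {i : Fin 8} (hi : i = 1 ∨ i = 2 ∨ i = 3 ∨ i = 4) : (sr i : Fin 8 → ℤ) ∈ DL :=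
  PosJ_subset _ (sr_mem_PosJ ((mem_range_fj i).2 hi))

theorem neg_mem_DL {a : Fin 8 → ℤ} (ha : a ∈ DL) : -a ∈ DL := RootsJ.neg ha

theorem xc_mem_Sup {a : Fin 8 → ℤ} (ha : a ∈ DL) (t : k) : xc hp8 a t ∈ RGD.Sup (XX chevE8 8 k) DL :=
  RGD.le_Sup (X := XX chevE8 8 k) ha ((mem_XX8 ha.1).2 ⟨t, rfl⟩)

theorem nc_mem_Sup {i : Fin 8} (hi : i = 1 ∨ i = 2 ∨ i = 3 ∨ i = 4) : nc hp8 k i ∈ RGD.Sup (XX chevE8 8 k) DL := by
  rw [nc_eq' hp8 i]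
  exact mul_mem (mul_mem (xc_mem_Sup (sr_mem_DL hi) 1) (xc_mem_Sup (neg_mem_DL (sr_mem_DL hi)) _))
    (xc_mem_Sup (sr_mem_DL hi) 1)

/-- the representative of `vW` -/
theorem exists_nP : ∃ m ∈ RGD.Sup (XX chevE8 8 k) DL, Rp cs8 (tow hp8 cs8 hk r (k := k)).nsys (Comb.vW cs8) m := by
  have h1 : ∀ i, Rp cs8 (tow hp8 cs8 hk r (k := k)).nsys (cs8.simple i) (nc hp8 k i) := fun i =>
    rp_simple cs8 (tow hp8 cs8 hk r (k := k)).nsys i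
  exact ⟨nc hp8 k 3 * nc hp8 k 2 * nc hp8 k 1 * nc hp8 k 3 * nc hp8 k 4 * nc hp8 k 2,
    mul_mem (mul_mem (mul_mem (mul_mem (mul_mem (nc_mem_Sup (by simp)) (nc_mem_Sup (by simp))) (nc_mem_Sup (by simp)))
      (nc_mem_Sup (by simp))) (nc_mem_Sup (by simp))) (nc_mem_Sup (by simp)),
    ((((((h1 3).mul (h1 2)).mul (h1 1)).mul (h1 3)).mul (h1 4)).mul (h1 2))⟩

theorem vW_mem : Comb.vW cs8 ∈ WJ cs8 (Set.range fj) := by
  have h1 : ∀ i : Fin 8, (i = 1 ∨ i = 2 ∨ i = 3 ∨ i = 4) → cs8.simple i ∈ WJ cs8 (Set.range fj) := fun i hi =>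
    Subgroup.subset_closure ⟨i, (mem_range_fj i).2 hi, rfl⟩
  exact mul_mem (mul_mem (mul_mem (mul_mem (mul_mem (h1 3 (by simp)) (h1 2 (by simp))) (h1 1 (by simp)))
    (h1 3 (by simp))) (h1 4 (by simp))) (h1 2 (by simp))

/-- an additive map fixing the nodes of `D4` fixes `DL` -/
theorem fix_DL {g : (Fin 8 → ℤ) ≃+ (Fin 8 → ℤ)} (hg : ∀ i : Fin 8, (i = 1 ∨ i = 2 ∨ i = 3 ∨ i = 4) → g (sr i) = sr i)
    {a : Fin 8 → ℤ} (ha : a ∈ DL) : g a = a := by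
  have e := SimplyLaced.eq_sum_sr a
  rw [e, map_sum]
  refine Finset.sum_congr rfl fun i _ => ?_
  rw [map_zsmul]
  by_cases hi : i = 1 ∨ i = 2 ∨ i = 3 ∨ i = 4
  · rw [hg i hi]
  · rw [ha.2 i (fun h => hi ((mem_range_fj i).1 h)), zero_smul, zero_smul]

include hk in
/-- **The adapted frame.** -/
theorem exists_frame {e : ℕ} (he : 0 < e) (hZ : Subgroup.center ↥(chevE8.group k) = ⊥) {σ : MulAut ↥(chevE8.group k)}
    (hσ : IsFrob r e σ) {z₀ k₀ : ↥(chevE8.group k)} (hk₀ : z₀⁻¹ * σ z₀ = k₀) {g₀ : (Fin 8 → ℤ) ≃+ (Fin 8 → ℤ)}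
    (F0 : Fr cs8 hp8.isCartan (TT chevE8 k) (XX chevE8 8 k) (MulAut.conj k₀ * σ) g₀) (hsq : ∀ x, g₀ (g₀ x) = -x) :
    ∃ (w : CoxeterMatrix.E₈.Group) (n l k₃ : ↥(chevE8.group k)) (g₃ : (Fin 8 → ℤ) ≃+ (Fin 8 → ℤ)),
      Rp cs8 (tow hp8 cs8 hk r (k := k)).nsys w n ∧ l ∈ LL k ∧ (z₀ * n * l)⁻¹ * σ (z₀ * n * l) = k₃ ∧
      Fr cs8 hp8.isCartan (TT chevE8 k) (XX chevE8 8 k) (MulAut.conj k₃ * σ) g₃ ∧
      (∀ i : Fin 8, (i = 1 ∨ i = 2 ∨ i = 3 ∨ i = 4) → g₃ (sr i) = sr i) ∧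
      (∀ a ∈ DL, ∀ t, (MulAut.conj k₃ * σ) (xc hp8 a t) = xc hp8 a (t ^ r ^ e)) ∧
      g₀ (rep cs8 hp8.isCartan w (sr 1)) = rep cs8 hp8.isCartan w (sr 2) := by
  have hTL := TL_eq (k := k) hp8 hk
  have hXL := XL_eq (k := k) hp8 hk
  have H := tow (k := k) hp8 cs8 hk r
  obtain ⟨w, h0, h1, h2, h3⟩ := Comb.exists_base hp8 cs8 F0.root hsq
  have hw : ∀ j : Fin 8, j = 1 ∨ j = 2 ∨ j = 3 ∨ j = 4 →
      g₀ (rep cs8 hp8.isCartan w (sr j)) = rep cs8 hp8.isCartan w (rep cs8 hp8.isCartan (Comb.vW cs8) (sr j)) := by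
    rintro j (rfl | rfl | rfl | rfl)
    · rw [Comb.rep_vW hp8 cs8, Comb.rf1, h1]
    · rw [Comb.rep_vW hp8 cs8, Comb.rf2, h2]
    · rw [Comb.rep_vW hp8 cs8, Comb.rf0, h0]
    · rw [Comb.rep_vW hp8 cs8, Comb.rf3, h3]
  obtain ⟨n, -, hn⟩ := H.exists_rp w
  obtain ⟨nP, hnP, hnPr⟩ := exists_nP hk r (k := k)
  -- the frame `z₀ n`
  obtain ⟨k₁, hk₁⟩ : ∃ k₁, k₁ = n⁻¹ * k₀ * σ n := ⟨_, rfl⟩
  have e1 : (z₀ * n)⁻¹ * σ (z₀ * n) = k₁ := by rw [hk₁, ← hk₀, map_mul]; group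
  have F1 : Fr cs8 hp8.isCartan (TT chevE8 k) (XX chevE8 8 k) (MulAut.conj k₁ * σ)
      (((repAut cs8 hp8.isCartan w).trans g₀).trans (repAut cs8 hp8.isCartan w⁻¹)) := by
    have a1 := Fr.conj H hn
    have a2 := Fr.conj H hn.inv
    rw [hTL, hXL] at a1 a2
    have a3 := a2.mul (F0.mul a1)
    have e2 : MulAut.conj n⁻¹ * (MulAut.conj k₀ * σ * MulAut.conj n) = MulAut.conj k₁ * σ := by
      apply MulEquiv.ext
      intro x
      show n⁻¹ * (k₀ * σ (n * x * n⁻¹) * k₀⁻¹) * n⁻¹⁻¹ = k₁ * σ x * k₁⁻¹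
      rw [hk₁, map_mul, map_mul, map_inv]
      group
    rw [e2] at a3
    exact a3
  obtain ⟨g₁, hg₁⟩ : ∃ g₁, g₁ = ((repAut cs8 hp8.isCartan w).trans g₀).trans (repAut cs8 hp8.isCartan w⁻¹) := ⟨_, rfl⟩
  rw [← hg₁] at F1
  have hg₁a : ∀ j : Fin 8, j = 1 ∨ j = 2 ∨ j = 3 ∨ j = 4 →
      g₁ (sr j) = rep cs8 hp8.isCartan (Comb.vW cs8) (sr j) := by
    intro j hj
    rw [hg₁]
    show rep cs8 hp8.isCartan w⁻¹ (g₀ (rep cs8 hp8.isCartan w (sr j))) = _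
    rw [hw j hj, rep_inv_apply]
  -- Lang
  have F2 : Fr cs8 hp8.isCartan (TT chevE8 k) (XX chevE8 8 k) (MulAut.conj (nP⁻¹ * k₁) * σ)
      (g₁.trans (repAut cs8 hp8.isCartan (Comb.vW cs8)⁻¹)) := by
    have a2 := Fr.conj H hnPr.inv
    rw [hTL, hXL] at a2
    have a3 := a2.mul F1
    rwa [← mul_assoc, ← map_mul] at a3
  obtain ⟨g₂, hg₂⟩ : ∃ g₂, g₂ = g₁.trans (repAut cs8 hp8.isCartan (Comb.vW cs8)⁻¹) := ⟨_, rfl⟩
  rw [← hg₂] at F2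
  have hg₂a : ∀ j : Fin 8, j = 1 ∨ j = 2 ∨ j = 3 ∨ j = 4 → g₂ (sr j) = sr j := by
    intro j hj
    rw [hg₂]
    show rep cs8 hp8.isCartan (Comb.vW cs8)⁻¹ (g₁ (sr j)) = _
    rw [hg₁a j hj, rep_inv_apply]
  have hg₁D : ∀ a ∈ DL, g₁ a ∈ DL := by
    intro a ha
    have e2 : g₁ a = rep cs8 hp8.isCartan (Comb.vW cs8) (g₂ a) := by
      rw [hg₂]
      show g₁ a = rep cs8 hp8.isCartan (Comb.vW cs8) (rep cs8 hp8.isCartan (Comb.vW cs8)⁻¹ (g₁ a))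
      rw [rep_apply_inv]
    rw [e2, fix_DL hg₂a ha]
    exact RootsJ.act vW_mem ha
  obtain ⟨l₁, hl₁, hl₁'⟩ := lang_fr hp8 cs8 he (hσ.conj_mul k₁) F1 (S := DL) (fun a ha => ha.1) hg₁D
    (m := nP⁻¹) (inv_mem hnP)
  have e3 : (z₀ * n * l₁)⁻¹ * σ (z₀ * n * l₁) = nP⁻¹ * k₁ := by
    have a1 : (MulAut.conj k₁ * σ) l₁ = k₁ * σ l₁ * k₁⁻¹ := rfl
    have a2 : (z₀ * n * l₁)⁻¹ * σ (z₀ * n * l₁) = l₁⁻¹ * ((z₀ * n)⁻¹ * σ (z₀ * n)) * σ l₁ := by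
      rw [map_mul σ (z₀ * n) l₁]; group
    rw [a2, e1, hl₁', a1]
    group
  -- the torus
  choose c hc hcx using fun j : Fin 8 => fr_xc hp8 cs8 (hσ.conj_mul (nP⁻¹ * k₁)) F2 (isRoot_sr cs8 hp8.isCartan j)
  obtain ⟨u, hu, huc⟩ := H696.GmnTor.exists_tt hp8 cs8 (k := k) H129.TorusChar.invC_E8 (by norm_num)
    (fun j => (c j)⁻¹) (fun j => inv_ne_zero (hc j))
  have huj : ∀ j : Fin 8, ch hp8 (sr j) u = (c j)⁻¹ := by
    intro j
    rw [huc _ (isRoot_sr cs8 hp8.isCartan j), Finset.prod_eq_single j]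
    · rw [sr_self, zpow_one]
    · intro i _ hi
      rw [sr_ne hi, zpow_zero]
    · exact fun h => absurd (Finset.mem_univ j) h
  obtain ⟨s, hs, hus⟩ := torus_lang hp8 cs8 hk hZ he (hσ.conj_mul (nP⁻¹ * k₁)) F2 hu
  have e4 : (z₀ * n * (l₁ * s))⁻¹ * σ (z₀ * n * (l₁ * s)) = u * (nP⁻¹ * k₁) := by
    have a1 : (MulAut.conj (nP⁻¹ * k₁) * σ) s = (nP⁻¹ * k₁) * σ s * (nP⁻¹ * k₁)⁻¹ := rfl
    have a2 : (z₀ * n * (l₁ * s))⁻¹ * σ (z₀ * n * (l₁ * s)) = s⁻¹ * ((z₀ * n * l₁)⁻¹ * σ (z₀ * n * l₁)) * σ s := by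
      rw [← mul_assoc, map_mul σ (z₀ * n * l₁) s]; group
    rw [a2, e3, hus, a1]
    group
  have F3 : Fr cs8 hp8.isCartan (TT chevE8 k) (XX chevE8 8 k) (MulAut.conj (u * (nP⁻¹ * k₁)) * σ)
      (g₂.trans (repAut cs8 hp8.isCartan 1)) := by
    have a2 := Fr.conj H (rp_of_mem (cs := cs8) (hN := H.nsys) (t := u) (by rw [hTL]; exact hu))
    rw [hTL, hXL] at a2
    have a3 := a2.mul F2
    rwa [← mul_assoc, ← map_mul] at a3
  have hg₃a : ∀ j : Fin 8, j = 1 ∨ j = 2 ∨ j = 3 ∨ j = 4 → (g₂.trans (repAut cs8 hp8.isCartan 1)) (sr j) = sr j := by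
    intro j hj
    show rep cs8 hp8.isCartan 1 (g₂ (sr j)) = _
    rw [map_one, Module.End.one_apply, hg₂a j hj]
  have hx : ∀ j : Fin 8, (j = 1 ∨ j = 2 ∨ j = 3 ∨ j = 4) → ∀ t,
      (MulAut.conj (u * (nP⁻¹ * k₁)) * σ) (xc hp8 (sr j) t) = xc hp8 (sr j) (t ^ r ^ e) := by
    intro j hj t
    have a1 : (MulAut.conj (u * (nP⁻¹ * k₁)) * σ) (xc hp8 (sr j) t) =
        u * (MulAut.conj (nP⁻¹ * k₁) * σ) (xc hp8 (sr j) t) * u⁻¹ := by
      rw [map_mul MulAut.conj, mul_assoc]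
      rfl
    rw [a1, hcx j, hg₂a j hj, ch_comm hp8 cs8 hk r (isRoot_sr cs8 hp8.isCartan j) hu, huj, ← mul_assoc,
      inv_mul_cancel₀ (hc j), one_mul]
  refine ⟨w, n, l₁ * s, u * (nP⁻¹ * k₁), _, hn, mul_mem (Sup_le_LL hl₁) (TT_le_LL hs), e4, F3, hg₃a, ?_, h1⟩
  intro a ha t
  exact tau_RJ hp8 cs8 hk r (hσ.conj_mul _) F3 (J := Set.range fj) (fun i hi => hg₃a i ((mem_range_fj i).1 hi))
    (fun i hi => hx i ((mem_range_fj i).1 hi)) ha t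

end E8

end Cfsg.Agent.H230.X3

/-!
# The exceptional toral case of `E8` (S2187 X3, helper230)

`m : MData hp r q K₀` of type `E8`, `p` odd, `p ∣ q ^ 2 + 1`, `E` toral.

* `x3` : `GamY m.ι p E = ⊤` from `Gen p (chevD4.group F)`, `|F| = q`.
-/

set_option autoImplicit false
set_option linter.unusedSectionVars false
set_option linter.unusedVariables false

namespace Cfsg.Agent.H230.X3

open CoxeterSystem Cfsg Cfsg.Lie Cfsg.Lie.ChevalleyDatum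
open Cfsg.Agent.ChevalleyStructure Cfsg.Agent.ChevalleyStructure.Elts Cfsg.Agent.ChevalleyStructure.CoxeterGeom
  Cfsg.Agent.ChevalleyStructure.CoxeterGeomTypes Cfsg.Agent.ChevalleyStructure.NPerm
open Cfsg.Agent.Tits.Roots Cfsg.Agent.Tits.Core Cfsg.Agent.Nodes Cfsg.Agent.Nodes.Reps Cfsg.Agent.Nodes.BNOf
  Cfsg.Agent.Nodes.RGDChev Cfsg.Agent.Nodes.Bruhat Cfsg.Agent.Nodes.StabComb Cfsg.Agent.Nodes.SubComb
  Cfsg.Agent.Nodes.Sub Cfsg.Agent.Nodes.LeviStd Cfsg.Agent.Nodes.ClsSub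
open Cfsg.Agent.KFacts.RgdField Cfsg.Agent.KFacts.RgdChevCoord
open Cfsg.Agent.BpExc Cfsg.Agent.BpExc.TorCent Cfsg.Agent.BpExc.TorChev Cfsg.Agent.BpExc.Tow
open Cfsg.Agent.BpExc.TowChev Cfsg.Agent.BpExc.Fr Cfsg.Agent.BpExc.LangFr Cfsg.Agent.GpExc.Field
open Cfsg.Agent.BpExc.NChev Cfsg.Agent.BpExc.NInst Cfsg.Agent.BpExc.Pair
open Cfsg.Agent.H696.GmnToral Cfsg.Agent.BpExc.HX Cfsg.Agent.Nodes.Coroot
open Cfsg.Agent.H225.Gen Cfsg.Agent.H818.Gen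
open Cfsg.Agent.H818.StrP.UTab Cfsg.Agent.H818.StrP.UAct Cfsg.Agent.H123.ExcComb
open Cfsg.Agent.H469.Exc Cfsg.Agent.H469.Exc.SigFr Cfsg.Agent.H316.U3 Cfsg.Agent.H316.U6

universe u v

/-! ### orders -/

theorem card_ge {A G' : Type*} [Group A] [Group G'] (X : Subgroup A) [Finite ↥X] {p : ℕ} (κ : G' →* A) (t₀ t₁ : G')
    (hcomm : t₀ * t₁ = t₁ * t₀) (hX : ∀ i j : ℕ, κ (t₀ ^ i * t₁ ^ j) ∈ X)
    (hinj : ∀ i j : ℤ, κ (t₀ ^ i * t₁ ^ j) = 1 → (p : ℤ) ∣ i ∧ (p : ℤ) ∣ j) : p ^ 2 ≤ Nat.card ↥X := by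
  have h0 : Nat.card (Fin p × Fin p) = p ^ 2 := by rw [Nat.card_prod, Nat.card_fin, sq]
  rw [← h0]
  refine Nat.card_le_card_of_injective (fun x : Fin p × Fin p => (⟨κ (t₀ ^ (x.1 : ℕ) * t₁ ^ (x.2 : ℕ)), hX _ _⟩ : ↥X)) ?_
  rintro ⟨i, j⟩ ⟨i', j'⟩ h
  have h1 : κ (t₀ ^ (i : ℕ) * t₁ ^ (j : ℕ)) = κ (t₀ ^ (i' : ℕ) * t₁ ^ (j' : ℕ)) := congrArg Subtype.val h
  have hc : Commute t₀ t₁ := hcomm
  have h2 : κ (t₀ ^ ((i : ℤ) - i') * t₁ ^ ((j : ℤ) - j')) = 1 := by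
    have e : t₀ ^ ((i : ℤ) - i') * t₁ ^ ((j : ℤ) - j') =
        (t₀ ^ (i : ℕ) * t₁ ^ (j : ℕ)) * (t₀ ^ (i' : ℕ) * t₁ ^ (j' : ℕ))⁻¹ := by
      rw [zpow_sub, zpow_sub, zpow_natCast, zpow_natCast, zpow_natCast, zpow_natCast, mul_inv_rev]
      have h3 : (t₀ ^ (i' : ℕ))⁻¹ * (t₁ ^ (j : ℕ) * (t₁ ^ (j' : ℕ))⁻¹) =
          (t₁ ^ (j : ℕ) * (t₁ ^ (j' : ℕ))⁻¹) * (t₀ ^ (i' : ℕ))⁻¹ := by
        have h4 : Commute (t₀ ^ (i' : ℕ))⁻¹ (t₁ ^ (j : ℕ) * (t₁ ^ (j' : ℕ))⁻¹) :=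
          ((hc.pow_pow _ _).inv_left).mul_right ((hc.pow_pow _ _).inv_inv)
        exact h4.eq
      rw [mul_assoc, h3]
      group
    rw [e, map_mul, map_inv, h1, mul_inv_cancel]
  obtain ⟨h3, h4⟩ := hinj _ _ h2
  have h5 : (i : ℤ) - i' = 0 := by
    obtain ⟨c, hc⟩ := h3
    have a1 := i.2
    have a2 := i'.2
    have a3 : (p : ℤ) * c < p := by omega
    have a4 : -(p : ℤ) < p * c := by omega
    have hp0 : (0 : ℤ) < p := by omega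
    have a5 : c < 1 := by
      by_contra hcon
      push Not at hcon
      nlinarith
    have a6 : -1 < c := by
      by_contra hcon
      push Not at hcon
      nlinarith
    have : c = 0 := by omega
    rw [hc, this, mul_zero]
  have h6 : (j : ℤ) - j' = 0 := by
    obtain ⟨c, hc⟩ := h4
    have a1 := j.2
    have a2 := j'.2
    have a3 : (p : ℤ) * c < p := by omega
    have a4 : -(p : ℤ) < p * c := by omega
    have hp0 : (0 : ℤ) < p := by omega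
    have a5 : c < 1 := by
      by_contra hcon
      push Not at hcon
      nlinarith
    have a6 : -1 < c := by
      by_contra hcon
      push Not at hcon
      nlinarith
    have : c = 0 := by omega
    rw [hc, this, mul_zero]
  have e1 : i = i' := Fin.ext (by omega)
  have e2 : j = j' := Fin.ext (by omega)
  rw [e1, e2]

section E8

variable {k : Type u} [Field k] [IsAlgClosed k] (hk : LocFin k) (r : ℕ) [Fact r.Prime] [CharP k r] {e : ℕ}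
  {τ : MulAut ↥(chevE8.group k)} (hτ : IsFrob r e τ) {g₀ : (Fin 8 → ℤ) ≃+ (Fin 8 → ℤ)}
  (F0 : Fr cs8 hp8.isCartan (TT chevE8 k) (XX chevE8 8 k) τ g₀) (hsq : ∀ x, g₀ (g₀ x) = -x)
  (hZ : Subgroup.center ↥(chevE8.group k) = ⊥)

include hk hτ F0 hsq hZ in
/-- fixed torus elements of order `p` -/
theorem exists_td {p : ℕ} (hdvd : p ∣ (r ^ e) ^ 2 + 1) {ζ : k} (hζ : ζ ^ p = 1) (hζ0 : ζ ≠ 0) {d : Fin 8 → ℤ}
    (hd : IsRoot cs8 hp8.isCartan d) : ∃ t ∈ TT chevE8 k, t ^ p = 1 ∧ τ t = t ∧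
      ∀ a, IsRoot cs8 hp8.isCartan a → ch hp8 a t =
        ζ ^ (cpr cs8 hp8.isCartan a d + ((r ^ e : ℕ) : ℤ) * cpr cs8 hp8.isCartan a (g₀ d)) := by
  have := finite_W hp8 cs8
  have hgd := (F0.root d).2 hd
  obtain ⟨χ, hχ⟩ : ∃ χ : (Fin 8 → ℤ) → k, ∀ x, χ x =
      ζ ^ (cpr cs8 hp8.isCartan x d + ((r ^ e : ℕ) : ℤ) * cpr cs8 hp8.isCartan x (g₀ d)) := ⟨_, fun x => rfl⟩
  have hadd : ∀ x y, χ (x + y) = χ x * χ y := by
    intro x y
    rw [hχ, hχ, hχ, ← zpow_add₀ hζ0, cpr_add cs8 _ _ _ hd, cpr_add cs8 _ _ _ hgd]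
    congr 1
    ring
  have hmc : H129.TorusChar.IsMC χ := by
    refine ⟨?_, hadd⟩
    have h1 := hadd 0 0
    rw [add_zero] at h1
    have h2 : χ 0 ≠ 0 := by rw [hχ]; exact zpow_ne_zero _ hζ0
    exact (mul_eq_left₀ h2).1 h1.symm
  obtain ⟨t, ht, hc⟩ := H129.TorusChar.exists_cX hp8 (k := k) H129.TorusChar.invC_E8 (by norm_num)
    hmc (fun i => IsAlgClosed.exists_pow_nat_eq _ (by norm_num))
  have hch : ∀ a, IsRoot cs8 hp8.isCartan a → ch hp8 a t =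
        ζ ^ (cpr cs8 hp8.isCartan a d + ((r ^ e : ℕ) : ℤ) * cpr cs8 hp8.isCartan a (g₀ d)) := by
    intro a ha
    rw [← H129.TorusChar.cX_root hp8 cs8 ht ha, hc, hχ]
  refine ⟨t, ht, ?_, ?_, hch⟩
  · refine ext_TT hp8 cs8 hk r hZ (pow_mem ht p) (one_mem _) fun a ha => ?_
    rw [ch_pow hp8 cs8 hk r ha ht, ch_one hp8 cs8 hk r ha, hch a ha, ← zpow_natCast, ← zpow_mul, mul_comm, zpow_mul,
      zpow_natCast, hζ, one_zpow]
  · refine ext_TT hp8 cs8 hk r hZ ((F0.tor t).2 ht) ht fun b hb => ?_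
    obtain ⟨a, rfl⟩ := g₀.surjective b
    have ha := (F0.root a).1 hb
    rw [fr_ch hp8 cs8 hk hτ F0 ha ht, hch a ha, hch _ hb]
    have h1 : cpr cs8 hp8.isCartan (g₀ a) (g₀ d) = cpr cs8 hp8.isCartan a d := cpr_g (fun a => F0.root a) ha hd
    have h2 : cpr cs8 hp8.isCartan (g₀ a) d = -cpr cs8 hp8.isCartan a (g₀ d) := by
      have h3 := cpr_g (h := hp8.isCartan) (cs := cs8) (fun a => F0.root a) hb hd
      rw [hsq, cpr_neg cs8 _ _ hgd] at h3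
      exact h3.symm
    rw [h1, h2, ← zpow_natCast, ← zpow_mul]
    obtain ⟨c, hc⟩ := hdvd
    have hc' : (((r ^ e : ℕ) : ℤ)) ^ 2 + 1 = p * c := by exact_mod_cast hc
    have h4 : (cpr cs8 hp8.isCartan a d + ((r ^ e : ℕ) : ℤ) * cpr cs8 hp8.isCartan a (g₀ d)) * ((r ^ e : ℕ) : ℤ) =
        (-cpr cs8 hp8.isCartan a (g₀ d) + ((r ^ e : ℕ) : ℤ) * cpr cs8 hp8.isCartan a d) +
          (p : ℤ) * (c * cpr cs8 hp8.isCartan a (g₀ d)) := by
      rw [← mul_assoc, ← hc']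
      ring
    rw [h4, zpow_add₀ hζ0, zpow_mul ζ (p : ℤ), zpow_natCast, hζ, one_zpow, mul_one]

include hk hτ F0 hsq hZ in
/-- the image of the `p`-torsion of the torus in the quotient of the Levi subgroup -/
theorem card_image {p : ℕ} [hpp : Fact p.Prime] (hp2 : p ≠ 2) (hpr : p ≠ r) (hdvd : p ∣ (r ^ e) ^ 2 + 1)
    {w : CoxeterMatrix.E₈.Group} {n : ↥(chevE8.group k)} (hn : Rp cs8 (tow hp8 cs8 hk r (k := k)).nsys w n)
    (hw : g₀ (rep cs8 hp8.isCartan w (sr 1)) = rep cs8 hp8.isCartan w (sr 2)) {l : ↥(chevE8.group k)} (hl : l ∈ LL k)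
    (X : Subgroup ↥(chevD4.group k)) [Finite ↥X]
    (hX : ∀ t ∈ TT chevE8 k, t ^ p = 1 → τ t = t → ∀ h : l⁻¹ * n⁻¹ * t * (l⁻¹ * n⁻¹)⁻¹ ∈ LL k, piL ⟨_, h⟩ ∈ X) :
    p ^ 2 ≤ Nat.card ↥X := by
  have := finite_W hp8 cs8
  have hpp' := hpp.out
  have hrr : r.Prime := Fact.out
  have hTL := TL_eq (k := k) hp8 hk
  have hXL := XL_eq (k := k) hp8 hk
  have H := tow (k := k) hp8 cs8 hk r
  have C := coordsL (k := k) hp8 cs8 hk r
  have C' : Coords cs8 hp8.isCartan (TL (Tj hp8 (k := k))) (nc hp8 k) (XL (Xj hp8 (k := k))) (xc hp8) (ch hp8) := by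
    rw [hTL, hXL]; exact C
  -- a primitive root of unity
  have hne : NeZero ((p : ℕ) : k) := ⟨fun h => by
    have h1 := (CharP.cast_eq_zero_iff k r p).1 h
    exact hpr ((Nat.prime_dvd_prime_iff_eq hrr hpp').1 h1).symm⟩
  obtain ⟨ζ, hζ⟩ := HasEnoughRootsOfUnity.exists_primitiveRoot k p
  have hζ1 := hζ.pow_eq_one
  have hζ0 : ζ ≠ 0 := hζ.ne_zero hpp'.ne_zero
  -- the homomorphism
  have hnT : ∀ t ∈ TT chevE8 k, n⁻¹ * t * n ∈ TT chevE8 k := by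
    intro t ht
    have h1 := hn.inv.mem_normalizer
    rw [TL_eq hp8 hk] at h1
    have h2 := (Subgroup.mem_normalizer_iff.1 h1 t).1 ht
    rwa [inv_inv] at h2
  have hm : ∀ t ∈ TT chevE8 k, l⁻¹ * n⁻¹ * t * (l⁻¹ * n⁻¹)⁻¹ ∈ LL k := by
    intro t ht
    have e1 : l⁻¹ * n⁻¹ * t * (l⁻¹ * n⁻¹)⁻¹ = l⁻¹ * (n⁻¹ * t * n) * l := by group
    rw [e1]
    exact mul_mem (mul_mem (inv_mem hl) (TT_le_LL (hnT t ht))) hl
  obtain ⟨κ, hκ⟩ : ∃ κ : ↥(TT chevE8 k) →* ↥(chevD4.group k), ∀ t (h : l⁻¹ * n⁻¹ * t.1 * (l⁻¹ * n⁻¹)⁻¹ ∈ LL k),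
      κ t = piL ⟨_, h⟩ :=
    ⟨piL.comp (((MulAut.conj (l⁻¹ * n⁻¹)).toMonoidHom.comp (TT chevE8 k).subtype).codRestrict (LL k)
      (fun t => hm t.1 t.2)), fun t h => rfl⟩
  have hker : ∀ t : ↥(TT chevE8 k), κ t = 1 → ∀ j : Fin 8, (j = 1 ∨ j = 2 ∨ j = 3 ∨ j = 4) →
      ch hp8 (rep cs8 hp8.isCartan w (sr j)) t.1 = 1 := by
    intro t ht j hj
    have h0 := hnT t.1 t.2
    obtain ⟨t', ht'⟩ : ∃ t', t' = n⁻¹ * t.1 * n := ⟨_, rfl⟩
    rw [← ht'] at h0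
    have h1 : piL ⟨t', TT_le_LL h0⟩ = 1 := by
      have h2 := hκ t (hm t.1 t.2)
      have e1 : (⟨l⁻¹ * n⁻¹ * t.1 * (l⁻¹ * n⁻¹)⁻¹, hm t.1 t.2⟩ : ↥(LL k)) =
          (⟨l, hl⟩ : ↥(LL k))⁻¹ * ⟨t', TT_le_LL h0⟩ * ⟨l, hl⟩ := by
        apply Subtype.ext
        show l⁻¹ * n⁻¹ * t.1 * (l⁻¹ * n⁻¹)⁻¹ = l⁻¹ * t' * l
        rw [ht']
        group
      rw [e1, map_mul, map_mul, map_inv, ht] at h2
      have h3 : piL ⟨t', TT_le_LL h0⟩ = piL ⟨l, hl⟩ * ((piL ⟨l, hl⟩)⁻¹ * piL ⟨t', TT_le_LL h0⟩ * piL ⟨l, hl⟩) *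
          (piL ⟨l, hl⟩)⁻¹ := by group
      rw [h3, ← h2]
      group
    obtain ⟨-, h2⟩ := (ker_piL hk r).1 h1
    have hjr := isRoot_sr cs8 hp8.isCartan j
    have h3 : ch hp8 (sr j) t' = 1 := by
      obtain ⟨s, hs⟩ := mem_DL.1 (sr_mem_DL hj)
      rw [hs]
      exact h2 s
    have h4 := C'.chi_rp H.nsys hn hjr (t := t') (by rw [hTL]; exact h0)
    have e2 : n * t' * n⁻¹ = t.1 := by rw [ht']; group
    rw [e2] at h4
    rw [h4, h3]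
  -- the elements
  have h3r := (isRoot_sr cs8 hp8.isCartan 3).act w
  have h1r := (isRoot_sr cs8 hp8.isCartan 1).act w
  have h2r := (isRoot_sr cs8 hp8.isCartan 2).act w
  obtain ⟨t₀, ht₀, ht₀p, ht₀τ, hc₀⟩ := exists_td hk r hτ F0 hsq hZ hdvd hζ1 hζ0 h3r
  obtain ⟨t₁, ht₁, ht₁p, ht₁τ, hc₁⟩ := exists_td hk r hτ F0 hsq hZ hdvd hζ1 hζ0 h1r
  have hs : ∀ i j : Fin 8, cpr cs8 hp8.isCartan (rep cs8 hp8.isCartan w (sr i)) (rep cs8 hp8.isCartan w (sr j)) =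
      cartanOf chevE8 8 j i := fun i j => by
    rw [cpr_rep cs8 _ _ _ (isRoot_sr cs8 hp8.isCartan j), cpr_sr, pairing_sr']
  have c33 : cartanOf chevE8 8 3 3 = 2 := by decide +kernel
  have c31 : cartanOf chevE8 8 3 1 = -1 := by decide +kernel
  have c13 : cartanOf chevE8 8 1 3 = -1 := by decide +kernel
  have c23 : cartanOf chevE8 8 2 3 = -1 := by decide +kernel
  have c32 : cartanOf chevE8 8 3 2 = -1 := by decide +kernel
  have c11 : cartanOf chevE8 8 1 1 = 2 := by decide +kernel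
  have c21 : cartanOf chevE8 8 2 1 = 0 := by decide +kernel
  have orth : cpr cs8 hp8.isCartan (rep cs8 hp8.isCartan w (sr 3)) (g₀ (rep cs8 hp8.isCartan w (sr 3))) = 0 := by
    have hg3 := (F0.root _).2 h3r
    have h1 := cpr_g (h := hp8.isCartan) (cs := cs8) (fun a => F0.root a) h3r hg3
    rw [hsq, cpr_neg_right cs8 _ _ h3r, SimplyLaced.cpr_symm cs8 _ Comb.no4 Comb.no6 hg3 h3r] at h1
    omega
  have k1 : cpr cs8 hp8.isCartan (rep cs8 hp8.isCartan w (sr 1)) (g₀ (rep cs8 hp8.isCartan w (sr 3))) = 1 := by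
    have hg3 := (F0.root _).2 h3r
    have h1 := cpr_g (h := hp8.isCartan) (cs := cs8) (fun a => F0.root a) h1r hg3
    rw [hsq, cpr_neg_right cs8 _ _ h3r, hw, hs, c32] at h1
    rw [← h1, neg_neg]
  -- the characters
  have v00 := hc₀ _ h3r
  have v01 := hc₀ _ h1r
  have v10 := hc₁ _ h3r
  have v11 := hc₁ _ h1r
  rw [hs, c33, orth, mul_zero, add_zero] at v00
  rw [hs, c31, k1, mul_one] at v01
  rw [hs, c13, hw, hs, c23] at v10
  rw [hs, c11, hw, hs, c21, mul_zero, add_zero] at v11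
  have hcomm : t₀ * t₁ = t₁ * t₀ := TT_comm ht₀ ht₁
  refine card_ge X κ ⟨t₀, ht₀⟩ ⟨t₁, ht₁⟩ (Subtype.ext hcomm) ?_ ?_
  · intro i j
    have hmem := mul_mem (pow_mem ht₀ i) (pow_mem ht₁ j)
    rw [hκ _ (hm _ hmem)]
    refine hX _ hmem ?_ ?_ (hm _ hmem)
    · have hc : Commute (t₀ ^ i) (t₁ ^ j) := (show Commute t₀ t₁ from hcomm).pow_pow i j
      rw [hc.mul_pow, ← pow_mul, ← pow_mul, mul_comm i, mul_comm j, pow_mul, pow_mul, ht₀p, ht₁p, one_pow, one_pow, one_mul]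
    · rw [map_mul, map_pow, map_pow, ht₀τ, ht₁τ]
  · intro i j hij
    have hz0 := zpow_mem ht₀ i
    have hz1 := zpow_mem ht₁ j
    have a3 := hker _ hij 3 (by simp)
    have a1 := hker _ hij 1 (by simp)
    have b3 : ch hp8 (rep cs8 hp8.isCartan w (sr 3)) (t₀ ^ i * t₁ ^ j) = 1 := a3
    have b1 : ch hp8 (rep cs8 hp8.isCartan w (sr 1)) (t₀ ^ i * t₁ ^ j) = 1 := a1
    rw [ch_mul hp8 cs8 hk r h3r hz0 hz1, ch_zpow hp8 cs8 hk r h3r ht₀, ch_zpow hp8 cs8 hk r h3r ht₁, v00, v10,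
      ← zpow_mul, ← zpow_mul, ← zpow_add₀ hζ0, hζ.zpow_eq_one_iff_dvd] at b3
    rw [ch_mul hp8 cs8 hk r h1r hz0 hz1, ch_zpow hp8 cs8 hk r h1r ht₀, ch_zpow hp8 cs8 hk r h1r ht₁, v01, v11,
      ← zpow_mul, ← zpow_mul, ← zpow_add₀ hζ0, hζ.zpow_eq_one_iff_dvd] at b1
    have hdvd' : (p : ℤ) ∣ ((r ^ e : ℕ) : ℤ) ^ 2 + 1 := by exact_mod_cast hdvd
    obtain ⟨Q, hQ⟩ : ∃ Q : ℤ, Q = ((r ^ e : ℕ) : ℤ) := ⟨_, rfl⟩
    rw [← hQ] at b3 b1 hdvd'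
    have hpZ : Prime (p : ℤ) := Nat.prime_iff_prime_int.1 hpp'
    have h2 : ¬ (p : ℤ) ∣ 2 := by
      intro h
      have h' : p ∣ 2 := by exact_mod_cast h
      exact hp2 ((Nat.prime_dvd_prime_iff_eq hpp' Nat.prime_two).1 h')
    have e1 : (p : ℤ) ∣ 2 * i := by
      have h3 := dvd_sub (dvd_add (Dvd.dvd.mul_left b3 2) (Dvd.dvd.mul_left b1 (1 + Q))) (Dvd.dvd.mul_left hdvd' i)
      have e : 2 * (2 * i + (-1 + Q * -1) * j) + (1 + Q) * ((-1 + Q) * i + 2 * j) - i * (Q ^ 2 + 1) = 2 * i := by ring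
      rwa [e] at h3
    have e2 : (p : ℤ) ∣ 2 * j := by
      have h3 := dvd_sub (dvd_sub (Dvd.dvd.mul_left b1 2) (Dvd.dvd.mul_left b3 (Q - 1))) (Dvd.dvd.mul_left hdvd' j)
      have e : 2 * ((-1 + Q) * i + 2 * j) - (Q - 1) * (2 * i + (-1 + Q * -1) * j) - j * (Q ^ 2 + 1) = 2 * j := by ring
      rwa [e] at h3
    exact ⟨(hpZ.dvd_or_dvd e1).resolve_left h2, (hpZ.dvd_or_dvd e2).resolve_left h2⟩

end E8

section Main

variable {r q : ℕ} [hr : Fact r.Prime] {K₀ : Type v} [Group K₀]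

theorem center_D4 (k : Type u) [Field k] [IsAlgClosed k] : Subgroup.center ↥(chevD4.group k) = ⊥ :=
  H496.Gen.T2.center_group hp4 (ne_of_apply_ne ChevalleyDatum.nroots (by decide +kernel)) k

/-- **The exceptional case.** -/
theorem exc (m : MData hp8 r q K₀) [IsSimpleGroup K₀] (hq : 3 ≤ q) {p : ℕ} [hpp : Fact p.Prime] (hp2 : p ≠ 2)
    (hpq : p ∣ q ^ 2 + 1) (hG : ∀ (F : Type) [Field F] [Fintype F], Fintype.card F = q → Gen p ↥(chevD4.group F))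
    {E : Subgroup ↥(chevE8.group (KK r))} (hE : IsElementaryAbelian p E) (hσ : ∀ y ∈ E, m.σ y = y)
    (hc : p ≤ Nat.card ↥E)
    (hex : H496.Gen.T2.ExcFrame cs8 hp8 m.σ m.g (locFin r) r E) : GamY m.ι p E = ⊤ := by
  have hpp' := hpp.out
  have hrr : r.Prime := hr.out
  have hk := locFin r
  have hmq := m.hq
  have hme := m.he
  have hpr : p ≠ r := by
    rintro rfl
    have h1 : p ∣ q := by rw [← hmq]; exact dvd_pow_self p hme.ne'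
    have h2 : p ∣ q ^ 2 := dvd_pow h1 two_ne_zero
    have h3 := (Nat.dvd_add_right h2).1 hpq
    exact hpp'.one_lt.ne' (Nat.dvd_one.1 h3)
  have hpq1 : Nat.Coprime p (q - 1) := by
    rw [Nat.Prime.coprime_iff_not_dvd hpp']
    intro h1
    have h2 : q ^ 2 + 1 = (q - 1) * (q + 1) + 2 := by
      obtain ⟨a, rfl⟩ : ∃ a, q = a + 1 := ⟨q - 1, by omega⟩
      rw [Nat.add_sub_cancel]; ring
    rw [h2] at hpq
    have h3 := (Nat.dvd_add_right (Dvd.dvd.mul_right h1 (q + 1))).1 hpq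
    exact hp2 ((Nat.prime_dvd_prime_iff_eq hpp' Nat.prime_two).1 h3)
  have hqr : Nat.Coprime r (q - 1) := by
    rw [Nat.Prime.coprime_iff_not_dvd hrr]
    intro h1
    have h2 : r ∣ q := by rw [← hmq]; exact dvd_pow_self r hme.ne'
    have h3 : r ∣ 1 := by
      have h4 := Nat.dvd_sub h2 h1
      rwa [Nat.sub_sub_self (by omega)] at h4
    exact hrr.one_lt.ne' (Nat.dvd_one.1 h3)
  -- the field
  obtain ⟨F, iF, iFt, hF, ⟨f⟩⟩ : ∃ (F : Type) (_ : Field F) (_ : Fintype F), Fintype.card F = q ∧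
      Nonempty (F →+* KK r) := by
    let iFF : Fintype (GaloisField r m.e) := Fintype.ofFinite _
    refine ⟨GaloisField r m.e, inferInstance, iFF, ?_, ?_⟩
    · rw [← Nat.card_eq_fintype_card, GaloisField.card r m.e hme.ne', hmq]
    · exact RowsUntw.exists_emb r (GaloisField r m.e)
  -- the frame
  obtain ⟨-, z, c, w₀, hfrm, -, hsq, -⟩ := hex
  have hZ : Subgroup.center ↥(chevE8.group (KK r)) = ⊥ := center_KK hi_E8 r
  obtain ⟨g₀, hg₀⟩ : ∃ g₀, g₀ = m.g.trans (repAut cs8 hp8.isCartan w₀) := ⟨_, rfl⟩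
  have F0 : Fr cs8 hp8.isCartan (TT chevE8 (KK r)) (XX chevE8 8 (KK r)) (MulAut.conj c * m.σ) g₀ := by
    rw [hg₀]; exact hfrm.fr
  rw [← hg₀] at hsq
  have hc0 : z⁻¹ * m.σ z = c := hfrm.eq
  -- the group `E₄`
  obtain ⟨E₄, hE₄⟩ : ∃ E₄ : Subgroup ↥(chevE8.group (KK r)), ∀ y, y ∈ E₄ ↔
      m.σ y = y ∧ z⁻¹ * y * z ∈ TT chevE8 (KK r) ∧ y ^ p = 1 := by
    have hcom : ∀ a b, z⁻¹ * a * z ∈ TT chevE8 (KK r) → z⁻¹ * b * z ∈ TT chevE8 (KK r) → Commute a b := by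
      intro a b ha hb
      have h1 := TT_comm ha hb
      have e1 : a * b = z * (z⁻¹ * a * z * (z⁻¹ * b * z)) * z⁻¹ := by group
      have e2 : b * a = z * (z⁻¹ * b * z * (z⁻¹ * a * z)) * z⁻¹ := by group
      show a * b = b * a
      rw [e1, e2, h1]
    refine ⟨⟨⟨⟨{y | m.σ y = y ∧ z⁻¹ * y * z ∈ TT chevE8 (KK r) ∧ y ^ p = 1}, ?_⟩, ?_⟩, ?_⟩, fun y => Iff.rfl⟩
    · rintro a b ⟨ha, ha', ha''⟩ ⟨hb, hb', hb''⟩
      refine ⟨by rw [map_mul, ha, hb], ?_, ?_⟩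
      · have e : z⁻¹ * (a * b) * z = (z⁻¹ * a * z) * (z⁻¹ * b * z) := by group
        rw [e]; exact mul_mem ha' hb'
      · rw [(hcom a b ha' hb').mul_pow, ha'', hb'', one_mul]
    · exact ⟨map_one _, by rw [mul_one, inv_mul_cancel]; exact one_mem _, one_pow p⟩
    · rintro a ⟨ha, ha', ha''⟩
      refine ⟨by rw [map_inv, ha], ?_, by rw [inv_pow, ha'', inv_one]⟩
      have e : z⁻¹ * a⁻¹ * z = (z⁻¹ * a * z)⁻¹ := by group
      rw [e]; exact inv_mem ha'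
  have hEE₄ : E ≤ E₄ := fun y hy => (hE₄ y).2 ⟨hσ y hy, hfrm.tor ⟨y, hy⟩, hE.2 y hy⟩
  have hσ₄ : ∀ y ∈ E₄, m.σ y = y := fun y hy => ((hE₄ y).1 hy).1
  have hfin₄ : Finite ↥E₄ := finite_of_fix m hσ₄
  have hcomm₄ : ∀ a ∈ E₄, ∀ b ∈ E₄, a * b = b * a := by
    intro a ha b hb
    have h1 := TT_comm ((hE₄ a).1 ha).2.1 ((hE₄ b).1 hb).2.1
    have e1 : a * b = z * (z⁻¹ * a * z * (z⁻¹ * b * z)) * z⁻¹ := by group
    have e2 : b * a = z * (z⁻¹ * b * z * (z⁻¹ * a * z)) * z⁻¹ := by group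
    rw [e1, e2, h1]
  have hel₄ : IsElementaryAbelian p E₄ :=
    ⟨⟨⟨fun a b => Subtype.ext (hcomm₄ a a.2 b b.2)⟩⟩, fun a ha => ((hE₄ a).1 ha).2.2⟩
  have hc₄ : p ≤ Nat.card ↥E₄ := hc.trans (Subgroup.card_le_of_le hEE₄)
  -- the adapted frame
  obtain ⟨w, n, l, k₃, g₃, hn, hl, hk₃, F3, hg₃, hxc, hw⟩ := exists_frame hk r hme hZ m.frob hc0 F0 hsq
  obtain ⟨z₃, hz₃⟩ : ∃ z₃, z₃ = z * n * l := ⟨_, rfl⟩
  rw [← hz₃] at hk₃
  obtain ⟨τ, hτ⟩ : ∃ τ, τ = MulAut.conj k₃ * m.σ := ⟨_, rfl⟩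
  rw [← hτ] at F3 hxc
  have hτz : ∀ x, z₃ * τ x * z₃⁻¹ = m.σ (z₃ * x * z₃⁻¹) := by
    intro x
    have e1 : τ x = k₃ * m.σ x * k₃⁻¹ := by rw [hτ]; rfl
    rw [e1, ← hk₃, map_mul, map_mul, map_inv]
    group
  have hτz' : ∀ x, m.σ (z₃ * x * z₃⁻¹) = z₃ * x * z₃⁻¹ ↔ τ x = x := by
    intro x
    rw [← hτz]
    constructor
    · intro h
      exact mul_left_cancel (mul_right_cancel h)
    · intro h; rw [h]
  obtain ⟨E₂, hE₂⟩ : ∃ E₂ : Subgroup ↥(chevE8.group (KK r)), E₂ = E₄.map (MulAut.conj z₃⁻¹).toMonoidHom := ⟨_, rfl⟩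
  have hmem₂ : ∀ x, x ∈ E₂ ↔ z₃ * x * z₃⁻¹ ∈ E₄ := by
    intro x
    rw [hE₂]
    constructor
    · rintro ⟨v, hv, rfl⟩
      have : z₃ * ((MulAut.conj z₃⁻¹).toMonoidHom v) * z₃⁻¹ = v := by
        show z₃ * (z₃⁻¹ * v * z₃⁻¹⁻¹) * z₃⁻¹ = v
        group
      rw [this]; exact hv
    · intro hu
      refine ⟨_, hu, ?_⟩
      show z₃⁻¹ * (z₃ * x * z₃⁻¹) * z₃⁻¹⁻¹ = x
      group
  have hel₂ : IsElementaryAbelian p E₂ := by
    refine ⟨⟨⟨fun a b => Subtype.ext ?_⟩⟩, fun a ha => ?_⟩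
    · have h1 := hcomm₄ _ ((hmem₂ a).1 a.2) _ ((hmem₂ b).1 b.2)
      have e1 : z₃ * a.1 * z₃⁻¹ * (z₃ * b.1 * z₃⁻¹) = z₃ * (a.1 * b.1) * z₃⁻¹ := by group
      have e2 : z₃ * b.1 * z₃⁻¹ * (z₃ * a.1 * z₃⁻¹) = z₃ * (b.1 * a.1) * z₃⁻¹ := by group
      rw [e1, e2] at h1
      exact mul_left_cancel (mul_right_cancel h1)
    · have h1 := ((hE₄ _).1 ((hmem₂ a).1 ha)).2.2
      rw [conj_pow] at h1
      exact conj_eq_one_iff.1 h1
  have hnT : ∀ t ∈ TT chevE8 (KK r), n⁻¹ * t * n ∈ TT chevE8 (KK r) := by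
    intro t ht
    have h1 := hn.inv.mem_normalizer
    rw [TL_eq hp8 hk] at h1
    have h2 := (Subgroup.mem_normalizer_iff.1 h1 t).1 ht
    rwa [inv_inv] at h2
  have hE₂L : E₂ ≤ LL (KK r) := by
    intro x hx
    have h1 := ((hE₄ _).1 ((hmem₂ x).1 hx)).2.1
    have h2 := hnT _ h1
    have e1 : x = l⁻¹ * (n⁻¹ * (z⁻¹ * (z₃ * x * z₃⁻¹) * z) * n) * l := by rw [hz₃]; group
    rw [e1]
    exact mul_mem (mul_mem (inv_mem hl) (TT_le_LL h2)) hl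
  have hE₂τ : ∀ y ∈ E₂, τ y = y := fun y hy => (hτz' y).1 (hσ₄ _ ((hmem₂ y).1 hy))
  have hfin₂ : Finite ↥E₂ :=
    Finite.of_injective (fun x : ↥E₂ => (⟨z₃ * x.1 * z₃⁻¹, (hmem₂ _).1 x.2⟩ : ↥E₄)) fun a b h =>
      Subtype.ext (mul_left_cancel (mul_right_cancel (congrArg (fun z : ↥E₄ => z.1) h)))
  -- the image
  have hcard : p ^ 2 ≤ Nat.card ↥(((E₂.subgroupOf (LL (KK r))).map piL : Subgroup ↥(chevD4.group (KK r)))) := by
    have hf1 : Finite ↥(E₂.subgroupOf (LL (KK r))) :=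
      Finite.of_injective (fun x => (⟨x.1.1, x.2⟩ : ↥E₂)) fun a b h =>
        Subtype.ext (Subtype.ext (congrArg (fun z : ↥E₂ => z.1) h))
    have hf2 : Finite ↥(((E₂.subgroupOf (LL (KK r))).map piL : Subgroup ↥(chevD4.group (KK r)))) :=
      Finite.of_surjective _ (piL.subgroupMap_surjective (E₂.subgroupOf (LL (KK r))))
    refine card_image hk r (m.frob.conj_mul c) F0 hsq hZ hp2 hpr (by rw [hmq]; exact hpq) hn hw hl _
      fun t ht htp htτ h => ?_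
    refine ⟨⟨_, h⟩, ?_, rfl⟩
    show l⁻¹ * n⁻¹ * t * (l⁻¹ * n⁻¹)⁻¹ ∈ E₂
    rw [hmem₂, hE₄]
    have e1 : z₃ * (l⁻¹ * n⁻¹ * t * (l⁻¹ * n⁻¹)⁻¹) * z₃⁻¹ = z * t * z⁻¹ := by rw [hz₃]; group
    rw [e1]
    refine ⟨?_, ?_, ?_⟩
    · have e2 : c * m.σ t * c⁻¹ = t := htτ
      rw [map_mul, map_mul, map_inv]
      have e3 : m.σ z = z * c := by rw [← hc0]; group
      rw [e3]
      have e4 : z * c * m.σ t * (z * c)⁻¹ = z * (c * m.σ t * c⁻¹) * z⁻¹ := by group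
      rw [e4, e2]
    · have e2 : z⁻¹ * (z * t * z⁻¹) * z = t := by group
      rw [e2]; exact ht
    · rw [conj_pow, htp, mul_one, mul_inv_cancel]
  -- the subgroup `N`
  obtain ⟨N, hN⟩ : ∃ N : Subgroup ↥(chevE8.group (KK r)), ∀ x, x ∈ N ↔ z₃ * x * z₃⁻¹ ∈ (GamY m.ι p E₄).map m.ι :=
    ⟨((GamY m.ι p E₄).map m.ι).comap (MulAut.conj z₃).toMonoidHom, fun x => Iff.rfl⟩
  have hφ : ∀ t : KK r, iterateFrobenius (KK r) r m.e t = t ^ q := fun t => by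
    rw [iterateFrobenius_def, hmq]
  have hτ' : ∀ (s : Fin chevD4.nroots) (t : KK r), τ (xc hp8 (vec chevE8 8 (dE.σ s).val) t) =
      xc hp8 (vec chevE8 8 (dE.σ s).val) (t ^ q) := by
    intro s t
    rw [hxc _ (mem_DL.2 ⟨s, rfl⟩), hmq]
  have hL0 : ∀ x ∈ L0 f, z₃ * x * z₃⁻¹ ∈ m.ι.range := by
    intro x hx
    have key : L0 f ≤ m.ι.range.comap (MulAut.conj z₃).toMonoidHom := by
      refine (Subgroup.closure_le _).2 ?_
      rintro _ ⟨s, t, rfl⟩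
      have h1 : τ (xc hp8 (vec chevE8 8 (dE.σ s).val) (f t)) = xc hp8 (vec chevE8 8 (dE.σ s).val) (f t) :=
        tau_fix hτ' hF (xc_mem_L0 f s t)
      have h2 := (hτz' _).2 h1
      obtain ⟨a, ha⟩ := m.exists_eq h2 ⟨1, by
        rw [conj_pow, pow_one, xc_pow_r hk r s (f t), mul_one, mul_inv_cancel]⟩
      exact ⟨a, ha⟩
    exact key hx
  have hcore : ∀ (s : Fin chevD4.nroots) (t : F), xc hp8 (vec chevE8 8 (dE.σ s).val) (f t) ∈ N := by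
    refine core (τ := τ) (q := q) (φ := iterateFrobenius (KK r) r m.e) hk r (center_D4 (KK r))
      (fun x hx => (F3.tor x).2 hx) hτ' hφ hF hpq1 hqr (hG F hF) hel₂ hE₂L hE₂τ hcard N ?_
    intro x hx E' hE' hi hcom
    rw [hN]
    obtain ⟨a, ha⟩ := hL0 x hx
    refine ⟨a, mem_GamY (F := E'.map (MulAut.conj z₃).toMonoidHom) ?_ ?_ ?_, ha⟩
    · rintro _ ⟨v, hv, rfl⟩
      exact (hmem₂ v).1 (hE' hv)
    · have e1 : E₂.map (MulAut.conj z₃).toMonoidHom = E₄ := by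
        ext y
        constructor
        · rintro ⟨v, hv, rfl⟩
          exact (hmem₂ v).1 hv
        · intro hy
          refine ⟨z₃⁻¹ * y * z₃, (hmem₂ _).2 ?_, ?_⟩
          · have e : z₃ * (z₃⁻¹ * y * z₃) * z₃⁻¹ = y := by group
            rw [e]; exact hy
          · show z₃ * (z₃⁻¹ * y * z₃) * z₃⁻¹ = y
            group
      rw [← e1, Subgroup.relIndex_map_map_of_injective _ _ (MulAut.conj z₃).injective, hi]
    · rintro _ ⟨v, hv, rfl⟩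
      rw [ha]
      show z₃ * v * z₃⁻¹ * (z₃ * x * z₃⁻¹) = z₃ * x * z₃⁻¹ * (z₃ * v * z₃⁻¹)
      have h1 := hcom v hv
      calc z₃ * v * z₃⁻¹ * (z₃ * x * z₃⁻¹) = z₃ * (v * x) * z₃⁻¹ := by group
        _ = z₃ * (x * v) * z₃⁻¹ := by rw [h1]
        _ = _ := by group
  -- the root groups
  have hroot : ∀ a ∈ DL, ∀ x, x ∈ XX chevE8 8 (KK r) a → τ x = x → x ∈ N := by
    intro a ha x hx hτx
    obtain ⟨s, rfl⟩ := mem_DL.1 ha
    obtain ⟨t, rfl⟩ := (mem_XX8 ha.1).1 hx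
    rw [hτ'] at hτx
    have h1 : t ^ q = t := xc_inj hp8 (dE.σ s).2 hτx
    obtain ⟨t', rfl⟩ := (Emb.fix_iff_range (f := f) (φ := iterateFrobenius (KK r) r m.e)
      (fun t => by rw [hφ, hF]) t).1 (by rw [hφ, h1])
    exact hcore s t'
  obtain ⟨y, hy, hy1, hy2⟩ := conj_th hi_E8 hp8 cs8 hk hme hZ m.frob m.fr m.top hk₃ (by rw [← hτ]; exact F3)
    (a := sr 3) (Comb.root_mem_LL hp8 cs8 (isRoot_sr cs8 hp8.isCartan 3)) (hg₃ 3 (by simp))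
  have htop : GamY m.ι p E₄ = ⊤ := by
    refine Top.gamY_of_long hi_E8 m hq (fun h => absurd h (ne_of_apply_ne ChevalleyDatum.nroots (by decide +kernel)))
      hel₄ hσ₄ hc₄ (z := z⁻¹) (fun a ha => by rw [inv_inv]; exact ((hE₄ a).1 ha).2.1) hy fun u hu hux => ?_
    have h3 : (sr 3 : Fin 8 → ℤ) ∈ DL := sr_mem_DL (by simp)
    have hfx : τ (z₃⁻¹ * (y * u * y⁻¹) * z₃) = z₃⁻¹ * (y * u * y⁻¹) * z₃ := by
      rw [← hτz']
      have e : z₃ * (z₃⁻¹ * (y * u * y⁻¹) * z₃) * z₃⁻¹ = y * u * y⁻¹ := by group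
      rw [e, map_mul, map_mul, map_inv, hy, hu]
    have h4 : z₃⁻¹ * (y * u * y⁻¹) * z₃ ∈ N := by
      rcases hux with h5 | h5
      · exact hroot _ h3 _ (hy1 u h5) hfx
      · exact hroot _ (neg_mem_DL h3) _ (hy2 u h5) hfx
    have h5 := (hN _).1 h4
    have e : z₃ * (z₃⁻¹ * (y * u * y⁻¹) * z₃) * z₃⁻¹ = y * u * y⁻¹ := by group
    rwa [e] at h5
  rw [eq_top_iff, ← htop]
  exact GamY_mono hEE₄ hel₄ hc

/-- **X3** (and X1, X2 for `E8`): toral `E`. -/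
theorem x3 (m : MData hp8 r q K₀) [IsSimpleGroup K₀] (hq : 3 ≤ q) {p : ℕ} [hpp : Fact p.Prime] (hp2 : p ≠ 2)
    (hG : p ∣ q ^ 2 + 1 → ∀ (F : Type) [Field F] [Fintype F], Fintype.card F = q → Gen p ↥(chevD4.group F))
    {E : Subgroup ↥(chevE8.group (KK r))} (hE : IsElementaryAbelian p E) (hσ : ∀ y ∈ E, m.σ y = y)
    (hc : p ≤ Nat.card ↥E) {z : ↥(chevE8.group (KK r))} (hz : ∀ a ∈ E, z * a * z⁻¹ ∈ TT chevE8 (KK r)) :
    GamY m.ι p E = ⊤ := by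
  rcases H496.Gen.T2.toral_untw (ne_of_apply_ne ChevalleyDatum.nroots (by decide +kernel))
    (ne_of_apply_ne ChevalleyDatum.nroots (by decide +kernel)) m hp2 hE hσ hc hz with h | ⟨h1, h2⟩
  · exact Top.gamY_of_sl hi_E8 m hq (fun h => absurd h (ne_of_apply_ne ChevalleyDatum.nroots (by decide +kernel)))
      hE hσ hc hz h
  · exact exc m hq hp2 h1 (hG h1) hE hσ hc h2

end Main

end Cfsg.Agent.H230.X3
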