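import Cfsg.Agent.Nodes.NormalForm
import Cfsg.Agent.H230.X3.Emb
import Cfsg.Agent.Nodes.LeviStd
import Cfsg.Agent.BpExc.TowChev
import Cfsg.Agent.H129.TorusChar
import Cfsg.Agent.BpExc.RowsUntw
import Cfsg.Agent.BpExc.RowsN
import Cfsg.Agent.H696.GmnToral
import Cfsg.Agent.H818.Gen.Exc

/-!
# Kernels of homomorphisms of groups with root group data (S2187 X3, helper230)

`ker_le` : `φ : L →* Y'`, `GG ≤ L`, maps `T, X x, n i` into `T', X' x`, the representatives of the simple reflections, and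
is injective on the root groups: the kernel on `GG` is contained in `T`.
-/

set_option autoImplicit false
set_option linter.unusedSectionVars false

namespace Cfsg.Agent.H230.X3

open CoxeterSystem Cfsg.Agent.ChevalleyStructure.CoxeterGeom Cfsg.Agent.Tits.Roots Cfsg.Agent.Tits.Core
  Cfsg.Agent.Nodes.Reps Cfsg.Agent.Nodes.BNOf Cfsg.Agent.Nodes.StabComb Cfsg.Agent.Nodes.Bruhat
  Cfsg.Agent.Nodes.OppDec Cfsg.Agent.Nodes.NormalForm

variable {I W Y Y' : Type*} [Fintype I] [DecidableEq I] [Group W] [Group Y] [Group Y'] {M : CoxeterMatrix I}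
  {cs : CoxeterSystem M W} {A : I → I → ℤ} {h : IsCartan M A} {p p' : ℕ} {T : Subgroup Y} {n : I → Y}
  {X : (I → ℤ) → Subgroup Y} {T' : Subgroup Y'} {n' : I → Y'} {X' : (I → ℤ) → Subgroup Y'}
  (R : RGD cs h p T n X) (R' : RGD cs h p' T' n' X') {L : Subgroup Y} (hL : GG cs h T X ≤ L) (φ : ↥L →* Y')
  (hT : ∀ t : ↥L, (t : Y) ∈ T → φ t ∈ T')
  (hn : ∀ i, ∀ m : ↥L, (m : Y) = n i → Rp cs R'.nsys (cs.simple i) (φ m))
  (hX : ∀ x, IsRoot cs h x → ∀ u : ↥L, (u : Y) ∈ X x → φ u ∈ X' x)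
  (hinj : ∀ x, IsRoot cs h x → ∀ u : ↥L, (u : Y) ∈ X x → φ u = 1 → u = 1)

include hL hT hn in
theorem rp_phi [Finite W] {w : W} {k : ↥L} (hk : Rp cs R.nsys w (k : Y)) : Rp cs R'.nsys w (φ k) := by
  obtain ⟨ω, rfl⟩ := cs.wordProd_surjective w
  induction ω generalizing k with
  | nil =>
    rw [wordProd_nil] at hk ⊢
    exact rp_of_mem (hT k hk.mem_of_one)
  | cons i ω ih =>
    rw [wordProd_cons] at hk ⊢
    have h1 : Rp cs R.nsys (cs.wordProd ω) ((n i)⁻¹ * k) := by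
      have := (rp_simple cs R.nsys i).inv.mul hk
      rwa [inv_mul_cancel_left] at this
    have hni : n i ∈ L := hL (by
      have := rp_mem_LJ R (J := Set.univ) (mem_univ' cs (cs.simple i)) (rp_simple cs R.nsys i)
      rwa [LJ_univ] at this)
    have h2 := ih (k := ⟨n i, hni⟩⁻¹ * k) h1
    have h3 := (hn i ⟨n i, hni⟩ rfl).mul h2
    rw [← map_mul] at h3
    rwa [mul_inv_cancel_left] at h3

include hX in
theorem sup_phi {S : Set (I → ℤ)} (hS : ∀ x ∈ S, IsRoot cs h x) (hSL : RGD.Sup X S ≤ L) {u : ↥L}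
    (hu : (u : Y) ∈ RGD.Sup X S) : φ u ∈ RGD.Sup X' S := by
  have h1 : RGD.Sup X S ≤ ((RGD.Sup X' S).comap φ).map L.subtype := by
    refine RGD.Sup_le fun x hx => ?_
    intro y hy
    have hyL : y ∈ L := hSL (RGD.le_Sup hx hy)
    exact ⟨⟨y, hyL⟩, RGD.le_Sup hx (hX x (hS x hx) ⟨y, hyL⟩ hy), rfl⟩
  obtain ⟨v, hv, e⟩ := h1 hu
  have : v = u := Subtype.ext e
  rwa [this] at hv

include R R' hL hT hn hX hinj in
theorem eq_one_of_U [Finite W] {u : ↥L} (hu : (u : Y) ∈ RGD.Sup X (RGD.Pos cs h)) (h1 : φ u = 1) : u = 1 := by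
  have hUL : RGD.Sup X (RGD.Pos cs h) ≤ L := (RGD.U_le_B.trans B_le_GG).trans hL
  have hVL : ∀ i, RGD.Sup X (RGD.PosNe cs h i) ≤ RGD.Sup X (RGD.Pos cs h) := fun i =>
    RGD.Sup_mono fun x hx => ⟨hx.1, hx.2.1⟩
  -- the kernel lies in all `V i`
  have key : ∀ i, ∀ v : ↥L, (v : Y) ∈ RGD.Sup X (RGD.Pos cs h) → φ v = 1 → (v : Y) ∈ RGD.Sup X (RGD.PosNe cs h i) := by
    intro i v hv hv1
    have h2 : (v : Y) ∈ ((X (sr i) ⊔ RGD.Sup X (RGD.PosNe cs h i) : Subgroup Y) : Set Y) := by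
      rw [← RGD.Upos_eq R i]; exact hv
    rw [Subgroup.coe_mul_of_left_le_normalizer_right _ _ (R.X_le_normalizer_V i), Set.mem_mul] at h2
    obtain ⟨a, ha, b, hb, e⟩ := h2
    have hi := isRoot_sr cs h i
    have haL : a ∈ L := hL (X_le_GG hi ha)
    have hbL : b ∈ L := hUL (hVL i hb)
    have e' : v = ⟨a, haL⟩ * ⟨b, hbL⟩ := Subtype.ext e.symm
    rw [e', map_mul] at hv1
    have h3 := hX _ hi ⟨a, haL⟩ ha
    have h4 : φ ⟨b, hbL⟩ ∈ RGD.Sup X' (RGD.PosNe cs h i) :=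
      sup_phi φ hX (fun x hx => hx.1) ((hVL i).trans hUL) (u := ⟨b, hbL⟩) hb
    have h5 : φ ⟨a, haL⟩ ∈ RGD.Sup X' (RGD.PosNe cs h i) := by
      rw [eq_inv_of_mul_eq_one_left hv1]; exact inv_mem h4
    have h6 := eq_one_of_mem_PosNe R' h3 h5
    have h7 := hinj _ hi _ ha h6
    have h8 : a = 1 := congrArg Subtype.val h7
    have h9 : (v : Y) = b := by rw [← e, h8, one_mul]
    rw [h9]; exact hb
  -- stability under the representatives
  have key2 : ∀ w : W, ∀ k : ↥L, Rp cs R.nsys w (k : Y) → ∀ v : ↥L, (v : Y) ∈ RGD.Sup X (RGD.Pos cs h) → φ v = 1 →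
      ((k * v * k⁻¹ : ↥L) : Y) ∈ RGD.Sup X (RGD.Pos cs h) := by
    intro w
    obtain ⟨ω, rfl⟩ := cs.wordProd_surjective w
    clear h1 hu
    induction ω with
    | nil =>
      intro k hk v hv _
      rw [wordProd_nil] at hk
      exact (Subgroup.mem_normalizer_iff.1 (R.T_le_normalizer_U hk.mem_of_one) v).1 hv
    | cons i ω ih =>
      intro k hk v hv hv1
      rw [wordProd_cons] at hk
      have h1 : Rp cs R.nsys (cs.wordProd ω) ((n i)⁻¹ * k) := by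
        have := (rp_simple cs R.nsys i).inv.mul hk
        rwa [inv_mul_cancel_left] at this
      have hni : n i ∈ L := hL (by
        have := rp_mem_LJ R (J := Set.univ) (mem_univ' cs (cs.simple i)) (rp_simple cs R.nsys i)
        rwa [LJ_univ] at this)
      obtain ⟨k', hk'⟩ : ∃ k' : ↥L, k' = (⟨n i, hni⟩ : ↥L)⁻¹ * k := ⟨_, rfl⟩
      have h2 := ih k' (by rw [hk']; exact h1) v hv hv1
      have h3 := key i _ h2 (by rw [map_mul, map_mul, hv1, mul_one, map_inv, mul_inv_cancel])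
      have h4 := R.cj_n_V i
      have h5 : n i * ((k' * v * k'⁻¹ : ↥L) : Y) * (n i)⁻¹ ∈ RGD.Sup X (RGD.PosNe cs h i) := by
        rw [← h4]; exact conj_mem_cj.2 h3
      have e : ((k * v * k⁻¹ : ↥L) : Y) = n i * ((k' * v * k'⁻¹ : ↥L) : Y) * (n i)⁻¹ := by
        rw [hk']
        simp only [Subgroup.coe_mul, Subgroup.coe_inv]
        group
      rw [e]
      exact hVL i h5
  obtain ⟨k, hk⟩ := exists_rp (cs := cs) (hN := R.nsys) (w0 cs)
  have hkL : k ∈ L := hL (by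
    have := rp_mem_LJ R (J := Set.univ) (mem_univ' cs (w0 cs)) hk
    rwa [LJ_univ] at this)
  have h2 := key2 (w0 cs) ⟨k, hkL⟩ hk u hu h1
  have h3 : ((⟨k, hkL⟩ * u * ⟨k, hkL⟩⁻¹ : ↥L) : Y) ∈ UN cs h X := by
    rw [← cj_U R hk]
    exact conj_mem_cj.2 hu
  have h4 : ((⟨k, hkL⟩ * u * ⟨k, hkL⟩⁻¹ : ↥L) : Y) ∈ (⊥ : Subgroup Y) := by
    rw [← U_inf_UN R]; exact ⟨h2, h3⟩
  have h5 : (⟨k, hkL⟩ * u * ⟨k, hkL⟩⁻¹ : ↥L) = 1 := Subtype.ext (Subgroup.mem_bot.1 h4)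
  rw [mul_inv_eq_one, mul_eq_left] at h5
  exact h5

include R R' hL hT hn hX hinj in
/-- **The kernel is contained in the torus.** -/
theorem ker_le [Finite W] {g : ↥L} (hg : (g : Y) ∈ GG cs h T X) (h1 : φ g = 1) : (g : Y) ∈ T := by
  have hUL : RGD.Sup X (RGD.Pos cs h) ≤ L := (RGD.U_le_B.trans B_le_GG).trans hL
  obtain ⟨w, hw⟩ := (mem_GG R).1 hg
  obtain ⟨u, hu, k, hk, v, hv, e⟩ := exists_normal_form R hw
  have hv' : v ∈ RGD.Sup X (RGD.Pos cs h) :=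
    RGD.Sup_mono (S := NW cs h w) (S' := RGD.Pos cs h) (fun x hx => ⟨hx.1, hx.2.1⟩) hv
  have hkL : k ∈ L := hL (by
    have := rp_mem_LJ R (J := Set.univ) (mem_univ' cs w) hk
    rwa [LJ_univ] at this)
  have e' : g = ⟨u, hUL hu⟩ * ⟨k, hkL⟩ * ⟨v, hUL hv'⟩ := Subtype.ext e
  have hφu : φ ⟨u, hUL hu⟩ ∈ RGD.Sup X' (RGD.Pos cs h) := sup_phi φ hX (fun x hx => hx.1) hUL (u := ⟨u, hUL hu⟩) hu
  have hφv : φ ⟨v, hUL hv'⟩ ∈ RGD.Sup X' (RGD.Pos cs h) := sup_phi φ hX (fun x hx => hx.1) hUL (u := ⟨v, hUL hv'⟩) hv'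
  have hφk := rp_phi R R' hL φ hT hn (k := ⟨k, hkL⟩) hk
  have hc : Cell R'.nsys cs h X' w (φ g) := by
    rw [e', map_mul, map_mul]
    exact ((cell_of_rp hφk).mul_left (RGD.U_le_B hφu)).mul_right (RGD.U_le_B hφv)
  have hc1 : Cell R'.nsys cs h X' 1 (φ g) := by
    rw [h1]; exact cell_one_of_mem (one_mem _)
  have hw1 := Cell.unique R' hc hc1
  subst hw1
  have hkT : k ∈ T := hk.mem_of_one
  -- `g = k * (k⁻¹ u k v)`
  obtain ⟨u', hu'⟩ : ∃ u' : ↥L, u' = (⟨k, hkL⟩ : ↥L)⁻¹ * ⟨u, hUL hu⟩ * ⟨k, hkL⟩ * ⟨v, hUL hv'⟩ := ⟨_, rfl⟩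
  have e2 : g = ⟨k, hkL⟩ * u' := by rw [e', hu']; group
  have hu'U : (u' : Y) ∈ RGD.Sup X (RGD.Pos cs h) := by
    rw [hu']
    refine mul_mem ?_ hv'
    have h2 := (Subgroup.mem_normalizer_iff.1 (R.T_le_normalizer_U (inv_mem hkT)) u).1 hu
    rw [inv_inv] at h2
    exact h2
  have hφT : φ ⟨k, hkL⟩ ∈ T' := hT _ hkT
  have hφu' : φ u' ∈ RGD.Sup X' (RGD.Pos cs h) := sup_phi φ hX (fun x hx => hx.1) hUL hu'U
  have h3 : φ u' = 1 := by
    have h4 : φ ⟨k, hkL⟩ * φ u' = 1 := by rw [← map_mul, ← e2, h1]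
    have h5 : φ u' ∈ T' := by rw [eq_inv_of_mul_eq_one_right h4]; exact inv_mem hφT
    have h6 : φ u' ∈ (⊥ : Subgroup Y') := by rw [← U_inf_T R']; exact ⟨hφu', h5⟩
    exact Subgroup.mem_bot.1 h6
  have h4 := eq_one_of_U R R' hL φ hT hn hX hinj hu'U h3
  rw [e2, h4, mul_one]
  exact hkT

end Cfsg.Agent.H230.X3

/-!
# The restriction of the Levi subgroup of type `D4` of `E8` to its Lie algebra (S2187 X3, helper230)
-/

set_option autoImplicit false
set_option linter.unusedSectionVars false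
set_option linter.unusedVariables false

namespace Cfsg.Agent.H230.X3

open CoxeterSystem Cfsg Cfsg.Lie Cfsg.Lie.ChevalleyDatum
open Cfsg.Agent.ChevalleyStructure Cfsg.Agent.ChevalleyStructure.Elts Cfsg.Agent.ChevalleyStructure.CoxeterGeom
  Cfsg.Agent.ChevalleyStructure.CoxeterGeomTypes Cfsg.Agent.ChevalleyStructure.NPerm
open Cfsg.Agent.Tits.Roots Cfsg.Agent.Tits.Core Cfsg.Agent.Nodes Cfsg.Agent.Nodes.Reps Cfsg.Agent.Nodes.BNOf
  Cfsg.Agent.Nodes.RGDChev Cfsg.Agent.Nodes.Bruhat Cfsg.Agent.Nodes.StabComb Cfsg.Agent.Nodes.SubComb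
  Cfsg.Agent.Nodes.Sub Cfsg.Agent.Nodes.LeviStd Cfsg.Agent.Nodes.ClsSub
open Cfsg.Agent.KFacts.RgdField Cfsg.Agent.KFacts.RgdChevCoord
open Cfsg.Agent.BpExc Cfsg.Agent.BpExc.Tow Cfsg.Agent.BpExc.TowChev Cfsg.Agent.GpExc.Field

universe u v

theorem hp8 : IsType chevE8 8 CoxeterMatrix.E₈ := by simp [IsType, typeList]
theorem hp4 : IsType chevD4 4 coxeterD4 := by simp [IsType, typeList]

/-- the embedding of the nodes -/
def fj : Fin 4 ↪ Fin 8 := ⟨nj, dE.inj₀⟩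

theorem fj_apply (j : Fin 4) : fj j = nj j := rfl

theorem A_eq : ∀ i j, cartanOf chevE8 8 (fj i) (fj j) = cartanOf chevD4 4 i j := by decide +kernel

theorem M_eq (i j : Fin 4) : CoxeterMatrix.E₈ (fj i) (fj j) = coxeterD4 i j := by
  by_cases hij : i = j
  · subst hij; rw [CoxeterMatrix.diagonal, CoxeterMatrix.diagonal]
  have h3 := hp8.isCartan.rel (fj i) (fj j) (fun h0 => hij (fj.injective h0))
  have h4 := hp4.isCartan.rel i j hij
  rw [A_eq i j, A_eq j i] at h3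
  omega

/-- the vectors -/
theorem vec_sigma (r : Fin chevD4.nroots) : vec chevE8 8 (dE.σ r).val = iota (fun j => sr (fj j)) (vec chevD4 4 r.val) := by
  have h : ∀ r < 24, ∀ i : Fin 8, vec chevE8 8 (sL.getD r 0) i =
      if i = 1 then vec chevD4 4 r 0 else if i = 3 then vec chevD4 4 r 1 else if i = 2 then vec chevD4 4 r 2
        else if i = 4 then vec chevD4 4 r 3 else 0 := by decide +kernel
  have h1 := h r.val r.2
  refine (eq_iota_levi fj (z := vec chevE8 8 (dE.σ r).val) ?_).trans ?_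
  · intro k hk
    have h2 := h1 k
    rw [if_neg, if_neg, if_neg, if_neg] at h2
    · exact h2
    · exact fun e => hk 3 e.symm
    · exact fun e => hk 2 e.symm
    · exact fun e => hk 1 e.symm
    · exact fun e => hk 0 e.symm
  · congr 1
    funext j
    have h2 := h1 (fj j)
    rw [show vec chevE8 8 (dE.σ r).val (fj j) = _ from h2]
    fin_cases j <;> rfl

section

variable {W : Type*} [Group W] (cs : CoxeterSystem CoxeterMatrix.E₈ W) {W' : Type*} [Group W']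
  (cs' : CoxeterSystem coxeterD4 W')

theorem isCartan4 : IsCartan coxeterD4 (cartanOf chevD4 4) := hp4.isCartan

/-- the roots of the Levi subsystem -/
theorem mem_RJ_iff {a : Fin 8 → ℤ} : a ∈ RootsJ cs hp8.isCartan (Set.range fj) ↔
    ∃ c, IsRoot cs' hp4.isCartan c ∧ a = iota (fun j => sr (fj j)) c := by
  have hW' : Finite W' := finite_W hp4 cs'
  have h1 : leviMatrix fj CoxeterMatrix.E₈ = coxeterD4 := leviMatrix_eq fj M_eq
  have hA : (fun i j => cartanOf chevE8 8 (fj i) (fj j)) = cartanOf chevD4 4 := by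
    funext i j
    exact A_eq i j
  have key : ∀ (M' : CoxeterMatrix (Fin 4)) (A' : Fin 4 → Fin 4 → ℤ) (h1 : leviMatrix fj CoxeterMatrix.E₈ = M')
      (hA : (fun i j => cartanOf chevE8 8 (fj i) (fj j)) = A') (cs' : CoxeterSystem M' W') (h' : IsCartan M' A'),
      a ∈ RootsJ cs hp8.isCartan (Set.range fj) ↔ ∃ c, IsRoot cs' h' c ∧ a = iota (fun j => sr (fj j)) c := by
    intro M' A' h1 hA cs' h'
    subst h1 hA
    have := finite_W hp8 cs
    have := Fintype.ofFinite W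
    have := Fintype.ofFinite W'
    exact mem_RootsJ_range_iff fj cs'
  exact key _ _ h1 hA cs' hp4.isCartan

theorem mem_RJ_iff' {a : Fin 8 → ℤ} : a ∈ RootsJ cs hp8.isCartan (Set.range fj) ↔
    ∃ r : Fin chevD4.nroots, a = vec chevE8 8 (dE.σ r).val := by
  rw [mem_RJ_iff cs coxeterD4.toCoxeterSystem]
  constructor
  · rintro ⟨c, hc, rfl⟩
    obtain ⟨r, hr, rfl⟩ := (isRoot_iff hp4 _ c).1 hc
    exact ⟨⟨r, hr⟩, (vec_sigma ⟨r, hr⟩).symm⟩
  · rintro ⟨r, rfl⟩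
    exact ⟨_, isRoot_vec hp4 _ r.2, vec_sigma r⟩

/-- the root group datum of the Levi subgroup, with the matrices of `D4` -/
theorem rgd_L {p : ℕ} {Y : Type*} [Group Y] {T : Subgroup Y} {n : Fin 8 → Y} {X : (Fin 8 → ℤ) → Subgroup Y}
    (R : RGD cs hp8.isCartan p T n X) :
    RGD cs' hp4.isCartan p T (fun j => n (fj j)) (fun c => X (iota (fun j => sr (fj j)) c)) := by
  have hW' : Finite W' := finite_W hp4 cs'
  have h1 : leviMatrix fj CoxeterMatrix.E₈ = coxeterD4 := leviMatrix_eq fj M_eq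
  have hA : (fun i j => cartanOf chevE8 8 (fj i) (fj j)) = cartanOf chevD4 4 := by
    funext i j
    exact A_eq i j
  have key : ∀ (M' : CoxeterMatrix (Fin 4)) (A' : Fin 4 → Fin 4 → ℤ) (h1 : leviMatrix fj CoxeterMatrix.E₈ = M')
      (hA : (fun i j => cartanOf chevE8 8 (fj i) (fj j)) = A') (cs' : CoxeterSystem M' W') (h' : IsCartan M' A'),
      RGD cs' h' p T (fun j => n (fj j)) (fun c => X (iota (fun j => sr (fj j)) c)) := by
    intro M' A' h1 hA cs' h'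
    subst h1 hA
    have := finite_W hp8 cs
    exact rgd_levi R fj cs'
  exact key _ _ h1 hA cs' hp4.isCartan

theorem GG_L {Y : Type*} [Group Y] (T : Subgroup Y) (X : (Fin 8 → ℤ) → Subgroup Y) :
    GG cs' hp4.isCartan T (fun c => X (iota (fun j => sr (fj j)) c)) =
      LJ cs hp8.isCartan T X (Set.range fj) := by
  have hW' : Finite W' := finite_W hp4 cs'
  have h1 : leviMatrix fj CoxeterMatrix.E₈ = coxeterD4 := leviMatrix_eq fj M_eq
  have hA : (fun i j => cartanOf chevE8 8 (fj i) (fj j)) = cartanOf chevD4 4 := by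
    funext i j
    exact A_eq i j
  have key : ∀ (M' : CoxeterMatrix (Fin 4)) (A' : Fin 4 → Fin 4 → ℤ) (h1 : leviMatrix fj CoxeterMatrix.E₈ = M')
      (hA : (fun i j => cartanOf chevE8 8 (fj i) (fj j)) = A') (cs' : CoxeterSystem M' W') (h' : IsCartan M' A'),
      GG cs' h' T (fun c => X (iota (fun j => sr (fj j)) c)) = LJ cs hp8.isCartan T X (Set.range fj) := by
    intro M' A' h1 hA cs' h'
    subst h1 hA
    have := finite_W hp8 cs
    have := Fintype.ofFinite W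
    have := Fintype.ofFinite W'
    exact GG_levi fj cs' T X
  exact key _ _ h1 hA cs' hp4.isCartan

end

/-! ### the restriction -/

section Res

variable (k : Type u) [Field k]

/-- the elements preserving the block -/
def PG : Subgroup ↥(chevE8.group k) where
  carrier := {g | dE.Pres ((g : GL chevE8.Idx k) : Matrix chevE8.Idx chevE8.Idx k) ∧
    dE.Pres (((g⁻¹ : ↥(chevE8.group k)) : GL chevE8.Idx k) : Matrix chevE8.Idx chevE8.Idx k)}
  one_mem' := ⟨TEmb.Pres.one dE, by rw [inv_one]; exact TEmb.Pres.one dE⟩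
  mul_mem' := by
    rintro a b ⟨ha, ha'⟩ ⟨hb, hb'⟩
    refine ⟨TEmb.Pres.mul dE ha hb, ?_⟩
    rw [mul_inv_rev]
    exact TEmb.Pres.mul dE hb' ha'
  inv_mem' := by
    rintro a ⟨ha, ha'⟩
    refine ⟨ha', ?_⟩
    rw [inv_inv]
    exact ha

variable {k}

theorem mem_PG {g : ↥(chevE8.group k)} : g ∈ PG k ↔
    dE.Pres ((g : GL chevE8.Idx k) : Matrix chevE8.Idx chevE8.Idx k) ∧
    dE.Pres (((g⁻¹ : ↥(chevE8.group k)) : GL chevE8.Idx k) : Matrix chevE8.Idx chevE8.Idx k) := Iff.rfl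

/-- the restriction -/
def piG : ↥(PG k) →* GL chevD4.Idx k where
  toFun g := ⟨dE.blk (((g : ↥(chevE8.group k)) : GL chevE8.Idx k) : Matrix chevE8.Idx chevE8.Idx k),
    dE.blk ((((g : ↥(chevE8.group k))⁻¹ : ↥(chevE8.group k)) : GL chevE8.Idx k) : Matrix chevE8.Idx chevE8.Idx k),
    by
      rw [← dE.blk_mul g.2.2, ← dE.blk_one]
      congr 1
      rw [← Units.val_mul, ← Subgroup.coe_mul, mul_inv_cancel]
      rfl,
    by
      rw [← dE.blk_mul g.2.1, ← dE.blk_one]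
      congr 1
      rw [← Units.val_mul, ← Subgroup.coe_mul, inv_mul_cancel]
      rfl⟩
  map_one' := Units.ext (dE.blk_one)
  map_mul' a b := Units.ext (dE.blk_mul b.2.1)

theorem coe_piG (g : ↥(PG k)) : ((piG g : GL chevD4.Idx k) : Matrix chevD4.Idx chevD4.Idx k) =
    dE.blk (((g : ↥(chevE8.group k)) : GL chevE8.Idx k) : Matrix chevE8.Idx chevE8.Idx k) := rfl

theorem coe_xc8 (r : Fin chevD4.nroots) (t : k) :
    (((xc hp8 (vec chevE8 8 (dE.σ r).val) t : ↥(chevE8.group k)) : GL chevE8.Idx k) :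
      Matrix chevE8.Idx chevE8.Idx k) = chevE8.xMat k (dE.σ r) t := by
  rw [coe_xc hp8 (dE.σ r).2, coe_xG]
  exact x_of_lt (dE.σ r).2 t

theorem xc8_mem (r : Fin chevD4.nroots) (t : k) : xc hp8 (vec chevE8 8 (dE.σ r).val) t ∈ PG k := by
  refine ⟨?_, ?_⟩
  · rw [coe_xc8]
    exact dE.pres_xMat r t
  · have h1 : (xc hp8 (vec chevE8 8 (dE.σ r).val) t : ↥(chevE8.group k))⁻¹ =
        xc hp8 (vec chevE8 8 (dE.σ r).val) (-t) := by
      apply Subtype.ext
      rw [Subgroup.coe_inv, coe_xc hp8 (dE.σ r).2, coe_xc hp8 (dE.σ r).2, xG_inv]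
    rw [h1, coe_xc8]
    exact dE.pres_xMat r (-t)

theorem piG_xc8 (r : Fin chevD4.nroots) (t : k) (h : xc hp8 (vec chevE8 8 (dE.σ r).val) t ∈ PG k) :
    piG ⟨xc hp8 (vec chevE8 8 (dE.σ r).val) t, h⟩ =
      ((xc hp4 (vec chevD4 4 r.val) (((dE.ε r : ℤ) : k) * t) : ↥(chevD4.group k)) : GL chevD4.Idx k) := by
  apply Units.ext
  rw [coe_piG, coe_xc hp4 r.2, coe_xG]
  show dE.blk (((xc hp8 (vec chevE8 8 (dE.σ r).val) t : ↥(chevE8.group k)) : GL chevE8.Idx k) :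
      Matrix chevE8.Idx chevE8.Idx k) = _
  rw [coe_xc8, dE.blk_xMat]
  exact (x_of_lt r.2 _).symm

/-- the matrices of torus elements -/
theorem coe_TT {D : ChevalleyDatum} {l : ℕ} {M : CoxeterMatrix (Fin l)} (hp : IsType D l M) {t : ↥(D.group k)}
    (ht : t ∈ TT D k) : ((t : GL D.Idx k) : Matrix D.Idx D.Idx k) =
      Matrix.diagonal (Sum.elim (fun _ => (1 : k)) fun s : Fin D.nroots => ch hp (vec D l s.val) t) := by
  rw [Subgroup.mem_subgroupOf] at ht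
  obtain ⟨c, hc, e, hact⟩ := H129.Tor.exists_c hp ht
  rw [e]
  congr 1
  funext i
  rcases i with i | s
  · rfl
  · show ∏ i ∈ Finset.range D.rank, c i ^ D.cartan i s = ch hp (vec D l s.val) t
    symm
    apply ch_eq hp s.2 ht
    apply Subtype.ext
    rw [Subgroup.coe_mul, Subgroup.coe_mul, Subgroup.coe_inv, coe_xc hp s.2, coe_xc hp s.2, hact s.val s.2 1, mul_one]

theorem TT_le_PG : TT chevE8 k ≤ PG k := by
  intro t ht
  refine ⟨?_, ?_⟩
  · rw [coe_TT hp8 ht]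
    exact dE.pres_diagonal _
  · rw [coe_TT hp8 (inv_mem ht)]
    exact dE.pres_diagonal _

/-- the restriction of a torus element -/
theorem exists_TT4 [IsAlgClosed k] {t : ↥(chevE8.group k)} (ht : t ∈ TT chevE8 k) (h : t ∈ PG k) :
    ∃ t' ∈ TT chevD4 k, ((t' : ↥(chevD4.group k)) : GL chevD4.Idx k) = piG ⟨t, h⟩ ∧
      ∀ r : Fin chevD4.nroots, ch hp4 (vec chevD4 4 r.val) t' = ch hp8 (vec chevE8 8 (dE.σ r).val) t := by
  have hmc : H129.TorusChar.IsMC fun x : Fin 4 → ℤ => H129.TorusChar.cX hp8 t (iota (fun j => sr (fj j)) x) := by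
    have h1 := H129.TorusChar.isMC_cX hp8 ht
    refine ⟨?_, fun x y => ?_⟩
    · show H129.TorusChar.cX hp8 t (iota (fun j => sr (fj j)) 0) = 1
      rw [map_zero]
      exact h1.1
    · show H129.TorusChar.cX hp8 t (iota (fun j => sr (fj j)) (x + y)) = _
      rw [map_add]
      exact h1.2 _ _
  obtain ⟨t', ht', hc⟩ := H129.TorusChar.exists_cX hp4 (k := k) H129.TorusChar.invC_D4 (by norm_num)
    hmc (fun i => IsAlgClosed.exists_pow_nat_eq _ (by norm_num))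
  have hch : ∀ r : Fin chevD4.nroots, ch hp4 (vec chevD4 4 r.val) t' = ch hp8 (vec chevE8 8 (dE.σ r).val) t := by
    intro r
    rw [← H129.TorusChar.cX_vec hp4 ht' r.2, hc, ← H129.TorusChar.cX_vec hp8 ht (dE.σ r).2, vec_sigma]
  refine ⟨t', ht', ?_, hch⟩
  apply Units.ext
  rw [coe_piG, coe_TT hp4 ht']
  show _ = dE.blk ((t : GL chevE8.Idx k) : Matrix chevE8.Idx chevE8.Idx k)
  rw [coe_TT hp8 ht, dE.blk_diagonal]
  congr 1
  funext i
  rcases i with i | r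
  · rfl
  · exact hch r

end Res

end Cfsg.Agent.H230.X3

/-!
# The restriction homomorphism of the Levi subgroup of type `D4` of `E8` (S2187 X3, helper230)

* `LL k` : the Levi subgroup; `piL : LL k →* chevD4.group k`;
* `piL_xc`, `piL_TT`; `ker_piL` : the kernel is contained in the torus; `ker_comm` : it is central.
-/

set_option autoImplicit false
set_option linter.unusedSectionVars false
set_option linter.unusedVariables false

namespace Cfsg.Agent.H230.X3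

open CoxeterSystem Cfsg Cfsg.Lie Cfsg.Lie.ChevalleyDatum
open Cfsg.Agent.ChevalleyStructure Cfsg.Agent.ChevalleyStructure.Elts Cfsg.Agent.ChevalleyStructure.CoxeterGeom
  Cfsg.Agent.ChevalleyStructure.CoxeterGeomTypes Cfsg.Agent.ChevalleyStructure.NPerm
open Cfsg.Agent.Tits.Roots Cfsg.Agent.Tits.Core Cfsg.Agent.Nodes Cfsg.Agent.Nodes.Reps Cfsg.Agent.Nodes.BNOf
  Cfsg.Agent.Nodes.RGDChev Cfsg.Agent.Nodes.Bruhat Cfsg.Agent.Nodes.StabComb Cfsg.Agent.Nodes.SubComb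
  Cfsg.Agent.Nodes.Sub Cfsg.Agent.Nodes.LeviStd Cfsg.Agent.Nodes.ClsSub
open Cfsg.Agent.KFacts.RgdField Cfsg.Agent.KFacts.RgdChevCoord
open Cfsg.Agent.BpExc Cfsg.Agent.BpExc.Tow Cfsg.Agent.BpExc.TowChev Cfsg.Agent.GpExc.Field

universe u v

noncomputable abbrev cs8 : CoxeterSystem CoxeterMatrix.E₈ CoxeterMatrix.E₈.Group := CoxeterMatrix.E₈.toCoxeterSystem
noncomputable abbrev cs4 : CoxeterSystem coxeterD4 coxeterD4.Group := coxeterD4.toCoxeterSystem

/-- the roots of the Levi subsystem -/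
def DL : Set (Fin 8 → ℤ) := RootsJ cs8 hp8.isCartan (Set.range fj)

theorem mem_DL {a : Fin 8 → ℤ} : a ∈ DL ↔ ∃ r : Fin chevD4.nroots, a = vec chevE8 8 (dE.σ r).val :=
  mem_RJ_iff' cs8

theorem DL_root {a : Fin 8 → ℤ} (ha : a ∈ DL) : IsRoot cs8 hp8.isCartan a := ha.1

section

variable (k : Type u) [Field k]

/-- the Levi subgroup -/
noncomputable def LL : Subgroup ↥(chevE8.group k) :=
  LJ cs8 hp8.isCartan (TT chevE8 k) (XX chevE8 8 k) (Set.range fj)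

variable {k}

theorem TT_le_LL : TT chevE8 k ≤ LL k := T_le_LJ

theorem Sup_le_LL : RGD.Sup (XX chevE8 8 k) DL ≤ LL k := le_sup_right

theorem mem_XX8 {a : Fin 8 → ℤ} (ha : IsRoot cs8 hp8.isCartan a) {y : ↥(chevE8.group k)} :
    y ∈ XX chevE8 8 k a ↔ ∃ t, y = xc hp8 a t := by
  obtain ⟨r, hr, rfl⟩ := (isRoot_iff hp8 cs8 a).1 ha
  rw [Subgroup.mem_subgroupOf, XV_vec hp8 k hr, mem_rootSubgroup_iff hp8.inList]
  constructor
  · rintro ⟨t, ht⟩
    exact ⟨t, Subtype.ext (by rw [coe_xc hp8 hr, ht])⟩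
  · rintro ⟨t, rfl⟩
    exact ⟨t, coe_xc hp8 hr t⟩

theorem mem_XX4 {a : Fin 4 → ℤ} (ha : IsRoot cs4 hp4.isCartan a) {y : ↥(chevD4.group k)} :
    y ∈ XX chevD4 4 k a ↔ ∃ t, y = xc hp4 a t := by
  obtain ⟨r, hr, rfl⟩ := (isRoot_iff hp4 cs4 a).1 ha
  rw [Subgroup.mem_subgroupOf, XV_vec hp4 k hr, mem_rootSubgroup_iff hp4.inList]
  constructor
  · rintro ⟨t, ht⟩
    exact ⟨t, Subtype.ext (by rw [coe_xc hp4 hr, ht])⟩
  · rintro ⟨t, rfl⟩
    exact ⟨t, coe_xc hp4 hr t⟩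

theorem LL_le_PG : LL k ≤ PG k := by
  refine sup_le TT_le_PG (RGD.Sup_le fun a ha => ?_)
  intro y hy
  obtain ⟨r, rfl⟩ := mem_DL.1 ha
  obtain ⟨t, rfl⟩ := (mem_XX8 (isRoot_vec hp8 cs8 (dE.σ r).2)).1 hy
  exact xc8_mem r t

theorem piG_mem [IsAlgClosed k] {g : ↥(chevE8.group k)} (hg : g ∈ LL k) :
    piG ⟨g, LL_le_PG hg⟩ ∈ chevD4.group k := by
  have key : LL k ≤ ((chevD4.group k).comap (piG (k := k))).map (PG k).subtype := by
    refine sup_le ?_ (RGD.Sup_le fun a ha => ?_)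
    · intro t ht
      obtain ⟨t', ht', e, -⟩ := exists_TT4 ht (TT_le_PG ht)
      refine ⟨⟨t, TT_le_PG ht⟩, ?_, rfl⟩
      show piG ⟨t, TT_le_PG ht⟩ ∈ chevD4.group k
      rw [← e]
      exact t'.2
    · intro y hy
      obtain ⟨r, rfl⟩ := mem_DL.1 ha
      obtain ⟨t, rfl⟩ := (mem_XX8 (isRoot_vec hp8 cs8 (dE.σ r).2)).1 hy
      refine ⟨⟨_, xc8_mem r t⟩, ?_, rfl⟩
      show piG ⟨_, xc8_mem r t⟩ ∈ chevD4.group k
      rw [piG_xc8]
      exact SetLike.coe_mem _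
  obtain ⟨⟨y, hy⟩, h1, e⟩ := key hg
  have e' : y = g := e
  subst e'
  exact h1

/-- **The restriction homomorphism.** -/
noncomputable def piL [IsAlgClosed k] : ↥(LL k) →* ↥(chevD4.group k) :=
  ((piG (k := k)).comp (Subgroup.inclusion LL_le_PG)).codRestrict (chevD4.group k) (fun g => piG_mem g.2)

variable [IsAlgClosed k]

theorem coe_piL (g : ↥(LL k)) : ((piL g : ↥(chevD4.group k)) : GL chevD4.Idx k) = piG ⟨g, LL_le_PG g.2⟩ := rfl

theorem piL_xc (r : Fin chevD4.nroots) (t : k) (h : xc hp8 (vec chevE8 8 (dE.σ r).val) t ∈ LL k) :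
    piL ⟨xc hp8 (vec chevE8 8 (dE.σ r).val) t, h⟩ = xc hp4 (vec chevD4 4 r.val) (((dE.ε r : ℤ) : k) * t) :=
  Subtype.ext (piG_xc8 r t _)

theorem piL_TT {t : ↥(LL k)} (ht : (t : ↥(chevE8.group k)) ∈ TT chevE8 k) : piL t ∈ TT chevD4 k ∧
    ∀ r : Fin chevD4.nroots, ch hp4 (vec chevD4 4 r.val) (piL t) =
      ch hp8 (vec chevE8 8 (dE.σ r).val) (t : ↥(chevE8.group k)) := by
  obtain ⟨t', ht', e, hc⟩ := exists_TT4 ht (LL_le_PG t.2)
  have e' : t' = piL t := Subtype.ext e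
  rw [← e']
  exact ⟨ht', hc⟩

theorem eps_simple (i : Fin 4) : ∃ r : Fin chevD4.nroots, r.val = chevD4.simple i ∧
    (dE.σ r).val = chevE8.simple (fj i) ∧ dE.ε r = 1 ∧
    ∃ r' : Fin chevD4.nroots, r'.val = chevD4.neg (chevD4.simple i) ∧
      (dE.σ r').val = chevE8.neg (chevE8.simple (fj i)) ∧ dE.ε r' = 1 := by
  fin_cases i
  · exact ⟨⟨18, by decide⟩, by decide +kernel, by decide +kernel, by decide +kernel, ⟨5, by decide⟩,
      by decide +kernel, by decide +kernel, by decide +kernel⟩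
  · exact ⟨⟨14, by decide⟩, by decide +kernel, by decide +kernel, by decide +kernel, ⟨9, by decide⟩,
      by decide +kernel, by decide +kernel, by decide +kernel⟩
  · exact ⟨⟨13, by decide⟩, by decide +kernel, by decide +kernel, by decide +kernel, ⟨10, by decide⟩,
      by decide +kernel, by decide +kernel, by decide +kernel⟩
  · exact ⟨⟨12, by decide⟩, by decide +kernel, by decide +kernel, by decide +kernel, ⟨11, by decide⟩,
      by decide +kernel, by decide +kernel, by decide +kernel⟩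

theorem nc_eq {D : ChevalleyDatum} {l : ℕ} {M : CoxeterMatrix (Fin l)} (hp : IsType D l M) (i : Fin l) :
    nc hp k i = xc hp (vec D l (D.simple i)) 1 * xc hp (vec D l (D.neg (D.simple i))) (-1) *
      xc hp (vec D l (D.simple i)) 1 := by
  have h1 := simple_lt hp.inList (lt_rank hp i)
  have h2 := neg_lt hp.inList h1
  apply Subtype.ext
  rw [Subgroup.coe_mul, Subgroup.coe_mul, coe_xc hp h1, coe_xc hp h2]
  show nG hp.inList (D.simple i) 1 = _
  apply Units.ext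
  rw [coe_nG, ChevalleyDatum.nMat, ChevalleyDatum.nWord, wordMat_cons, wordMat_cons, wordMat_cons, wordMat_nil,
    mul_one, Units.val_mul, Units.val_mul, coe_xG, coe_xG, inv_one, mul_assoc]

theorem xc_mem_LL (r : Fin chevD4.nroots) (t : k) : xc hp8 (vec chevE8 8 (dE.σ r).val) t ∈ LL k :=
  Sup_le_LL (RGD.le_Sup (X := XX chevE8 8 k) (mem_DL.2 ⟨r, rfl⟩)
    ((mem_XX8 (isRoot_vec hp8 cs8 (dE.σ r).2)).2 ⟨t, rfl⟩))

theorem piL_nc (i : Fin 4) {m : ↥(LL k)} (hm : (m : ↥(chevE8.group k)) = nc hp8 k (fj i)) : piL m = nc hp4 k i := by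
  obtain ⟨r, hr, hσ, hε, r', hr', hσ', hε'⟩ := eps_simple i
  have e1 : m = ⟨xc hp8 (vec chevE8 8 (dE.σ r).val) 1, xc_mem_LL r 1⟩ *
      ⟨xc hp8 (vec chevE8 8 (dE.σ r').val) (-1), xc_mem_LL r' (-1)⟩ *
      ⟨xc hp8 (vec chevE8 8 (dE.σ r).val) 1, xc_mem_LL r 1⟩ := by
    apply Subtype.ext
    rw [hm, nc_eq hp8, ← hσ', ← hσ]
    rfl
  rw [e1, map_mul, map_mul, piL_xc, piL_xc, nc_eq hp4, hε, hε', Int.cast_one, one_mul, one_mul, hr, hr']

end

end Cfsg.Agent.H230.X3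

/-!
# The kernel of the restriction homomorphism (S2187 X3, helper230)
-/

set_option autoImplicit false
set_option linter.unusedSectionVars false
set_option linter.unusedVariables false

namespace Cfsg.Agent.H230.X3

open CoxeterSystem Cfsg Cfsg.Lie Cfsg.Lie.ChevalleyDatum
open Cfsg.Agent.ChevalleyStructure Cfsg.Agent.ChevalleyStructure.Elts Cfsg.Agent.ChevalleyStructure.CoxeterGeom
  Cfsg.Agent.ChevalleyStructure.CoxeterGeomTypes Cfsg.Agent.ChevalleyStructure.NPerm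
open Cfsg.Agent.Tits.Roots Cfsg.Agent.Tits.Core Cfsg.Agent.Nodes Cfsg.Agent.Nodes.Reps Cfsg.Agent.Nodes.BNOf
  Cfsg.Agent.Nodes.RGDChev Cfsg.Agent.Nodes.Bruhat Cfsg.Agent.Nodes.StabComb Cfsg.Agent.Nodes.SubComb
  Cfsg.Agent.Nodes.Sub Cfsg.Agent.Nodes.LeviStd Cfsg.Agent.Nodes.ClsSub
open Cfsg.Agent.KFacts.RgdField Cfsg.Agent.KFacts.RgdChevCoord
open Cfsg.Agent.BpExc Cfsg.Agent.BpExc.Tow Cfsg.Agent.BpExc.TowChev Cfsg.Agent.GpExc.Field

universe u v

section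

variable {k : Type u} [Field k] [IsAlgClosed k] (hk : LocFin k) (r : ℕ) [Fact r.Prime] [CharP k r]

include hk in
/-- the tower of the Levi subgroup -/
theorem towL : Tow cs4 hp4.isCartan r (Tj hp8 (k := k)) (fun j => nc hp8 k (fj j))
    (fun E c => Xj hp8 E (iota (fun j => sr (fj j)) c)) where
  ne := nonempty_lev hk
  dir := dir_lev hk
  rgd E := rgd_L cs8 cs4 ((tow hp8 cs8 hk r).rgd E)
  monoT := monoTj hp8
  monoX c := monoXj hp8 _

include hk in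
theorem GG_towL : GG cs4 hp4.isCartan (TL (Tj hp8 (k := k)))
    (XL (fun E c => Xj hp8 E (iota (fun j => sr (fj j)) c))) = LL k := by
  have h1 : XL (fun (E : Lev k) c => Xj hp8 E (iota (fun j => sr (fj j)) c)) =
      fun c => XX chevE8 8 k (iota (fun j => sr (fj j)) c) := by
    funext c
    rw [← XL_eq hp8 hk]
    rfl
  rw [h1, TL_eq hp8 hk]
  exact GG_L cs8 cs4 (TT chevE8 k) (XX chevE8 8 k)

theorem mem_Xj8 {E : Lev k} (s : Fin chevD4.nroots) {y : ↥(chevE8.group k)}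
    (hy : y ∈ Xj hp8 E (iota (fun j => sr (fj j)) (vec chevD4 4 s.val))) :
    ∃ t ∈ E.1, y = xc hp8 (vec chevE8 8 (dE.σ s).val) t := by
  rw [← vec_sigma] at hy
  obtain ⟨y, hy, rfl⟩ := hy
  obtain ⟨t, rfl⟩ := (mem_XX8 (isRoot_vec hp8 cs8 (dE.σ s).2)).1 hy
  exact ⟨t.1, t.2, by rw [emb_xc]; rfl⟩

theorem ch_self_one {D : ChevalleyDatum} {l : ℕ} {M : CoxeterMatrix (Fin l)} (hp : IsType D l M) {s : ℕ}
    (hs : s < D.nroots) : ch hp (vec D l s) (1 : ↥(D.group k)) = 1 :=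
  ch_eq hp hs (one_mem _) (by rw [one_mul, inv_one, mul_one])

theorem xc_z {D : ChevalleyDatum} {l : ℕ} {M : CoxeterMatrix (Fin l)} (hp : IsType D l M) {s : ℕ}
    (hs : s < D.nroots) : xc hp (vec D l s) (0 : k) = 1 := by
  apply Subtype.ext
  rw [coe_xc hp hs, xG_zero]
  rfl

include hk r in
/-- **The kernel of the restriction homomorphism is contained in the torus.** -/
theorem ker_piL_T {g : ↥(LL k)} (h1 : piL g = 1) : (g : ↥(chevE8.group k)) ∈ TT chevE8 k := by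
  have hL := towL hk r
  have hg : (g : ↥(chevE8.group k)) ∈ GG cs4 hp4.isCartan (TL (Tj hp8 (k := k)))
      (XL (fun E c => Xj hp8 E (iota (fun j => sr (fj j)) c))) := by
    rw [GG_towL hk]; exact g.2
  obtain ⟨E, hE⟩ := hL.mem_GG.1 hg
  have H4 := tow hp4 cs4 hk r
  have hfin : Finite ↥(Tj hp8 E) := by
    have h2 := finite_GG hp8 cs8 E
    have h3 : Tj hp8 E ≤ GG cs8 hp8.isCartan (Tj hp8 E) (Xj hp8 E) := le_sup_left
    exact Finite.of_injective (Subgroup.inclusion h3) (Subgroup.inclusion_injective _)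
  have hTL : Tj hp8 E ≤ LL k := by
    rw [← GG_towL hk]
    exact (le_TL E).trans le_sup_left
  obtain ⟨E₁, h2⟩ := H4.exists_level (ι := ↥(Tj hp8 E)) (S := fun E' => (Tj hp4 E' : Set ↥(chevD4.group k)))
    (f := fun t => piL ⟨t.1, hTL t.2⟩) (fun a b hab => monoTj hp4 hab) (fun t => by
      have h3 : t.1 ∈ TT chevE8 k := by
        rw [← TL_eq hp8 hk]; exact le_TL E t.2
      have h4 := (piL_TT (t := ⟨t.1, hTL t.2⟩) h3).1
      rw [← TL_eq hp4 hk] at h4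
      exact H4.mem_TL.1 h4)
  have h2' : ∀ (t : ↥(LL k)), (t : ↥(chevE8.group k)) ∈ Tj hp8 E → piL t ∈ Tj hp4 E₁ := by
    rintro ⟨t, ht'⟩ ht
    exact h2 ⟨t, ht⟩
  obtain ⟨E', hE1, hE'⟩ := dir_lev hk E₁ E
  have R := hL.rgd E
  have R' := H4.rgd E'
  have hWf : Finite coxeterD4.Group := finite_W hp4 cs4
  have hx : ∀ (x : Fin 4 → ℤ), IsRoot cs4 hp4.isCartan x → ∀ u : ↥(LL k), (u : ↥(chevE8.group k)) ∈
      Xj hp8 E (iota (fun j => sr (fj j)) x) → ∃ s : Fin chevD4.nroots, x = vec chevD4 4 s.val ∧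
        ∃ t : ↥E'.1, (u : ↥(chevE8.group k)) = xc hp8 (vec chevE8 8 (dE.σ s).val) (t : k) ∧
        piL u = emb hp4.inList E'.1.subtype (xc hp4 (vec chevD4 4 s.val) (((dE.ε s : ℤ) : ↥E'.1) * t)) := by
    intro x hx u hu
    obtain ⟨s, hs, rfl⟩ := (isRoot_iff hp4 cs4 x).1 hx
    obtain ⟨t, ht, e⟩ := mem_Xj8 ⟨s, hs⟩ hu
    have e' : u = ⟨xc hp8 (vec chevE8 8 (dE.σ ⟨s, hs⟩).val) t, xc_mem_LL ⟨s, hs⟩ t⟩ := Subtype.ext e
    refine ⟨⟨s, hs⟩, rfl, ⟨t, hE' ht⟩, e, ?_⟩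
    rw [e', piL_xc, emb_xc, map_mul, map_intCast]
    rfl
  have q1 : GG cs4 hp4.isCartan (Tj hp8 E) (fun c => Xj hp8 E (iota (fun j => sr (fj j)) c)) ≤ LL k := by
    rw [← GG_towL hk]
    exact sup_le_sup (le_TL E) (Sup_le_SupL (X := fun (E : Lev k) c => Xj hp8 E (iota (fun j => sr (fj j)) c)) E _)
  have q2 : ∀ t : ↥(LL k), (t : ↥(chevE8.group k)) ∈ Tj hp8 E → piL t ∈ Tj hp4 E' := fun t ht =>
    monoTj hp4 hE1 (h2' t ht)
  have q3 : ∀ i, ∀ m : ↥(LL k), (m : ↥(chevE8.group k)) = nc hp8 k (fj i) →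
      Rp cs4 R'.nsys (cs4.simple i) (piL m) := by
    intro i m hm
    rw [piL_nc i hm]
    exact rp_simple cs4 R'.nsys i
  have q4 : ∀ x, IsRoot cs4 hp4.isCartan x → ∀ u : ↥(LL k), (u : ↥(chevE8.group k)) ∈
      Xj hp8 E (iota (fun j => sr (fj j)) x) → piL u ∈ Xj hp4 E' x := by
    intro x hx' u hu
    obtain ⟨s, rfl, t, -, e⟩ := hx x hx' u hu
    rw [e]
    exact ⟨_, (mem_XX4 hx').2 ⟨_, rfl⟩, rfl⟩
  have q5 : ∀ x, IsRoot cs4 hp4.isCartan x → ∀ u : ↥(LL k), (u : ↥(chevE8.group k)) ∈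
      Xj hp8 E (iota (fun j => sr (fj j)) x) → piL u = 1 → u = 1 := by
    intro x hx' u hu hu1
    obtain ⟨s, rfl, t, e1, e⟩ := hx x hx' u hu
    rw [e, emb_xc] at hu1
    have h3 := xc_inj hp4 s.2 (hu1.trans (xc_z hp4 s.2).symm)
    have h4 : t = 0 := by
      have h5 : ((dE.ε s : ℤ) : ↥E'.1) * t = 0 := Subtype.ext h3
      have h6 := dE.ε_sq' (F := ↥E'.1) s
      rw [← one_mul t, ← h6, mul_assoc, h5, mul_zero]
    apply Subtype.ext
    rw [e1, h4]
    exact xc_z hp8 (dE.σ s).2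
  have h9 := ker_le (L := LL k) R R' q1 piL q2 q3 q4 q5 hE h1
  rw [← TL_eq hp8 hk]
  exact le_TL E h9

include hk r in
/-- **The kernel of the restriction homomorphism.** -/
theorem ker_piL {g : ↥(LL k)} : piL g = 1 ↔ (g : ↥(chevE8.group k)) ∈ TT chevE8 k ∧
    ∀ s : Fin chevD4.nroots, ch hp8 (vec chevE8 8 (dE.σ s).val) (g : ↥(chevE8.group k)) = 1 := by
  constructor
  · intro h1
    have h2 := ker_piL_T hk r h1
    refine ⟨h2, fun s => ?_⟩
    rw [← (piL_TT h2).2 s, h1]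
    exact ch_self_one hp4 s.2
  · rintro ⟨h2, h3⟩
    have h4 := piL_TT h2
    have h5 := coe_TT hp4 h4.1
    apply Subtype.ext
    apply Units.ext
    rw [h5]
    refine (congrArg Matrix.diagonal ?_).trans Matrix.diagonal_one
    funext i
    rcases i with i | s
    · rfl
    · show ch hp4 (vec chevD4 4 s.val) (piL g) = 1
      rw [h4.2 s, h3 s]

theorem TT_comm {a b : ↥(chevE8.group k)} (ha : a ∈ TT chevE8 k) (hb : b ∈ TT chevE8 k) : a * b = b * a := by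
  have h1 := coe_TT hp8 ha
  have h2 := coe_TT hp8 hb
  apply Subtype.ext
  apply Units.ext
  rw [Subgroup.coe_mul, Subgroup.coe_mul, Units.val_mul, Units.val_mul, h1, h2, Matrix.diagonal_mul_diagonal,
    Matrix.diagonal_mul_diagonal]
  congr 1
  funext i
  exact mul_comm _ _

include hk r in
/-- **The kernel is central.** -/
theorem ker_comm {g : ↥(LL k)} (h1 : piL g = 1) (x : ↥(LL k)) : g * x = x * g := by
  obtain ⟨h2, h3⟩ := (ker_piL hk r).1 h1
  have key : LL k ≤ Subgroup.centralizer {(g : ↥(chevE8.group k))} := by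
    refine sup_le ?_ (RGD.Sup_le fun a ha => ?_)
    · intro t ht
      rw [Subgroup.mem_centralizer_singleton_iff]
      exact TT_comm ht h2
    · intro y hy
      obtain ⟨s, rfl⟩ := mem_DL.1 ha
      obtain ⟨t, rfl⟩ := (mem_XX8 (isRoot_vec hp8 cs8 (dE.σ s).2)).1 hy
      rw [Subgroup.mem_centralizer_singleton_iff]
      have h4 := (act hp8 (dE.σ s).2 h2).2 t
      rw [h3 s, one_mul, mul_inv_eq_iff_eq_mul] at h4
      exact h4.symm
  have h5 := Subgroup.mem_centralizer_singleton_iff.1 (key x.2)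
  exact Subtype.ext h5.symm

end

end Cfsg.Agent.H230.X3

/-!
# Generation in the Levi subgroup of type `D4` (S2187 X3, helper230)
-/

set_option autoImplicit false
set_option linter.unusedSectionVars false
set_option linter.unusedVariables false

namespace Cfsg.Agent.H230.X3

open CoxeterSystem Cfsg Cfsg.Lie Cfsg.Lie.ChevalleyDatum
open Cfsg.Agent.ChevalleyStructure Cfsg.Agent.ChevalleyStructure.Elts Cfsg.Agent.ChevalleyStructure.CoxeterGeom
  Cfsg.Agent.ChevalleyStructure.CoxeterGeomTypes Cfsg.Agent.ChevalleyStructure.NPerm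
open Cfsg.Agent.Tits.Roots Cfsg.Agent.Tits.Core Cfsg.Agent.Nodes Cfsg.Agent.Nodes.Reps Cfsg.Agent.Nodes.BNOf
  Cfsg.Agent.Nodes.RGDChev Cfsg.Agent.Nodes.Bruhat Cfsg.Agent.Nodes.StabComb Cfsg.Agent.Nodes.SubComb
  Cfsg.Agent.Nodes.Sub Cfsg.Agent.Nodes.LeviStd Cfsg.Agent.Nodes.ClsSub
open Cfsg.Agent.KFacts.RgdField Cfsg.Agent.KFacts.RgdChevCoord
open Cfsg.Agent.BpExc Cfsg.Agent.BpExc.Tow Cfsg.Agent.BpExc.TowChev Cfsg.Agent.GpExc.Field

universe u v

/-! ### torus elements -/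

section Tor

variable {D : ChevalleyDatum} {l : ℕ} {M : CoxeterMatrix (Fin l)} (hp : IsType D l M) {k : Type u} [Field k]
  [IsAlgClosed k]

theorem eq_one_of_ch {t : ↥(D.group k)} (ht : t ∈ TT D k) (h : ∀ s < D.nroots, ch hp (vec D l s) t = 1) : t = 1 := by
  apply Subtype.ext
  apply Units.ext
  rw [coe_TT hp ht]
  refine (congrArg Matrix.diagonal ?_).trans Matrix.diagonal_one
  funext i
  rcases i with i | s
  · rfl
  · exact h s.val s.2

/-- rational torus elements -/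
theorem pow_of_range (hk : LocFin k) (r : ℕ) [Fact r.Prime] [CharP k r] {F : Type u} [Field F] [Fintype F] (f : F →+* k)
    {z : ↥(D.group k)} (hz : z ∈ TT D k) (hz' : z ∈ (emb hp.inList f).range) : z ^ (Fintype.card F - 1) = 1 := by
  refine eq_one_of_ch hp (pow_mem hz _) fun s hs => ?_
  rw [H696.GmnToral.ch_pow hp M.toCoxeterSystem hk r (isRoot_vec hp _ hs) hz]
  obtain ⟨z', e⟩ := hz'
  have h1 : ch hp (vec D l s) z = f (((z' : GL D.Idx F) : Matrix D.Idx D.Idx F) (Sum.inr ⟨s, hs⟩) (Sum.inr ⟨s, hs⟩)) := by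
    have h2 := congrFun (congrFun (coe_TT hp hz) (Sum.inr ⟨s, hs⟩)) (Sum.inr ⟨s, hs⟩)
    rw [Matrix.diagonal_apply_eq] at h2
    rw [show ch hp (vec D l s) z = Sum.elim (fun _ => (1 : k)) (fun s : Fin D.nroots => ch hp (vec D l s.val) z)
      (Sum.inr ⟨s, hs⟩) from rfl, ← h2, ← e, coe_emb, coe_glMap]
    rfl
  have h3 := (act hp hs hz).1
  have h4 : ch hp (vec D l s) z ^ Fintype.card F = ch hp (vec D l s) z := by
    rw [h1, ← map_pow, FiniteField.pow_card]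
  have h5 : 0 < Fintype.card F := Fintype.card_pos
  have h6 : ch hp (vec D l s) z ^ (Fintype.card F - 1) * ch hp (vec D l s) z = 1 * ch hp (vec D l s) z := by
    rw [← pow_succ, Nat.sub_add_cancel h5, h4, one_mul]
  exact mul_right_cancel₀ h3 h6

include hp in
theorem fin_order (hk : LocFin k) (y : ↥(D.group k)) : IsOfFinOrder y := by
  obtain ⟨E, hE⟩ := exists_level hp hk y
  obtain ⟨y', rfl⟩ := hE E le_rfl
  have : Finite ↥(D.group ↥E.1) := finite_group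
  exact (emb hp.inList E.1.subtype).isOfFinOrder (isOfFinOrder_of_finite y')

include hp in
theorem mem_of_pow (hk : LocFin k) (r : ℕ) [Fact r.Prime] [CharP k r] {t : ↥(D.group k)} (ht : t ∈ TT D k)
    {S : Subgroup ↥(D.group k)} (h : t ^ r ∈ S) : t ∈ S := by
  obtain ⟨m, hm, hm1⟩ := RowsN.exists_coprime hp.inList ht (fin_order hp hk t)
  obtain ⟨a, b, hab⟩ := Nat.isCoprime_iff_coprime.2 hm
  have h1 : t = (t ^ r) ^ b := by
    calc t = t ^ (a * (m : ℤ) + b * (r : ℤ)) := by rw [hab, zpow_one]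
      _ = (t ^ m) ^ a * (t ^ r) ^ b := by
        rw [zpow_add, mul_comm a, mul_comm b, zpow_mul, zpow_mul, zpow_natCast, zpow_natCast]
      _ = _ := by rw [hm1, one_zpow, one_mul]
  rw [h1]
  exact S.zpow_mem h b

end Tor

/-! ### the rational elements -/

section Rat

variable {k : Type u} [Field k] [IsAlgClosed k] {F : Type u} [Field F] (f : F →+* k)

/-- the rational elements of the Levi subgroup -/
noncomputable def L0 : Subgroup ↥(chevE8.group k) :=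
  Subgroup.closure {x | ∃ (s : Fin chevD4.nroots) (t : F), x = xc hp8 (vec chevE8 8 (dE.σ s).val) (f t)}

theorem xc_mem_L0 (s : Fin chevD4.nroots) (t : F) : xc hp8 (vec chevE8 8 (dE.σ s).val) (f t) ∈ L0 f :=
  Subgroup.subset_closure ⟨s, t, rfl⟩

theorem L0_le_LL : L0 f ≤ LL k := by
  refine (Subgroup.closure_le _).2 ?_
  rintro _ ⟨s, t, rfl⟩
  exact xc_mem_LL s (f t)

theorem L0_le_range : L0 f ≤ (emb hp8.inList f).range := by
  refine (Subgroup.closure_le _).2 ?_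
  rintro _ ⟨s, t, rfl⟩
  exact ⟨xc hp8 _ t, emb_xc hp8 f _ t⟩

theorem piL_xc_f (s : Fin chevD4.nroots) (t : F) :
    piL ⟨xc hp8 (vec chevE8 8 (dE.σ s).val) (f t), xc_mem_LL s (f t)⟩ =
      emb hp4.inList f (xc hp4 (vec chevD4 4 s.val) (((dE.ε s : ℤ) : F) * t)) := by
  rw [piL_xc, emb_xc, map_mul, map_intCast]

theorem piL_L0 {x : ↥(LL k)} (h : (x : ↥(chevE8.group k)) ∈ L0 f) : piL x ∈ (emb hp4.inList f).range := by
  have key : L0 f ≤ ((emb hp4.inList f).range.comap piL).map (LL k).subtype := by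
    refine (Subgroup.closure_le _).2 ?_
    rintro _ ⟨s, t, rfl⟩
    refine ⟨⟨_, xc_mem_LL s (f t)⟩, ?_, rfl⟩
    rw [SetLike.mem_coe, Subgroup.mem_comap, piL_xc_f]
    exact ⟨_, rfl⟩
  obtain ⟨y, hy, e⟩ := key h
  have e' : y = x := Subtype.ext e
  rw [← e']
  exact hy

theorem exists_L0 (b : ↥(chevD4.group F)) : ∃ x : ↥(LL k), (x : ↥(chevE8.group k)) ∈ L0 f ∧ piL x = emb hp4.inList f b := by
  obtain ⟨N, hN⟩ : ∃ N : Subgroup ↥(chevD4.group F), N = (((L0 f).subgroupOf (LL k)).map piL).comap (emb hp4.inList f) :=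
    ⟨_, rfl⟩
  have h1 : chevD4.group F ≤ N.map (chevD4.group F).subtype := by
    rw [group_le_iff hp4.inList]
    intro s hs t
    refine ⟨⟨xG hp4.inList s t, xG_mem_group hp4.inList s t⟩, ?_, rfl⟩
    rw [hN, SetLike.mem_coe, Subgroup.mem_comap]
    refine ⟨⟨xc hp8 (vec chevE8 8 (dE.σ ⟨s, hs⟩).val) (f (((dE.ε ⟨s, hs⟩ : ℤ) : F) * t)), xc_mem_LL _ _⟩,
      xc_mem_L0 f _ _, ?_⟩
    rw [piL_xc_f, ← mul_assoc, dE.ε_sq', one_mul]
    congr 1
    apply Subtype.ext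
    rw [coe_xc hp4 hs]
  obtain ⟨b', hb', e⟩ := h1 b.2
  have e' : b' = b := Subtype.ext e
  rw [← e']
  rw [hN] at hb'
  obtain ⟨x, hx, e⟩ := hb'
  exact ⟨x, hx, e⟩

end Rat

/-! ### the Frobenius automorphism -/

section Frob

variable {k : Type u} [Field k] [IsAlgClosed k] {τ : MulAut ↥(chevE8.group k)} {q : ℕ}
  (hτT : ∀ x ∈ TT chevE8 k, τ x ∈ TT chevE8 k)
  (hτ : ∀ (s : Fin chevD4.nroots) (t : k), τ (xc hp8 (vec chevE8 8 (dE.σ s).val) t) =
    xc hp8 (vec chevE8 8 (dE.σ s).val) (t ^ q)) {φ : k →+* k} (hφ : ∀ t, φ t = t ^ q)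

include hτT hτ hφ in
theorem piL_tau {x : ↥(chevE8.group k)} (hx : x ∈ LL k) : ∃ hx' : τ x ∈ LL k,
    ((piL ⟨τ x, hx'⟩ : ↥(chevD4.group k)) : GL chevD4.Idx k) =
      glMap chevD4 φ ((piL ⟨x, hx⟩ : ↥(chevD4.group k)) : GL chevD4.Idx k) := by
  obtain ⟨S, hS⟩ : ∃ S : Subgroup ↥(chevE8.group k), ∀ x, x ∈ S ↔ ∃ (hx : x ∈ LL k) (hx' : τ x ∈ LL k),
      ((piL ⟨τ x, hx'⟩ : ↥(chevD4.group k)) : GL chevD4.Idx k) =
      glMap chevD4 φ ((piL ⟨x, hx⟩ : ↥(chevD4.group k)) : GL chevD4.Idx k) := by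
    refine ⟨⟨⟨⟨{x | ∃ (hx : x ∈ LL k) (hx' : τ x ∈ LL k),
      ((piL ⟨τ x, hx'⟩ : ↥(chevD4.group k)) : GL chevD4.Idx k) =
      glMap chevD4 φ ((piL ⟨x, hx⟩ : ↥(chevD4.group k)) : GL chevD4.Idx k)}, ?_⟩, ?_⟩, ?_⟩, fun x => Iff.rfl⟩
    · rintro a b ⟨ha, ha', ea⟩ ⟨hb, hb', eb⟩
      have h1 : τ (a * b) ∈ LL k := by rw [map_mul]; exact mul_mem ha' hb'
      refine ⟨mul_mem ha hb, h1, ?_⟩
      have e1 : (⟨τ (a * b), h1⟩ : ↥(LL k)) = ⟨τ a, ha'⟩ * ⟨τ b, hb'⟩ := Subtype.ext (map_mul τ a b)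
      have e2 : (⟨a * b, mul_mem ha hb⟩ : ↥(LL k)) = ⟨a, ha⟩ * ⟨b, hb⟩ := rfl
      rw [e1, e2, map_mul, map_mul, Subgroup.coe_mul, Subgroup.coe_mul, ea, eb, map_mul]
    · have h1 : τ 1 ∈ LL k := by rw [map_one]; exact one_mem _
      refine ⟨one_mem _, h1, ?_⟩
      have e1 : (⟨τ 1, h1⟩ : ↥(LL k)) = 1 := Subtype.ext (map_one τ)
      have e2 : (⟨1, one_mem _⟩ : ↥(LL k)) = 1 := rfl
      rw [e1, e2, map_one, Subgroup.coe_one, map_one]
    · rintro a ⟨ha, ha', ea⟩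
      have h1 : τ a⁻¹ ∈ LL k := by rw [map_inv]; exact inv_mem ha'
      refine ⟨inv_mem ha, h1, ?_⟩
      have e1 : (⟨τ a⁻¹, h1⟩ : ↥(LL k)) = ⟨τ a, ha'⟩⁻¹ := Subtype.ext (map_inv τ a)
      have e2 : (⟨a⁻¹, inv_mem ha⟩ : ↥(LL k)) = ⟨a, ha⟩⁻¹ := rfl
      rw [e1, e2, map_inv, map_inv, Subgroup.coe_inv, Subgroup.coe_inv, ea, map_inv]
  have key : LL k ≤ S := by
    refine sup_le ?_ (RGD.Sup_le fun a ha => ?_)
    · intro t ht
      have ht' := hτT t ht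
      refine (hS _).2 ⟨TT_le_LL ht, TT_le_LL ht', ?_⟩
      obtain ⟨h1, h2⟩ := piL_TT (t := ⟨t, TT_le_LL ht⟩) ht
      obtain ⟨h3, h4⟩ := piL_TT (t := ⟨τ t, TT_le_LL ht'⟩) ht'
      apply Units.ext
      rw [coe_glMap, coe_TT hp4 h1, coe_TT hp4 h3, Matrix.diagonal_map (map_zero φ)]
      congr 1
      funext i
      rcases i with i | s
      · exact (map_one φ).symm
      · show ch hp4 (vec chevD4 4 s.val) _ = φ (ch hp4 (vec chevD4 4 s.val) _)
        rw [h2 s, h4 s, hφ]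
        refine ch_eq hp8 (dE.σ s).2 ht' ?_
        have h5 := hτ s 1
        rw [one_pow] at h5
        rw [← h5]
        show τ t * τ _ * (τ t)⁻¹ = _
        rw [← map_mul, ← map_inv, ← map_mul, (act hp8 (dE.σ s).2 ht).2, mul_one, hτ]
    · intro y hy
      obtain ⟨s, rfl⟩ := mem_DL.1 ha
      obtain ⟨t, rfl⟩ := (mem_XX8 (isRoot_vec hp8 cs8 (dE.σ s).2)).1 hy
      have h1 : τ (xc hp8 (vec chevE8 8 (dE.σ s).val) t) ∈ LL k := by rw [hτ]; exact xc_mem_LL s _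
      refine (hS _).2 ⟨xc_mem_LL s t, h1, ?_⟩
      have e1 : (⟨τ (xc hp8 (vec chevE8 8 (dE.σ s).val) t), h1⟩ : ↥(LL k)) =
        ⟨xc hp8 (vec chevE8 8 (dE.σ s).val) (t ^ q), xc_mem_LL s _⟩ := Subtype.ext (hτ s t)
      rw [e1, piL_xc, piL_xc, coe_xc hp4 s.2, coe_xc hp4 s.2, glMap_xG, map_mul, map_intCast, hφ]
  obtain ⟨h1, h2, h3⟩ := (hS x).1 (key hx)
  exact ⟨h2, h3⟩

variable {F : Type u} [Field F] [Fintype F] {f : F →+* k} (hF : Fintype.card F = q)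

include hτ hF in
theorem tau_fix {x : ↥(chevE8.group k)} (hx : x ∈ L0 f) : τ x = x := by
  have key : L0 f ≤ τ.toMonoidHom.eqLocus (MonoidHom.id _) := by
    refine (Subgroup.closure_le _).2 ?_
    rintro _ ⟨s, t, rfl⟩
    show τ _ = _
    rw [hτ, ← map_pow, ← hF, FiniteField.pow_card]
    rfl
  exact key hx

include hτT hτ hφ hF in
/-- fixed points normalise the rational points of the quotient -/
theorem norm_range {y : ↥(LL k)} (hy : τ y = y) (b : ↥(chevD4.group F)) :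
    ∃ c, emb hp4.inList f c = piL y * emb hp4.inList f b * (piL y)⁻¹ := by
  obtain ⟨h1, h2⟩ := piL_tau hτT hτ hφ y.2
  have e : (⟨τ y, h1⟩ : ↥(LL k)) = y := Subtype.ext hy
  rw [e] at h2
  have h3 := Emb.mem_normalizer hp4.inList (f := f) (Emb.fix_iff_range (φ := φ) (fun t => by rw [hφ, hF])) (piL y).2 h2.symm
  have h4 : (glMap chevD4 f (b : GL chevD4.Idx F) : GL chevD4.Idx k) ∈ (chevD4.group F).map (glMap chevD4 f) :=
    ⟨b, b.2, rfl⟩
  obtain ⟨z, hz, e⟩ := (Subgroup.mem_normalizer_iff.1 h3 _).1 h4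
  exact ⟨⟨z, hz⟩, Subtype.ext e⟩

variable (hk : LocFin k) (r : ℕ) [Fact r.Prime] [CharP k r]

include hk in
theorem xc_pow_r (s : Fin chevD4.nroots) (t : k) :
    (xc hp8 (vec chevE8 8 (dE.σ s).val) t : ↥(chevE8.group k)) ^ r = 1 := by
  have h1 : ∀ n : ℕ, (xc hp8 (vec chevE8 8 (dE.σ s).val) t : ↥(chevE8.group k)) ^ n =
      xc hp8 (vec chevE8 8 (dE.σ s).val) ((n : k) * t) := by
    intro n
    induction n with
    | zero => rw [pow_zero, Nat.cast_zero, zero_mul, xc_z hp8 (dE.σ s).2]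
    | succ n ih =>
      rw [pow_succ, ih]
      apply Subtype.ext
      rw [Subgroup.coe_mul, coe_xc hp8 (dE.σ s).2, coe_xc hp8 (dE.σ s).2, coe_xc hp8 (dE.σ s).2, xG_add]
      congr 1
      push_cast
      ring
  rw [h1, CharP.cast_eq_zero, zero_mul, xc_z hp8 (dE.σ s).2]

include hτT hτ hφ hF hk r in
/-- fixed points normalise the rational elements -/
theorem norm_L0 {y : ↥(LL k)} (hy : τ y = y) {x : ↥(chevE8.group k)} (hx : x ∈ L0 f) :
    (y : ↥(chevE8.group k)) * x * (y : ↥(chevE8.group k))⁻¹ ∈ L0 f := by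
  have key : L0 f ≤ (L0 f).comap (MulAut.conj (y : ↥(chevE8.group k))).toMonoidHom := by
    refine (Subgroup.closure_le _).2 ?_
    rintro _ ⟨s, t, rfl⟩
    show (y : ↥(chevE8.group k)) * xc hp8 (vec chevE8 8 (dE.σ s).val) (f t) * (y : ↥(chevE8.group k))⁻¹ ∈ L0 f
    obtain ⟨c, hc⟩ := norm_range hτT hτ hφ hF hy (f := f) (xc hp4 (vec chevD4 4 s.val) (((dE.ε s : ℤ) : F) * t))
    obtain ⟨x', hx', e⟩ := exists_L0 f c
    obtain ⟨x₁, hx₁⟩ : ∃ x₁ : ↥(LL k), x₁ = ⟨xc hp8 (vec chevE8 8 (dE.σ s).val) (f t), xc_mem_LL s (f t)⟩ := ⟨_, rfl⟩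
    have e1 : piL x₁ = emb hp4.inList f (xc hp4 (vec chevD4 4 s.val) (((dE.ε s : ℤ) : F) * t)) := by
      rw [hx₁, piL_xc_f]
    obtain ⟨z, hz⟩ : ∃ z : ↥(LL k), z = x'⁻¹ * (y * x₁ * y⁻¹) := ⟨_, rfl⟩
    have hz1 : piL z = 1 := by
      rw [hz, map_mul, map_mul, map_mul, map_inv, map_inv, e1, ← hc, e, inv_mul_cancel]
    have hzT := ((ker_piL hk r).1 hz1).1
    have hzc := ker_comm hk r hz1
    have e2 : y * x₁ * y⁻¹ = x' * z := by rw [hz]; group
    have e3 : (y * x₁ * y⁻¹) ^ r = 1 := by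
      rw [conj_pow]
      have : x₁ ^ r = 1 := by
        apply Subtype.ext
        rw [Subgroup.coe_pow, hx₁]
        exact xc_pow_r hk r s (f t)
      rw [this, mul_one, mul_inv_cancel]
    have e4 : x' ^ r * z ^ r = 1 := by
      rw [← (Commute.mul_pow (show Commute x' z from (hzc x').symm) r), ← e2, e3]
    have h5 : (z : ↥(chevE8.group k)) ^ r ∈ L0 f := by
      have h6 := congrArg (fun g : ↥(LL k) => (g : ↥(chevE8.group k))) (eq_inv_of_mul_eq_one_right e4)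
      simp only [Subgroup.coe_pow, Subgroup.coe_inv] at h6
      rw [h6]
      exact inv_mem (pow_mem hx' r)
    have h6 := mem_of_pow hp8 hk r hzT h5
    have h7 := congrArg (fun g : ↥(LL k) => (g : ↥(chevE8.group k))) e2
    simp only [Subgroup.coe_mul, Subgroup.coe_inv] at h7
    rw [hx₁] at h7
    rw [h7]
    exact mul_mem hx' h6
  exact key hx

include hτT hτ hφ hF hk r in
/-- commuting modulo the center implies commuting -/
theorem comm_of {p : ℕ} (hpq : Nat.Coprime p (q - 1)) {y : ↥(LL k)} (hy : τ y = y) (hyp : y ^ p = 1)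
    {x : ↥(LL k)} (hx : (x : ↥(chevE8.group k)) ∈ L0 f) (hxy : piL y * piL x = piL x * piL y) : y * x = x * y := by
  obtain ⟨c, hc⟩ : ∃ c : ↥(LL k), c = y * x * y⁻¹ * x⁻¹ := ⟨_, rfl⟩
  have hc1 : piL c = 1 := by
    rw [hc, map_mul, map_mul, map_mul, map_inv, map_inv, hxy]
    group
  have hcc := ker_comm hk r hc1
  have h1 : (c : ↥(chevE8.group k)) ∈ L0 f := by
    rw [hc]
    simp only [Subgroup.coe_mul, Subgroup.coe_inv]
    exact mul_mem (norm_L0 hτT hτ hφ hF hk r hy hx) (inv_mem hx)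
  have h2 : c ^ (q - 1) = 1 := by
    apply Subtype.ext
    rw [Subgroup.coe_pow, ← hF]
    exact pow_of_range hp8 hk r f ((ker_piL hk r).1 hc1).1 (L0_le_range f h1)
  have e : y * x * y⁻¹ = c * x := by rw [hc]; group
  have h3 : ∀ n : ℕ, y ^ n * x * (y ^ n)⁻¹ = c ^ n * x := by
    intro n
    induction n with
    | zero => simp
    | succ n ih =>
      have : y ^ (n + 1) * x * (y ^ (n + 1))⁻¹ = y * (y ^ n * x * (y ^ n)⁻¹) * y⁻¹ := by
        rw [pow_succ']; group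
      rw [this, ih, pow_succ']
      have h4 : y * c ^ n = c ^ n * y := ((Commute.pow_left (show Commute c y from hcc y) n).eq).symm
      calc y * (c ^ n * x) * y⁻¹ = (y * c ^ n) * x * y⁻¹ := by group
        _ = c ^ n * (y * x * y⁻¹) := by rw [h4]; group
        _ = c * c ^ n * x := by rw [e, ← mul_assoc, ← pow_succ, pow_succ']
  have h4 : c ^ p = 1 := by
    have := h3 p
    rw [hyp, one_mul, inv_one, mul_one] at this
    exact (mul_eq_right.1 this.symm)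
  have h5 := pow_gcd_eq_one.2 ⟨h4, h2⟩
  rw [hpq.gcd_eq_one, pow_one] at h5
  rw [h5, one_mul, mul_inv_eq_iff_eq_mul] at e
  exact e

/-- **The core.** -/
theorem core (hk : LocFin k) (r : ℕ) [Fact r.Prime] [CharP k r] (hZ : Subgroup.center ↥(chevD4.group k) = ⊥)
    (hτT : ∀ x ∈ TT chevE8 k, τ x ∈ TT chevE8 k)
    (hτ : ∀ (s : Fin chevD4.nroots) (t : k), τ (xc hp8 (vec chevE8 8 (dE.σ s).val) t) =
      xc hp8 (vec chevE8 8 (dE.σ s).val) (t ^ q)) (hφ : ∀ t, φ t = t ^ q) (hF : Fintype.card F = q)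
    {p : ℕ} [hpp : Fact p.Prime] (hpq : Nat.Coprime p (q - 1)) (hqr : Nat.Coprime r (q - 1))
    (hG : H818.Gen.Gen p ↥(chevD4.group F)) {E : Subgroup ↥(chevE8.group k)} (hE : IsElementaryAbelian p E)
    (hEL : E ≤ LL k) (hEτ : ∀ y ∈ E, τ y = y)
    (hcard : p ^ 2 ≤ Nat.card ↥(((E.subgroupOf (LL k)).map piL : Subgroup ↥(chevD4.group k))))
    (N : Subgroup ↥(chevE8.group k))
    (hN : ∀ x ∈ L0 f, ∀ E' ≤ E, E'.relIndex E = p → (∀ y ∈ E', y * x = x * y) → x ∈ N)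
    (s : Fin chevD4.nroots) (t : F) : xc hp8 (vec chevE8 8 (dE.σ s).val) (f t) ∈ N := by
  -- the action on the rational points of the quotient
  obtain ⟨X, hX⟩ : ∃ X : Subgroup ↥(chevD4.group k), X = (E.subgroupOf (LL k)).map piL := ⟨_, rfl⟩
  have hXn : ∀ y : ↥X, ∀ a : ↥(chevD4.group F), ∃ b, emb hp4.inList f b = y * emb hp4.inList f a * (y : ↥(chevD4.group k))⁻¹ := by
    rintro ⟨y, hy⟩ a
    rw [hX] at hy
    obtain ⟨y', hy', rfl⟩ := hy
    exact norm_range hτT hτ hφ hF (hEτ _ hy') a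
  obtain ⟨A, hA⟩ : ∃ A : ↥X →* MulAut ↥(chevD4.group F), ∀ y a, emb hp4.inList f (A y a) =
      y * emb hp4.inList f a * (y : ↥(chevD4.group k))⁻¹ := by
    classical
    have hι := emb_injective hp4.inList f
    choose b hb using hXn
    have h1 : ∀ a, b 1 a = a := fun a => hι (by rw [hb]; simp)
    have h2 : ∀ y z a, b (y * z) a = b y (b z a) := fun y z a => hι (by
      rw [hb, hb, hb]
      simp only [Subgroup.coe_mul, mul_inv_rev, mul_assoc])
    have h3 : ∀ y a a', b y (a * a') = b y a * b y a' := fun y a a' => hι (by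
      rw [map_mul, hb, hb, hb, map_mul]
      group)
    refine ⟨MonoidHom.mk' (fun y => (⟨⟨b y, b y⁻¹, fun a => ?_, fun a => ?_⟩, h3 y⟩ :
      ↥(chevD4.group F) ≃* ↥(chevD4.group F))) ?_, ?_⟩
    · rw [← h2, inv_mul_cancel, h1]
    · rw [← h2, mul_inv_cancel, h1]
    · intro y z
      exact MulEquiv.ext fun a => h2 y z a
    · intro y a
      exact hb y a
  have hAi : Function.Injective A := by
    rw [injective_iff_map_eq_one]
    intro y hy
    refine Subtype.ext (FamUntw.eq_one_of_comm hp4 hk r f hZ fun a => ?_)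
    have h1 := hA y a
    rw [hy] at h1
    exact (eq_mul_inv_iff_mul_eq.1 h1).symm
  -- the homomorphism from `E`
  have hmemX : ∀ y : ↥E, piL ⟨y, hEL y.2⟩ ∈ X := fun y => by
    rw [hX]; exact ⟨⟨y, hEL y.2⟩, y.2, rfl⟩
  obtain ⟨B, hB⟩ : ∃ B : ↥E →* ↥X, ∀ y : ↥E, ((B y : ↥X) : ↥(chevD4.group k)) = piL ⟨y, hEL y.2⟩ :=
    ⟨(piL.comp (Subgroup.inclusion hEL)).codRestrict X hmemX, fun y => rfl⟩
  have hBs : Function.Surjective B := by
    rintro ⟨y, hy⟩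
    have hy' := hy
    rw [hX] at hy'
    obtain ⟨⟨z, hz⟩, hz', e⟩ := hy'
    exact ⟨⟨z, hz'⟩, Subtype.ext (by rw [hB]; exact e)⟩
  obtain ⟨Φ, hΦ⟩ : ∃ Φ : ↥E →* MulAut ↥(chevD4.group F), Φ = A.comp B := ⟨_, rfl⟩
  have hΦr : Φ.range = A.range := by
    rw [hΦ, MonoidHom.range_eq_map, ← Subgroup.map_map, ← MonoidHom.range_eq_map,
      MonoidHom.range_eq_top.2 hBs, ← MonoidHom.range_eq_map]
  have hΦa : ∀ (y : ↥E) a, emb hp4.inList f (Φ y a) = piL ⟨y, hEL y.2⟩ * emb hp4.inList f a * (piL ⟨y, hEL y.2⟩)⁻¹ := by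
    intro y a
    rw [hΦ, ← hB]
    exact hA _ a
  have hcomm : IsMulCommutative ↥E := hE.1
  have hel : IsElementaryAbelian p Φ.range := by
    refine ⟨⟨⟨?_⟩⟩, ?_⟩
    · rintro ⟨_, a, rfl⟩ ⟨_, b, rfl⟩
      refine Subtype.ext ?_
      show Φ a * Φ b = Φ b * Φ a
      rw [← map_mul, ← map_mul, hcomm.1.1 a b]
    · rintro _ ⟨a, rfl⟩
      rw [← map_pow, show a ^ p = 1 from Subtype.ext (hE.2 a.1 a.2), map_one]
  have hcd : p ^ 2 ≤ Nat.card ↥Φ.range := by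
    rw [hΦr, ← Nat.card_congr (MonoidHom.ofInjective hAi).toEquiv, hX]
    exact hcard
  have htop := hG Φ.range hel hcd
  -- all elements lift into `N`
  have hlift : ∀ a : ↥(chevD4.group F), ∃ x : ↥(LL k), (x : ↥(chevE8.group k)) ∈ L0 f ∧
      (x : ↥(chevE8.group k)) ∈ N ∧ piL x = emb hp4.inList f a := by
    intro a
    have ha : a ∈ H818.Gen.Gam p Φ.range := by rw [htop]; exact Subgroup.mem_top a
    refine Subgroup.closure_induction (p := fun a _ => ∃ x : ↥(LL k), (x : ↥(chevE8.group k)) ∈ L0 f ∧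
      (x : ↥(chevE8.group k)) ∈ N ∧ piL x = emb hp4.inList f a) ?_ ?_ ?_ ?_ ha
    · rintro a ⟨F', hF', hi, hfix⟩
      obtain ⟨x, hx, e⟩ := exists_L0 f a
      refine ⟨x, hx, ?_, e⟩
      refine hN _ hx ((F'.comap Φ).map E.subtype) (Subgroup.map_subtype_le _) ?_ ?_
      · have h2 : ((F'.comap Φ).map E.subtype).subgroupOf E = F'.comap Φ := by
          rw [← Subgroup.comap_subtype]
          exact Subgroup.comap_map_eq_self_of_injective E.subtype_injective _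
        rw [Subgroup.relIndex, h2, Subgroup.index_comap]
        exact hi
      · rintro _ ⟨y, hy, rfl⟩
        have h3 := hfix _ hy
        have h4 := hΦa y a
        rw [h3] at h4
        have h5 : piL ⟨y, hEL y.2⟩ * piL x = piL x * piL ⟨y, hEL y.2⟩ := by
          rw [e]
          exact (eq_mul_inv_iff_mul_eq.1 h4).symm
        have h6 := comm_of hτT hτ hφ hF hk r hpq (y := ⟨y, hEL y.2⟩) (hEτ _ y.2) (Subtype.ext (hE.2 y.1 y.2)) hx h5
        exact congrArg (fun g : ↥(LL k) => (g : ↥(chevE8.group k))) h6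
    · exact ⟨1, one_mem _, one_mem _, by rw [map_one, map_one]⟩
    · rintro a b - - ⟨x, hx, hxN, ex⟩ ⟨y, hy, hyN, ey⟩
      exact ⟨x * y, mul_mem hx hy, mul_mem hxN hyN, by rw [map_mul, map_mul, ex, ey]⟩
    · rintro a - ⟨x, hx, hxN, ex⟩
      exact ⟨x⁻¹, inv_mem hx, inv_mem hxN, by rw [map_inv, map_inv, ex]⟩
  -- conclusion
  obtain ⟨x₁, hx₁⟩ : ∃ x₁ : ↥(LL k), x₁ = ⟨xc hp8 (vec chevE8 8 (dE.σ s).val) (f t), xc_mem_LL s (f t)⟩ := ⟨_, rfl⟩
  have e1 : piL x₁ = emb hp4.inList f (xc hp4 (vec chevD4 4 s.val) (((dE.ε s : ℤ) : F) * t)) := by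
    rw [hx₁, piL_xc_f]
  obtain ⟨x, hx, hxN, ex⟩ := hlift (xc hp4 (vec chevD4 4 s.val) (((dE.ε s : ℤ) : F) * t))
  obtain ⟨z, hz⟩ : ∃ z : ↥(LL k), z = x⁻¹ * x₁ := ⟨_, rfl⟩
  have hz1 : piL z = 1 := by rw [hz, map_mul, map_inv, ex, e1, inv_mul_cancel]
  have hzT := ((ker_piL hk r).1 hz1).1
  have hzc := ker_comm hk r hz1
  have hx0 : (x₁ : ↥(chevE8.group k)) ∈ L0 f := by rw [hx₁]; exact xc_mem_L0 f s t
  have h1 : (z : ↥(chevE8.group k)) ∈ L0 f := by
    rw [hz]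
    exact mul_mem (inv_mem hx) hx0
  have h2 : z ^ (q - 1) = 1 := by
    apply Subtype.ext
    rw [Subgroup.coe_pow, ← hF]
    exact pow_of_range hp8 hk r f hzT (L0_le_range f h1)
  have e2 : x₁ = x * z := by rw [hz]; group
  have h3 : x₁ ^ (q - 1) = x ^ (q - 1) := by
    rw [e2, (show Commute x z from (hzc x).symm).mul_pow, h2, mul_one]
  have h4 : (x₁ : ↥(chevE8.group k)) ^ (q - 1) ∈ N := by
    have h5 := congrArg (fun g : ↥(LL k) => (g : ↥(chevE8.group k))) h3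
    simp only [Subgroup.coe_pow] at h5
    rw [h5]
    exact pow_mem hxN _
  have h5 : (x₁ : ↥(chevE8.group k)) ^ r = 1 := by
    rw [hx₁]; exact xc_pow_r hk r s (f t)
  have h6 : (x₁ : ↥(chevE8.group k)) ∈ N := by
    obtain ⟨a, b, hab⟩ := Nat.isCoprime_iff_coprime.2 hqr
    have h7 : (x₁ : ↥(chevE8.group k)) = ((x₁ : ↥(chevE8.group k)) ^ (q - 1)) ^ b := by
      calc (x₁ : ↥(chevE8.group k)) = (x₁ : ↥(chevE8.group k)) ^ (a * (r : ℤ) + b * ((q - 1 : ℕ) : ℤ)) := by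
            rw [hab, zpow_one]
        _ = ((x₁ : ↥(chevE8.group k)) ^ r) ^ a * ((x₁ : ↥(chevE8.group k)) ^ (q - 1)) ^ b := by
          rw [zpow_add, mul_comm a, mul_comm b, zpow_mul, zpow_mul, zpow_natCast, zpow_natCast]
        _ = _ := by rw [h5, one_zpow, one_mul]
    rw [h7]
    exact N.zpow_mem h4 b
  rw [hx₁] at h6
  exact h6

end Frob

end Cfsg.Agent.H230.X3
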